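import Mathlib
import Cfsg.Agent.Lib.Helper2.PComp
import Cfsg.Agent.Lib.Helper2.FusCtl

set_option autoImplicit false

namespace Cfsg.Agent.Lib.Helper2.Hall

variable {G : Type*} [Group G] [Finite G]

/-- A Hall subgroup `H` has a normal complement as soon as `G` has a normal `p`-complement for
every prime `p` dividing `|H|`. -/
theorem exists_normal_complement_of_forall (H : Subgroup G)
    (hHall : Nat.Coprime (Nat.card H) H.index)
    (hK : ∀ p : ℕ, p.Prime → p ∣ Nat.card H → Cfsg.HasNormalPComplement p G) :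
    ∃ N : Subgroup G, N.Normal ∧ N.IsComplement' H := by
  classical
  set π := (Nat.card H).primeFactors with hπ
  have hH0 : Nat.card H ≠ 0 := Nat.card_pos.ne'
  have hprime : ∀ p : π, (p : ℕ).Prime := fun p => Nat.prime_of_mem_primeFactors p.2
  have hdvd : ∀ p : π, (p : ℕ) ∣ Nat.card H := fun p => Nat.dvd_of_mem_primeFactors p.2
  have hex : ∀ p : π, ∃ K : Subgroup G, K.Normal ∧
      (∀ x ∈ K, Nat.Coprime (orderOf x) p) ∧ K.index = (p : ℕ) ^ (Nat.card H).factorization p := by
    intro p
    haveI : Fact (p : ℕ).Prime := ⟨hprime p⟩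
    obtain ⟨P, K, hKn, hKc⟩ := hK p (hprime p) (hdvd p)
    refine ⟨K, hKn, fun x hx => PComp.coprime_orderOf_of_mem P K hKc hx, ?_⟩
    rw [hKc.symm.index_eq_card, Sylow.card_eq_multiplicity]
    congr 1
    have h1 : Nat.card G = Nat.card H * H.index := H.card_mul_index.symm
    have h2 : H.index ≠ 0 := Subgroup.index_ne_zero_of_finite
    rw [h1, Nat.factorization_mul hH0 h2]
    have h3 : ¬ (p : ℕ) ∣ H.index := by
      intro h
      have := Nat.Coprime.eq_one_of_dvd (Nat.Coprime.coprime_dvd_left (hdvd p) hHall) h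
      exact (hprime p).ne_one this
    simp [Nat.factorization_eq_zero_of_not_dvd h3]
  choose K hKn hKo hKi using hex
  haveI : ∀ p, (K p).Normal := hKn
  refine ⟨⨅ p, K p, Subgroup.normal_iInf_normal hKn, ?_⟩
  set N := ⨅ p, K p with hN
  haveI : N.Normal := Subgroup.normal_iInf_normal hKn
  -- disjointness
  have hdisj : N ⊓ H = ⊥ := by
    rw [eq_bot_iff]
    rintro x ⟨hxN, hxH⟩
    rw [Subgroup.mem_bot]
    have h1 : orderOf x ∣ Nat.card H := Subgroup.orderOf_dvd_natCard H hxH
    have h2 : orderOf x = 1 := by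
      rw [Nat.eq_one_iff_not_exists_prime_dvd]
      intro q hq hqx
      have hqπ : q ∈ π := Nat.mem_primeFactors.mpr ⟨hq, hqx.trans h1, hH0⟩
      have hxK : x ∈ K ⟨q, hqπ⟩ := by
        have : N ≤ K ⟨q, hqπ⟩ := iInf_le _ _
        exact this hxN
      have := hKo ⟨q, hqπ⟩ x hxK
      have h3 : q ∣ Nat.gcd (orderOf x) q := Nat.dvd_gcd hqx dvd_rfl
      rw [Nat.Coprime] at this
      rw [this] at h3
      exact hq.ne_one (Nat.dvd_one.mp h3)
    exact orderOf_eq_one_iff.mp h2
  -- index bound
  have hidx : N.index ≤ Nat.card H := by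
    have h1 : N.index ≤ ∏ p : π, (K p).index := Subgroup.index_iInf_le K
    have h2 : ∏ p : π, (K p).index = Nat.card H := by
      simp_rw [hKi]
      rw [Finset.prod_coe_sort π (fun p => p ^ (Nat.card H).factorization p)]
      have := Nat.prod_factorization_pow_eq_self hH0
      rw [Finsupp.prod, Nat.support_factorization] at this
      exact this
    rw [h2] at h1
    exact h1
  -- counting
  have hsup : Nat.card (N ⊔ H : Subgroup G) = Nat.card N * Nat.card H := by
    have h1 : Nat.card N * N.relIndex (N ⊔ H) = Nat.card (N ⊔ H : Subgroup G) :=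
      FusCtl.card_mul_relIndex le_sup_left
    rw [Subgroup.relIndex_sup_left, ← Subgroup.inf_relIndex_right, hdisj,
      Subgroup.relIndex_bot_left] at h1
    exact h1.symm
  have hle : Nat.card N * Nat.card H ≤ Nat.card G := by
    rw [← hsup]; exact Subgroup.card_le_card_group _
  have hNG : Nat.card N * N.index = Nat.card G := N.card_mul_index
  have hNpos : 0 < Nat.card N := Nat.card_pos
  have heq : N.index = Nat.card H := by
    apply le_antisymm hidx
    rw [← hNG] at hle
    exact Nat.le_of_mul_le_mul_left hle hNpos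
  apply Subgroup.isComplement'_of_card_mul_and_disjoint
  · rw [← heq]; exact hNG
  · exact disjoint_iff.mpr hdisj

end Cfsg.Agent.Lib.Helper2.Hall
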