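import Mathlib
import Cfsg.Agent.Lib.Helper2.NC
import Cfsg.Agent.Lib.Helper2.FusCtl

set_option autoImplicit false

namespace Cfsg.Agent.Lib.Helper2.Hall2

open scoped Pointwise

variable {G : Type*} [Group G] [Finite G]

/-- Sylow subgroups of `G` contained in a subgroup `D` are conjugate in `D`. -/
theorem exists_smul_eq_of_le {q : ℕ} [Fact q.Prime] (A A' : Sylow q G) (D : Subgroup G)
    (hA : (A : Subgroup G) ≤ D) (hA' : (A' : Subgroup G) ≤ D) : ∃ d ∈ D, d • A' = A := by
  obtain ⟨d, hd⟩ := MulAction.exists_smul_eq D (A'.subtype hA') (A.subtype hA)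
  rw [Sylow.smul_subtype] at hd
  exact ⟨d, d.2, Sylow.subtype_injective hd⟩

omit [Finite G] in
/-- the normalizer of a subgroup normalizes its centralizer -/
theorem conj_mem_centralizer (P : Subgroup G) {g h : G}
    (hg : g ∈ Subgroup.normalizer (P : Set G)) (hh : h ∈ Subgroup.centralizer (P : Set G)) :
    g * h * g⁻¹ ∈ Subgroup.centralizer (P : Set G) := by
  rw [Subgroup.mem_centralizer_iff] at hh ⊢
  intro x hx
  have hx' : g⁻¹ * x * g ∈ P := (Subgroup.mem_normalizer_iff''.mp hg x).mp hx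
  have := hh _ hx'
  calc x * (g * h * g⁻¹) = g * (g⁻¹ * x * g * h) * g⁻¹ := by group
    _ = g * (h * (g⁻¹ * x * g)) * g⁻¹ := by rw [this]
    _ = g * h * g⁻¹ * x := by group

omit [Finite G] in
theorem normalizer_le_normalizer_centralizer (P : Subgroup G) :
    Subgroup.normalizer (P : Set G) ≤
      Subgroup.normalizer ((Subgroup.centralizer (P : Set G) : Subgroup G) : Set G) := by
  intro g hg
  rw [Subgroup.mem_normalizer_iff]
  intro h
  constructor
  · exact conj_mem_centralizer P hg
  · intro hh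
    have := conj_mem_centralizer P (Subgroup.inv_mem _ hg) hh
    have e : g⁻¹ * (g * h * g⁻¹) * g⁻¹⁻¹ = h := by group
    rwa [e] at this

/-- iterated Sylow argument: a family of pairwise normalizing Sylow subgroups inside `C` can be
simultaneously normalized after multiplying by an element of `C`. -/
theorem exists_mul_mem_normalizer (C : Subgroup G) (g : G)
    (hg : g ∈ Subgroup.normalizer (C : Set G)) (B : ℕ → Subgroup G) (s : Finset ℕ)
    (hprime : ∀ r ∈ s, r.Prime) (hBC : ∀ r ∈ s, B r ≤ C)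
    (hBp : ∀ r ∈ s, IsPGroup r (B r)) (hBi : ∀ r ∈ s, ¬ r ∣ (B r).index)
    (hBN : ∀ r ∈ s, ∀ r' ∈ s, B r ≤ Subgroup.normalizer (B r' : Set G)) :
    ∃ c ∈ C, ∀ r ∈ s, c * g ∈ Subgroup.normalizer (B r : Set G) := by
  classical
  induction s using Finset.induction_on with
  | empty => exact ⟨1, one_mem _, by simp⟩
  | insert q s hq ih =>
    obtain ⟨c, hcC, hc⟩ := ih (fun r hr => hprime r (Finset.mem_insert_of_mem hr))
      (fun r hr => hBC r (Finset.mem_insert_of_mem hr))
      (fun r hr => hBp r (Finset.mem_insert_of_mem hr))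
      (fun r hr => hBi r (Finset.mem_insert_of_mem hr))
      (fun r hr r' hr' => hBN r (Finset.mem_insert_of_mem hr) r' (Finset.mem_insert_of_mem hr'))
    have hqs : q ∈ insert q s := Finset.mem_insert_self q s
    haveI : Fact q.Prime := ⟨hprime q hqs⟩
    set g₁ := c * g with hg₁
    have hg₁C : g₁ ∈ Subgroup.normalizer (C : Set G) :=
      Subgroup.mul_mem _ (Subgroup.le_normalizer hcC) hg
    let A : Sylow q G := (hBp q hqs).toSylow (hBi q hqs)
    set D : Subgroup G := C ⊓ ⨅ r ∈ s, Subgroup.normalizer (B r : Set G) with hD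
    have hAD : (A : Subgroup G) ≤ D := by
      refine le_inf (hBC q hqs) ?_
      refine le_iInf₂ fun r hr => ?_
      exact hBN q hqs r (Finset.mem_insert_of_mem hr)
    have hA'D : ((g₁ • A : Sylow q G) : Subgroup G) ≤ D := by
      intro x hx
      have hx' : g₁⁻¹ * x * g₁ ∈ B q := (FusCtl.mem_smul_sylow A g₁ x).mp hx
      refine Subgroup.mem_inf.mpr ⟨?_, ?_⟩
      · exact (Subgroup.mem_normalizer_iff''.mp hg₁C x).mpr (hBC q hqs hx')
      · simp only [Subgroup.mem_iInf]
        intro r hr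
        have h1 : g₁⁻¹ * x * g₁ ∈ Subgroup.normalizer (B r : Set G) :=
          hBN q hqs r (Finset.mem_insert_of_mem hr) hx'
        have h2 : g₁ ∈ Subgroup.normalizer (B r : Set G) := hc r hr
        have e : x = g₁ * (g₁⁻¹ * x * g₁) * g₁⁻¹ := by group
        rw [e]
        exact Subgroup.mul_mem _ (Subgroup.mul_mem _ h2 h1) (Subgroup.inv_mem _ h2)
    obtain ⟨d, hdD, hd⟩ := exists_smul_eq_of_le A (g₁ • A) D hAD hA'D
    refine ⟨d * c, Subgroup.mul_mem _ (Subgroup.mem_inf.mp hdD).1 hcC, ?_⟩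
    intro r hr
    have e : d * c * g = d * g₁ := by rw [hg₁]; group
    rw [e]
    rcases Finset.mem_insert.mp hr with rfl | hr'
    · have h1 : (d * g₁) • A = A := by rw [mul_smul, hd]
      exact Sylow.smul_eq_iff_mem_normalizer.mp h1
    · have h1 : d ∈ Subgroup.normalizer (B r : Set G) := by
        have h2 : d ∈ ⨅ r ∈ s, Subgroup.normalizer (B r : Set G) := (Subgroup.mem_inf.mp hdD).2
        simp only [Subgroup.mem_iInf] at h2
        exact h2 r hr'
      exact Subgroup.mul_mem _ h1 (hc r hr')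

end Cfsg.Agent.Lib.Helper2.Hall2
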