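import Mathlib
import Cfsg.Agent.Lib.Helper25.ACStmt

set_option autoImplicit false

/-! S3912 piece NOEIGHT. -/

namespace Cfsg.Agent.Lib.Helper2.ACNOEIGHT

open Cfsg.Agent.Lib.Helper25.ACStmt

universe u

theorem main (hV : VCore.{u}) (hN : NoEightHat.{u}) : NoEight.{u} := by
  intro G _ _ hsol hB hinv P₁ h8 hnab x hx
  obtain ⟨K, hKn, hKodd, huniq, V, hVn, hV8, hVnab, hV4⟩ := hV G hsol hB hinv P₁ h8 hnab
  haveI := hKn
  refine hN (G ⧸ K) huniq V hVn hV8 hVnab hV4 (QuotientGroup.mk' K x) ?_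
  have hx8 : x ^ 8 = 1 := by rw [← hx]; exact pow_orderOf_eq_one x
  have hd : orderOf (QuotientGroup.mk' K x) ∣ 2 ^ 3 := by
    apply orderOf_dvd_of_pow_eq_one
    rw [← map_pow]
    norm_num [hx8]
  obtain ⟨k, hk, hk2⟩ := (Nat.dvd_prime_pow Nat.prime_two).1 hd
  rcases Nat.lt_or_ge k 3 with h | h
  · exfalso
    have h4 : (QuotientGroup.mk' K x) ^ 4 = 1 := by
      apply orderOf_dvd_iff_pow_eq_one.1
      rw [hk2]
      exact pow_dvd_pow 2 (by omega : k ≤ 2)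
    have hxK : x ^ 4 ∈ K := by
      rw [← map_pow] at h4
      exact (QuotientGroup.eq_one_iff _).1 h4
    have ho : orderOf (⟨x ^ 4, hxK⟩ : K) ∣ Nat.card K := orderOf_dvd_natCard _
    have ho2 : orderOf (⟨x ^ 4, hxK⟩ : K) = 2 := by
      rw [← Subgroup.orderOf_coe]
      show orderOf (x ^ 4) = 2
      rw [orderOf_pow_of_dvd (by norm_num) (by rw [hx]; norm_num), hx]
    rw [ho2] at ho
    have : Even (Nat.card K) := even_iff_two_dvd.2 ho
    exact (Nat.not_even_iff_odd.2 hKodd) this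
  · have hk3 : k = 3 := by omega
    rw [hk2, hk3]
    norm_num

end Cfsg.Agent.Lib.Helper2.ACNOEIGHT
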