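import Mathlib
import Cfsg.Agent.Lib.Helper25.ACStmt

set_option autoImplicit false

/-! S3912 piece VALL4. -/

namespace Cfsg.Agent.Lib.Helper2.ACVALL4

open Cfsg.Agent.Lib.Helper25.ACStmt

universe u

theorem main : VAll4.{u} := by
  intro Q _ _ V hVn hconj z hz huniq hV2 hex x hx4
  obtain ⟨v, hvV, hv1, hvz⟩ := hex
  obtain ⟨k, hk⟩ := hV2 ⟨v, hvV⟩
  have hk' : v ^ 2 ^ k = 1 := by
    have := congrArg Subtype.val hk
    simpa using this
  have hd : orderOf v ∣ 2 ^ k := orderOf_dvd_of_pow_eq_one hk'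
  obtain ⟨j, hj, hj2⟩ := (Nat.dvd_prime_pow Nat.prime_two).1 hd
  have hj0 : j ≠ 0 := by
    rintro rfl
    rw [pow_zero, orderOf_eq_one_iff] at hj2
    exact hv1 hj2
  have hj1 : j ≠ 1 := by
    rintro rfl
    rw [pow_one] at hj2
    exact hvz (huniq v hj2)
  have hj2' : 2 ≤ j := by omega
  have hv₀o : orderOf (v ^ 2 ^ (j - 2)) = 4 := by
    rw [orderOf_pow_of_dvd (by positivity) (by rw [hj2]; exact pow_dvd_pow 2 (by omega)), hj2]
    rw [Nat.pow_div (by omega) (by norm_num)]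
    have : j - (j - 2) = 2 := by omega
    rw [this]
  have hv₀V : v ^ 2 ^ (j - 2) ∈ V := V.pow_mem hvV _
  have hzV : z ∈ V := by
    have : orderOf ((v ^ 2 ^ (j - 2)) ^ 2) = 2 := by
      rw [orderOf_pow_of_dvd (by norm_num) (by rw [hv₀o]; norm_num), hv₀o]
    rw [← huniq _ this]
    exact V.pow_mem hv₀V _
  have hxd : orderOf x ∣ 2 ^ 2 := orderOf_dvd_of_pow_eq_one (by norm_num; exact hx4)
  obtain ⟨i, hi, hi2⟩ := (Nat.dvd_prime_pow Nat.prime_two).1 hxd
  interval_cases i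
  · rw [pow_zero, orderOf_eq_one_iff] at hi2
    rw [hi2]; exact V.one_mem
  · rw [pow_one] at hi2
    rw [huniq x hi2]; exact hzV
  · obtain ⟨g, hg⟩ := hconj (v ^ 2 ^ (j - 2)) x hv₀o (by simpa using hi2)
    have hxm : x ∈ Subgroup.zpowers x := Subgroup.mem_zpowers x
    rw [hg] at hxm
    obtain ⟨y, hy, rfl⟩ := hxm
    have hyV : y ∈ V := (Subgroup.zpowers_le.2 hv₀V) hy
    simpa [MulAut.conj_apply] using hVn.conj_mem y hyV g

end Cfsg.Agent.Lib.Helper2.ACVALL4
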