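import Mathlib
import Cfsg.Agent.Lib.Helper25.ACStmt

set_option autoImplicit false

/-! S3912 piece VSMALL. -/

namespace Cfsg.Agent.Lib.Helper2.ACVSMALL

open Cfsg.Agent.Lib.Helper25.ACStmt

universe u

theorem main (hP : P2Struct.{u}) : VSmall.{u} := by
  intro V _ _ hV2 z hz1 huniq hsq
  have hz2 : z ^ 2 = 1 := by
    rcases hsq z with h | h
    · exact h
    · exfalso; apply hz1
      have h' : z * z = z := by rw [← pow_two]; exact h
      exact mul_left_cancel (a := z) (by rw [h', mul_one])
  have hzz : z * z = 1 := by rw [← pow_two]; exact hz2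
  have hzc : ∀ a : V, a * z = z * a := by
    intro a
    have h1 : (a * z * a⁻¹) ^ 2 = 1 := by
      rw [pow_two]
      calc a * z * a⁻¹ * (a * z * a⁻¹) = a * (z * z) * a⁻¹ := by group
        _ = 1 := by rw [hzz]; group
    rcases huniq _ h1 with h | h
    · exfalso; apply hz1
      have h' : a * z = a := by rw [mul_inv_eq_one] at h; exact h
      exact mul_left_cancel (a := a) (by rw [h', mul_one])
    · rw [mul_inv_eq_iff_eq_mul] at h; exact h
  have hsqc : ∀ a x : V, a ^ 2 * x = x * a ^ 2 := by
    intro a x
    rcases hsq a with h | h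
    · rw [h]; simp
    · rw [h]; exact (hzc x).symm
  have h4 : ∀ a : V, a⁻¹ = a * a ^ 2 := by
    intro a
    have h' : (a ^ 2) ^ 2 = 1 := by
      rcases hsq a with h | h
      · rw [h]; simp
      · rw [h]; exact hz2
    rw [inv_eq_iff_mul_eq_one]
    calc a * (a * a ^ 2) = (a ^ 2) ^ 2 := by group
      _ = 1 := h'
  have hcomm : ∀ a b : V, a * b * a⁻¹ * b⁻¹ = 1 ∨ a * b * a⁻¹ * b⁻¹ = z := by
    intro a b
    have e : a * b * a⁻¹ * b⁻¹ = (a * b) ^ 2 * a ^ 2 * b ^ 2 := by
      rw [h4 a, h4 b]
      calc a * b * (a * a ^ 2) * (b * b ^ 2) = a * b * a * (a ^ 2 * b) * b ^ 2 := by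
            simp only [mul_assoc]
        _ = a * b * a * (b * a ^ 2) * b ^ 2 := by rw [hsqc a b]
        _ = (a * b) ^ 2 * a ^ 2 * b ^ 2 := by rw [pow_two (a * b)]; simp only [mul_assoc]
    rw [e]
    rcases hsq a with ha | ha <;> rcases hsq b with hb | hb <;>
      rcases hsq (a * b) with hab | hab <;> rw [ha, hb, hab] <;> simp [hzz]
  by_cases hab : ∀ a b : V, a * b = b * a
  · classical
    haveI := Fintype.ofFinite V
    rw [Nat.card_eq_fintype_card]
    by_cases hy : ∃ y : V, y ^ 2 ≠ 1
    · obtain ⟨y, hy⟩ := hy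
      have hyz : y ^ 2 = z := (hsq y).resolve_left hy
      have hsub : (Finset.univ : Finset V) ⊆ {1, z, y, z * y} := by
        intro x _
        simp only [Finset.mem_insert, Finset.mem_singleton]
        rcases hsq x with h | h
        · rcases huniq x h with h | h
          · exact Or.inl h
          · exact Or.inr (Or.inl h)
        · have h2 : (x * y⁻¹) ^ 2 = 1 := by
            rw [pow_two]
            calc x * y⁻¹ * (x * y⁻¹) = x * (y⁻¹ * x) * y⁻¹ := by group
              _ = x * (x * y⁻¹) * y⁻¹ := by rw [hab y⁻¹ x]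
              _ = x ^ 2 * (y ^ 2)⁻¹ := by
                rw [pow_two, pow_two, mul_inv_rev]; simp only [mul_assoc]
              _ = 1 := by rw [h, hyz]; group
          rcases huniq _ h2 with h' | h'
          · right; right; left; rw [mul_inv_eq_one] at h'; exact h'
          · right; right; right; rw [mul_inv_eq_iff_eq_mul] at h'; exact h'
      calc Fintype.card V = (Finset.univ : Finset V).card := rfl
        _ ≤ ({1, z, y, z * y} : Finset V).card := Finset.card_le_card hsub
        _ ≤ 4 := Finset.card_le_four
        _ ≤ 8 := by norm_num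
    · push Not at hy
      have hsub : (Finset.univ : Finset V) ⊆ {1, z} := by
        intro x _
        simp only [Finset.mem_insert, Finset.mem_singleton]
        exact huniq x (hy x)
      calc Fintype.card V = (Finset.univ : Finset V).card := rfl
        _ ≤ ({1, z} : Finset V).card := Finset.card_le_card hsub
        _ ≤ 2 := Finset.card_le_two
        _ ≤ 8 := by norm_num
  · push Not at hab
    exact (hP V hV2 z hz1 huniq hcomm hab).le

end Cfsg.Agent.Lib.Helper2.ACVSMALL
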