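import Mathlib
import Cfsg.Agent.Lib.Helper44.BCStmt

/-!
# S2362, piece RANK1: no orthogonal transvections
-/

set_option autoImplicit false

namespace Cfsg.Agent.Lib.Helper2.BCRANK1

open Matrix

universe u

theorem pow_vecMulVec {F : Type u} [Field F] {κ : Type} [Fintype κ] [DecidableEq κ]
    (w φ : κ → F) (j : ℕ) :
    (Matrix.vecMulVec w φ) ^ (j + 1) = (φ ⬝ᵥ w) ^ j • Matrix.vecMulVec w φ := by
  induction j with
  | zero => simp
  | succ j ih =>
    rw [pow_succ, ih, Matrix.smul_mul, Matrix.vecMulVec_mul_vecMulVec, pow_succ, mul_smul]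
    congr 1
    ext a b
    simp [Matrix.vecMulVec_apply]
    ring

theorem main : Cfsg.Agent.Lib.Helper44.BCStmt.RankOne.{u} := by
  intro F _ κ _ _ G U w φ k h2 hG hdet hU hR hk
  by_contra hne
  have hR0 : Matrix.vecMulVec w φ ≠ 0 := by
    intro h0
    apply hne
    rw [h0] at hR
    exact sub_eq_zero.1 hR
  have hw : w ≠ 0 := fun h => hR0 (Matrix.vecMulVec_eq_zero.2 (Or.inl h))
  have hφ : φ ≠ 0 := fun h => hR0 (Matrix.vecMulVec_eq_zero.2 (Or.inr h))
  -- `φ ⬝ᵥ w = 0`
  have hd : φ ⬝ᵥ w = 0 := by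
    rw [hR] at hk
    cases k with
    | zero =>
      exfalso
      apply hR0
      have h1 : (1 : Matrix κ κ F) = 0 := by simpa using hk
      calc Matrix.vecMulVec w φ = Matrix.vecMulVec w φ * 1 := (mul_one _).symm
        _ = 0 := by rw [h1, mul_zero]
    | succ j =>
      rw [pow_vecMulVec w φ j] at hk
      rcases smul_eq_zero.1 hk with h | h
      · exact eq_zero_of_pow_eq_zero h
      · exact absurd h hR0
  -- the isometry identity
  have hU1 : U = 1 + Matrix.vecMulVec w φ := by rw [← hR, add_sub_cancel]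
  have hkey : (Matrix.vecMulVec w φ)ᵀ * G + G * Matrix.vecMulVec w φ +
      (Matrix.vecMulVec w φ)ᵀ * G * Matrix.vecMulVec w φ = 0 := by
    have h0 := hU
    rw [hU1, Matrix.transpose_add, Matrix.transpose_one] at h0
    have h3 : (1 + (Matrix.vecMulVec w φ)ᵀ) * G * (1 + Matrix.vecMulVec w φ) =
        G + ((Matrix.vecMulVec w φ)ᵀ * G + G * Matrix.vecMulVec w φ +
          (Matrix.vecMulVec w φ)ᵀ * G * Matrix.vecMulVec w φ) := by noncomm_ring
    rw [h3] at h0
    exact add_eq_left.1 h0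
  obtain ⟨g, hgdef⟩ : ∃ g : κ → F, g = G *ᵥ w := ⟨_, rfl⟩
  have hg : w ᵥ* G = g := by rw [hgdef, ← Matrix.mulVec_transpose, hG]
  rw [Matrix.transpose_vecMulVec, Matrix.vecMulVec_mul, hg, Matrix.mul_vecMulVec, ← hgdef,
    Matrix.vecMulVec_mul_vecMulVec] at hkey
  obtain ⟨c, hc⟩ : ∃ c : F, c = g ⬝ᵥ w := ⟨_, rfl⟩
  rw [← hc] at hkey
  have hent : ∀ i j, φ i * g j + g i * φ j + φ i * (c * φ j) = 0 := by
    intro i j
    have h := congrFun (congrFun hkey i) j
    simp only [Matrix.add_apply, Matrix.vecMulVec_apply, Pi.smul_apply, smul_eq_mul,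
      Matrix.zero_apply] at h
    exact h
  -- `c = 0`
  have hc0 : c = 0 := by
    have h1 : ∀ i, φ i * c = 0 := by
      intro i
      have h : ∑ j, (φ i * g j + g i * φ j + φ i * (c * φ j)) * w j = 0 :=
        Finset.sum_eq_zero (fun j _ => by rw [hent i j, zero_mul])
      have h2 : ∑ j, (φ i * g j + g i * φ j + φ i * (c * φ j)) * w j =
          φ i * (g ⬝ᵥ w) + g i * (φ ⬝ᵥ w) + φ i * c * (φ ⬝ᵥ w) := by
        simp only [dotProduct, Finset.mul_sum, ← Finset.sum_add_distrib]
        refine Finset.sum_congr rfl fun j _ => by ring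
      rw [h2, hd, ← hc] at h
      simpa using h
    obtain ⟨i, hi⟩ := Function.ne_iff.1 hφ
    rcases mul_eq_zero.1 (h1 i) with h | h
    · exact absurd h hi
    · exact h
  have hent' : ∀ i j, φ i * g j + g i * φ j = 0 := by
    intro i j
    have h := hent i j
    rw [hc0] at h
    simpa using h
  have hg0 : g ≠ 0 := by
    intro h
    apply hw
    rw [hgdef] at h
    exact Matrix.eq_zero_of_mulVec_eq_zero hdet h
  obtain ⟨i, hi⟩ := Function.ne_iff.1 hg0
  have hφi : φ i = 0 := by
    have h := hent' i i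
    have h' : (2 : F) * (φ i * g i) = 0 := by rw [← h]; ring
    rcases mul_eq_zero.1 h' with h'' | h''
    · exact absurd h'' h2
    · rcases mul_eq_zero.1 h'' with h3 | h3
      · exact h3
      · exact absurd h3 hi
  apply hφ
  funext j
  have h := hent' j i
  rw [hφi, mul_zero, add_zero] at h
  rcases mul_eq_zero.1 h with h3 | h3
  · exact h3
  · exact absurd h3 hi

end Cfsg.Agent.Lib.Helper2.BCRANK1
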