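import Mathlib
import Cfsg.Agent.Lib.Helper44.BCStmt
import Cfsg.Agent.Lib.Helper44.Omega2

/-!
# S2362, piece TRANSFER: if the extension by the identity of an isometry `s₂` of the second block
is in `Ω`, then `s₂ ∈ Ω`
-/

set_option autoImplicit false

namespace Cfsg.Agent.Lib.Helper2.BCTRANSFER

open Matrix Polynomial Module QuadraticMap
open Cfsg.Agent.Lib.Helper44.QSpace Cfsg.Agent.Lib.Helper44.OGroup Cfsg.Agent.Lib.Helper44.OMat
open Cfsg.Agent.Lib.Helper44.OExt Cfsg.Agent.Lib.Helper44.Omega2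

universe u

variable {F : Type u} [Field F] {ι ι₁ ι₂ : Type} [Fintype ι] [DecidableEq ι]
  [Fintype ι₁] [DecidableEq ι₁] [Fintype ι₂] [DecidableEq ι₂]

theorem refl_transport_inr (Q : QuadraticForm F (ι → F)) (N₁ : Matrix ι₁ ι₁ F)
    (N₂ : Matrix ι₂ ι₂ F) (J : (ι₁ ⊕ ι₂ → F) ≃ₗ[F] (ι → F))
    (hJ : ∀ u : ι₁ ⊕ ι₂ → F, Q (J u) = qN N₁ (u ∘ Sum.inl) + qN N₂ (u ∘ Sum.inr))
    (v : ι₂ → F) (u : ι₁ ⊕ ι₂ → F) :
    reflE Q (J (Sum.elim 0 v)) (J u)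
      = J (Sum.elim (u ∘ Sum.inl) (reflE (qN N₂) v (u ∘ Sum.inr))) := by
  have hQv : Q (J (Sum.elim 0 v)) = qN N₂ v := by
    rw [hJ, Sum.elim_comp_inl, Sum.elim_comp_inr, map_zero, zero_add]
  have hpol : QuadraticMap.polar Q (J u) (J (Sum.elim 0 v))
      = QuadraticMap.polar (qN N₂) (u ∘ Sum.inr) v := by
    unfold QuadraticMap.polar
    rw [← map_add, hJ, hJ, hQv]
    have h1 : (u + Sum.elim (0 : ι₁ → F) v) ∘ Sum.inl = u ∘ Sum.inl := by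
      funext i; simp
    have h2 : (u + Sum.elim (0 : ι₁ → F) v) ∘ Sum.inr = u ∘ Sum.inr + v := by
      funext i; simp
    rw [h1, h2]
    ring
  rw [reflE_apply, reflE_apply, hQv, hpol]
  have h3 : Sum.elim (u ∘ Sum.inl)
      (u ∘ Sum.inr - ((qN N₂ v)⁻¹ * QuadraticMap.polar (qN N₂) (u ∘ Sum.inr) v) • v)
      = u - ((qN N₂ v)⁻¹ * QuadraticMap.polar (qN N₂) (u ∘ Sum.inr) v) •
          Sum.elim (0 : ι₁ → F) v := by
    funext i
    rcases i with i | i <;> simp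
  rw [h3, map_sub, map_smul]

theorem prod_transport_inr (Q : QuadraticForm F (ι → F)) (N₁ : Matrix ι₁ ι₁ F)
    (N₂ : Matrix ι₂ ι₂ F) (J : (ι₁ ⊕ ι₂ → F) ≃ₗ[F] (ι → F))
    (hJ : ∀ u : ι₁ ⊕ ι₂ → F, Q (J u) = qN N₁ (u ∘ Sum.inl) + qN N₂ (u ∘ Sum.inr))
    (vs₂ : List (ι₂ → F)) (u : ι₁ ⊕ ι₂ → F) :
    ((vs₂.map (fun v => J (Sum.elim (0 : ι₁ → F) v))).map (reflE Q)).prod (J u)
      = J (Sum.elim (u ∘ Sum.inl) ((vs₂.map (reflE (qN N₂))).prod (u ∘ Sum.inr))) := by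
  induction vs₂ generalizing u with
  | nil =>
    simp only [List.map_nil, List.prod_nil, LinearEquiv.coe_one, id_eq]
    rw [Sum.elim_comp_inl_inr]
  | cons v vs ih =>
    rw [List.map_cons, List.map_cons, List.prod_cons, List.map_cons, List.prod_cons,
      LinearEquiv.mul_apply, ih, refl_transport_inr Q N₁ N₂ J hJ, Sum.elim_comp_inl,
      Sum.elim_comp_inr, LinearEquiv.mul_apply]

theorem main : Cfsg.Agent.Lib.Helper44.BCStmt.Transfer.{u} := by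
  intro F _ _ ι _ _ Q h2 hS k₁ k₂ N₁ N₂ J hdet hk₂ hJ s s₂ hs hmem
  classical
  have hS₂ : Sep (qN N₂) := sep_qN hdet
  obtain ⟨vs₂, hvs₂, hprod⟩ := cdp_of_two_ne_zero h2 hS₂
    ((isoEquiv (qN N₂) s₂ : ↥(O (qN N₂))) : (Fin k₂ → F) ≃ₗ[F] (Fin k₂ → F))
    (isoEquiv (qN N₂) s₂).2
  have hs₂ : ∀ x, ((s₂ : GL (Fin k₂) F) : Matrix (Fin k₂) (Fin k₂) F) *ᵥ x
      = (vs₂.map (reflE (qN N₂))).prod x := by
    intro x
    rw [← hprod, isoEquiv_apply]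
  have hQv : ∀ v : Fin k₂ → F, Q (J (Sum.elim (0 : Fin k₁ → F) v)) = qN N₂ v := by
    intro v
    rw [hJ, Sum.elim_comp_inl, Sum.elim_comp_inr, map_zero, zero_add]
  obtain ⟨vs, hvsdef⟩ : ∃ vs : List (ι → F),
      vs = vs₂.map (fun v => J (Sum.elim (0 : Fin k₁ → F) v)) := ⟨_, rfl⟩
  have hvs : ∀ v ∈ vs, Q v ≠ 0 := by
    intro w hw
    rw [hvsdef] at hw
    obtain ⟨v, hv, rfl⟩ := List.mem_map.mp hw
    rw [hQv]
    exact hvs₂ v hv
  have hsx : ∀ x, ((s : GL ι F) : Matrix ι ι F) *ᵥ x = (vs.map (reflE Q)).prod x := by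
    intro x
    obtain ⟨u, rfl⟩ := J.surjective x
    rw [hs u, hvsdef, prod_transport_inr Q N₁ N₂ J hJ, hs₂]
  have hcard : Fintype.card ι = k₁ + k₂ := by
    have h := LinearEquiv.finrank_eq J
    rw [Module.finrank_fintype_fun_eq_card, Module.finrank_fintype_fun_eq_card,
      Fintype.card_sum, Fintype.card_fin, Fintype.card_fin] at h
    exact h.symm
  have hn : 2 ≤ Fintype.card ι := by omega
  have hn₂ : 2 ≤ Fintype.card (Fin k₂) := by rw [Fintype.card_fin]; exact hk₂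
  have h1 := (mem_omega_iff_of_mulVec h2 Q hS hn s vs hvs hsx).1 hmem
  rw [mem_omega_iff_of_mulVec h2 (qN N₂) hS₂ hn₂ s₂ vs₂ hvs₂ hs₂]
  have hlen : vs.length = vs₂.length := by rw [hvsdef, List.length_map]
  have hval : vs.map (fun v => Q v) = vs₂.map (fun v => qN N₂ v) := by
    rw [hvsdef, List.map_map]
    apply List.map_congr_left
    intro v _
    exact hQv v
  rw [hlen, hval] at h1
  exact h1

end Cfsg.Agent.Lib.Helper2.BCTRANSFER
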