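import Mathlib
import Cfsg.Agent.Lib.Helper76.BrRBStmt
import Cfsg.Agent.Lib.Helper76.BrRBStmt2
import Cfsg.Agent.Lib.CT.Ops
import Cfsg.Agent.S4468

/-!
# S4504, part R, piece PERF: the normal closure of `P` is perfect
-/

set_option autoImplicit false

namespace Cfsg.Agent.Lib.Helper2.BrRBPERF

open Cfsg Cfsg.Agent.Lib.Helper76.BrRB
open Cfsg.Agent.Lib.CT.Ops
open scoped commutatorElement

universe u

/-- If `L` is normal in `G` and contains the Sylow subgroup `P`, then `⁅L, L⁆ ⊔ P` is normal. -/
theorem comm_sup_normal {G : Type u} [Group G] [Finite G] (p : ℕ) [Fact p.Prime] (P : Sylow p G)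
    (L : Subgroup G) [hLn : L.Normal] (hle : (P : Subgroup G) ≤ L) :
    (⁅L, L⁆ ⊔ (P : Subgroup G)).Normal := by
  have hKL : ⁅L, L⁆ ≤ L := Subgroup.commutator_le_left L L
  have hML : ⁅L, L⁆ ⊔ (P : Subgroup G) ≤ L := sup_le hKL hle
  have hfr : Subgroup.normalizer ((P : Subgroup G) : Set G) ⊔ L = ⊤ :=
    Sylow.normalizer_sup_eq_top' P hle
  constructor
  intro m hm g
  have hg : g ∈ Subgroup.normalizer ((P : Subgroup G) : Set G) ⊔ L := by
    rw [hfr]; exact Subgroup.mem_top g
  obtain ⟨n, hn, l, hl, rfl⟩ := Subgroup.mem_sup_of_normal_right.1 hg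
  -- conjugation by `l`
  have h1 : l * m * l⁻¹ ∈ ⁅L, L⁆ ⊔ (P : Subgroup G) := by
    have h2 : l * m * l⁻¹ = ⁅l, m⁆ * m := by
      rw [commutatorElement_def]; group
    rw [h2]
    exact Subgroup.mul_mem _
      (Subgroup.mem_sup_left (Subgroup.commutator_mem_commutator hl (hML hm))) hm
  -- conjugation by `n`
  obtain ⟨k, hk, u, hu, hku⟩ := Subgroup.mem_sup_of_normal_left.1 h1
  have h3 : n * l * m * (n * l)⁻¹ = (n * k * n⁻¹) * (n * u * n⁻¹) := by
    have : l * m * l⁻¹ = k * u := hku.symm
    calc n * l * m * (n * l)⁻¹ = n * (l * m * l⁻¹) * n⁻¹ := by group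
      _ = n * (k * u) * n⁻¹ := by rw [this]
      _ = (n * k * n⁻¹) * (n * u * n⁻¹) := by group
  rw [h3]
  refine Subgroup.mul_mem _ (Subgroup.mem_sup_left ?_) (Subgroup.mem_sup_right ?_)
  · exact (Subgroup.commutator_normal L L).conj_mem k hk n
  · exact (Subgroup.mem_normalizer_iff.1 hn u).1 hu

theorem main (hNN : Cfsg.Agent.Lib.Helper76.BrRB.NN.{u}) :
    Cfsg.Agent.Lib.Helper76.BrRB.PERF.{u} := by
  intro G _ _ p _ P hP hnn χ hχ hfaith hdeg
  classical
  have hp : p.Prime := Fact.out
  obtain ⟨L, hL⟩ : ∃ L : Subgroup G, L = Subgroup.normalClosure ((P : Subgroup G) : Set G) :=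
    ⟨_, rfl⟩
  rw [← hL]
  haveI hLn : L.Normal := hL ▸ Subgroup.normalClosure_normal
  have hle : (P : Subgroup G) ≤ L := hL ▸ Subgroup.le_normalClosure
  by_contra hne
  -- `⁅L, L⁆ ⊔ P = L`
  have hKL : ⁅L, L⁆ ≤ L := Subgroup.commutator_le_left L L
  haveI hMn := comm_sup_normal p P L hle
  have hLM : L ≤ ⁅L, L⁆ ⊔ (P : Subgroup G) := by
    have h0 : Subgroup.normalClosure ((P : Subgroup G) : Set G) ≤ ⁅L, L⁆ ⊔ (P : Subgroup G) :=
      Subgroup.normalClosure_le_normal (fun x hx => Subgroup.mem_sup_right hx)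
    exact (le_of_eq hL).trans h0
  have hM : ⁅L, L⁆ ⊔ (P : Subgroup G) = L := le_antisymm (sup_le hKL hle) hLM
  -- inside `L`
  have hKsub : (⁅L, L⁆).subgroupOf L = commutator L := by
    rw [← Subgroup.map_subtype_commutator, Subgroup.subgroupOf,
      Subgroup.comap_map_eq_self_of_injective L.subtype_injective]
  have htop : commutator L ⊔ (P : Subgroup G).subgroupOf L = ⊤ := by
    rw [← hKsub, ← Subgroup.subgroupOf_sup hKL hle, hM, Subgroup.subgroupOf_self]
  have hcardP' : Nat.card ((P : Subgroup G).subgroupOf L) = p := by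
    rw [Nat.card_congr (Subgroup.subgroupOfEquivOfLe hle).toEquiv]; exact hP
  have hidx : (commutator L).index ∣ p := by
    rw [← Subgroup.relIndex_top_right, ← htop, sup_comm, Subgroup.relIndex_sup_right]
    have h0 := Subgroup.relIndex_dvd_card (commutator L) ((P : Subgroup G).subgroupOf L)
    rwa [hcardP'] at h0
  have hidx1 : (commutator L).index ≠ 1 := fun h => hne (Subgroup.index_eq_one.1 h)
  have hidxp : (commutator L).index = p := ((Nat.dvd_prime hp).1 hidx).resolve_left hidx1
  -- `p ∤ |L'|`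
  have hSyl : Nat.card ((P.subtype hle : Sylow p L) : Subgroup L) = p := by
    rw [Sylow.coe_subtype]; exact hcardP'
  have hndvd : ¬ p ∣ ((P.subtype hle : Sylow p L) : Subgroup L).index :=
    Sylow.not_dvd_index (P.subtype hle)
  have hc1 := Subgroup.card_mul_index (commutator L)
  have hc2 := Subgroup.card_mul_index ((P.subtype hle : Sylow p L) : Subgroup L)
  rw [hidxp] at hc1
  rw [hSyl] at hc2
  have hKcard : Nat.card (commutator L) = ((P.subtype hle : Sylow p L) : Subgroup L).index := by
    have : Nat.card (commutator L) * p = ((P.subtype hle : Sylow p L) : Subgroup L).index * p := by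
      rw [hc1, mul_comm, hc2]
    exact Nat.eq_of_mul_eq_mul_right hp.pos this
  have hKcop : (Nat.card (commutator L)).Coprime p := by
    rw [hKcard]
    exact ((Nat.Prime.coprime_iff_not_dvd hp).2 hndvd).symm
  -- `L` is `p`-solvable
  have hsolv : IsPSolvable p L := by
    refine ⟨2, ![⊥, commutator L, ⊤], rfl, rfl, ?_, ?_, ?_⟩
    · rw [Fin.monotone_iff_le_succ]
      intro i
      fin_cases i
      · exact bot_le
      · exact le_top
    · intro i
      fin_cases i
      · exact (inferInstance : (⊥ : Subgroup L).Normal)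
      · exact (inferInstance : (commutator L).Normal)
      · exact (inferInstance : (⊤ : Subgroup L).Normal)
    · intro i
      fin_cases i
      · right
        show ((⊥ : Subgroup L).relIndex (commutator L)).Coprime p
        rw [Subgroup.relIndex_bot_left]
        exact hKcop
      · left
        refine ⟨1, ?_⟩
        show (commutator L).relIndex ⊤ = p ^ 1
        rw [Subgroup.relIndex_top_right, hidxp, pow_one]
  -- apply S4468
  have hNorm : ((P.subtype hle : Sylow p L) : Subgroup L).Normal := by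
    by_contra hN
    have h := Cfsg.Agent.S4468.result (G := L) (fun l : L => χ (l : G))
      (isCharacter_restrict L hχ)
      (fun g hg => Subtype.ext (hfaith (g : G) hg)) (charDegree χ) rfl p hp hsolv (by omega)
      (P.subtype hle) hN
    have h1 := h.1
    have := hp.one_lt
    omega
  subst hL
  exact hnn (hNN p P hle hNorm)

end Cfsg.Agent.Lib.Helper2.BrRBPERF
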