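import Mathlib
import Cfsg.Agent.Lib.Helper17.CMStmt

/-!
Piece CASE1Q of S3905: transport of the abelian case to the quotient `↥N ⧸ center ↥N`.
-/

set_option autoImplicit false

namespace Cfsg.Agent.Lib.Helper2.CMCASE1Q

open Cfsg.Agent.Lib.Helper17.CMStmt Subgroup

universe u

/-- an element of `↥N` whose value centralizes `N` is central in `↥N` -/
theorem mem_center_of_val {G : Type u} [Group G] (N : Subgroup G) (x : ↥N)
    (h : (x : G) ∈ centralizer (N : Set G)) : x ∈ Subgroup.center ↥N := by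
  rw [Subgroup.mem_center_iff]
  intro g
  apply Subtype.ext
  exact (Subgroup.mem_centralizer_iff.1 h g g.2)

theorem main : Cfsg.Agent.Lib.Helper17.CMStmt.Case1Q.{u} := by
  intro G _ N p hcomm hpow
  refine ⟨⟨⟨?_⟩⟩, ?_⟩
  · rintro ⟨a, -⟩ ⟨b, -⟩
    apply Subtype.ext
    show a * b = b * a
    induction a using QuotientGroup.induction_on with
    | H x =>
      induction b using QuotientGroup.induction_on with
      | H y =>
        show ((x * y : ↥N) : ↥N ⧸ Subgroup.center ↥N) = ((y * x : ↥N) : ↥N ⧸ Subgroup.center ↥N)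
        rw [QuotientGroup.eq]
        apply mem_center_of_val
        have := hcomm (y⁻¹ : ↥N) (y⁻¹ : ↥N).2 (x⁻¹ : ↥N) (x⁻¹ : ↥N).2
        have h2 : (((x * y)⁻¹ * (y * x) : ↥N) : G)
            = ((y⁻¹ : ↥N) : G) * ((x⁻¹ : ↥N) : G) * ((y⁻¹ : ↥N) : G)⁻¹ * ((x⁻¹ : ↥N) : G)⁻¹ := by
          simp [mul_assoc]
        rw [h2]; exact this
  · rintro a -
    induction a using QuotientGroup.induction_on with
    | H x =>
      show ((x ^ p : ↥N) : ↥N ⧸ Subgroup.center ↥N) = 1
      rw [QuotientGroup.eq_one_iff]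
      apply mem_center_of_val
      have := hpow x x.2
      simpa using this

end Cfsg.Agent.Lib.Helper2.CMCASE1Q
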