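import Mathlib
import Cfsg.Agent.Lib.Helper17.CMStmt

/-!
Piece QUOT of S3905: in the non-abelian case the pair `(G ⧸ Z(N), N ⧸ Z(N))` satisfies the
reduced hypothesis.
-/

set_option autoImplicit false

namespace Cfsg.Agent.Lib.Helper2.CMQUOT

open Cfsg.Agent.Lib.Helper17.CMStmt Subgroup

universe u

theorem main : Cfsg.Agent.Lib.Helper17.CMStmt.Quot.{u} := by
  intro G _ _ N _ Z _ hZ hH hab hK
  have hZle : Z ≤ centralizer (N : Set G) := by rw [hZ]; exact inf_le_right
  have hker : (QuotientGroup.mk' Z).ker = Z := QuotientGroup.ker_mk' Z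
  have hsurj : Function.Surjective (QuotientGroup.mk' Z) := QuotientGroup.mk'_surjective Z
  have hone : ∀ g : G, (QuotientGroup.mk' Z) g = 1 ↔ g ∈ Z := fun g => by
    rw [← MonoidHom.mem_ker, hker]
  have hcomm : ∀ g x : G, (QuotientGroup.mk' Z) g * (QuotientGroup.mk' Z) x
      = (QuotientGroup.mk' Z) x * (QuotientGroup.mk' Z) g → g * x * g⁻¹ * x⁻¹ ∈ Z := by
    intro g x h
    rw [← hone]
    rw [map_mul, map_mul, map_mul, map_inv, map_inv, h]
    group
  refine ⟨?_, ?_, ?_⟩
  · rw [eq_bot_iff]
    rintro y ⟨hy1, hy2⟩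
    obtain ⟨x, hx, rfl⟩ := hy1
    rw [Subgroup.mem_bot, hone, hZ]
    refine ⟨hx, ?_⟩
    by_contra hxc
    apply hxc
    refine Subgroup.mem_centralizer_iff.2 ?_
    intro n hn
    apply hK x hx hxc n
    apply hZle
    apply hcomm
    exact Subgroup.mem_centralizer_iff.1 hy2 _ (Subgroup.mem_map_of_mem _ hn)
  · obtain ⟨a, ha, b, hb, hab⟩ := hab
    intro hbot
    apply hab
    have ha1 : (QuotientGroup.mk' Z) a = 1 := by
      have : (QuotientGroup.mk' Z) a ∈ N.map (QuotientGroup.mk' Z) :=
        Subgroup.mem_map_of_mem _ ha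
      rw [hbot] at this
      exact Subgroup.mem_bot.1 this
    have haZ : a ∈ Z := (hone a).1 ha1
    have := Subgroup.mem_centralizer_iff.1 (hZle haZ) b hb
    have h1 : a * b * a⁻¹ * b⁻¹ = 1 := by rw [← this]; group
    rw [h1]; exact Subgroup.one_mem _
  · rintro y ⟨x, hx, rfl⟩ hy1
    have hxZ : x ∉ Z := fun h => hy1 ((hone x).2 h)
    have hxc : x ∉ centralizer (N : Set G) := fun h => hxZ (by rw [hZ]; exact ⟨hx, h⟩)
    have hM := hH x hx hxc
    have hZM : Z ≤ centralizer ({x} : Set G) := by
      intro z hz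
      refine Subgroup.mem_centralizer_iff.2 ?_
      intro h hh
      rw [Set.mem_singleton_iff] at hh
      rw [hh]
      exact (Subgroup.mem_centralizer_iff.1 (hZle hz) x hx)
    have hcent : centralizer ({(QuotientGroup.mk' Z) x} : Set (G ⧸ Z))
        = (centralizer ({x} : Set G)).map (QuotientGroup.mk' Z) := by
      apply le_antisymm
      · intro y hy
        obtain ⟨g, rfl⟩ := hsurj y
        refine ⟨g, ?_, rfl⟩
        have h1 := Subgroup.mem_centralizer_iff.1 hy _ (Set.mem_singleton _)
        have h2 := hK x hx hxc g (hZle (hcomm g x h1.symm))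
        refine Subgroup.mem_centralizer_iff.2 ?_
        intro h hh
        rw [Set.mem_singleton_iff] at hh
        rw [hh]; exact h2.symm
      · rintro _ ⟨g, hg, rfl⟩
        refine Subgroup.mem_centralizer_iff.2 ?_
        intro h hh
        rw [Set.mem_singleton_iff] at hh
        rw [hh, ← map_mul, ← map_mul, Subgroup.mem_centralizer_iff.1 hg x (Set.mem_singleton _)]
    rw [hcent]
    have hcm : ((centralizer ({x} : Set G)).map (QuotientGroup.mk' Z)).comap (QuotientGroup.mk' Z)
        = centralizer ({x} : Set G) :=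
      Subgroup.comap_map_eq_self (by rw [hker]; exact hZM)
    constructor
    · intro htop
      apply hM.1
      rw [← hcm, htop, Subgroup.comap_top]
    · intro B hB
      have h1 : centralizer ({x} : Set G) ≤ B.comap (QuotientGroup.mk' Z) := by
        rw [← hcm]; exact Subgroup.comap_mono hB.le
      have h2 : centralizer ({x} : Set G) ≠ B.comap (QuotientGroup.mk' Z) := by
        intro h
        apply hB.ne
        rw [h, Subgroup.map_comap_eq_self_of_surjective hsurj]
      have h3 := hM.2 _ (lt_of_le_of_ne h1 h2)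
      rw [← Subgroup.map_comap_eq_self_of_surjective hsurj B, h3,
        Subgroup.map_top_of_surjective _ hsurj]

end Cfsg.Agent.Lib.Helper2.CMQUOT
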