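import Mathlib
import Cfsg.Agent.Lib.Helper41.EMStmt
import Cfsg.Agent.Lib.Helper41.TMWire

/-!
# S5990 / DIMOBSA (minus form): `c` divides `dim W - dim (W ⊓ Fix x)`, all `q`.
Port of `Helper28.EPDIMOBSA.main`; `InvDim`, `HalfOdd` of the minus form are taken from
`Helper41.TMWire`, `SplitE` is a hypothesis.
-/

set_option autoImplicit false

namespace Cfsg.Agent.Lib.Helper2.EMDIMOBSA

universe u

open Cfsg.Agent.Lib.Helper41.EMStmt
open Cfsg.Agent.Lib.Helper37.HypStmt (cc)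
open Cfsg.Agent.Lib.Helper45.OMiStmt (M Aniso FxM NDegM StabM)
open Cfsg.Agent.Lib.Helper41.TMTwoStmt (PlusM)

theorem main (hSplit : SplitE.{u}) : DimObsA.{u} := by
  intro F _ _ a₀ b₀ han p _ _ d r _ hr2 hrp x hx hxr W hW hND
  obtain ⟨_, R, hRW, hRst, hRnd, hRfx, _, hsum, _⟩ :=
    hSplit F a₀ b₀ han p d r hrp x hx hxr W hW hND
  have hdim : Module.finrank F ↥W - Module.finrank F ↥(W ⊓ FxM (x : Matrix (M d) (M d) F)) =
      Module.finrank F ↥R := by omega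
  rw [hdim]
  have hi : orderOf ((Fintype.card F : ℕ) : ZMod r) ∣ Module.finrank F ↥R :=
    Cfsg.Agent.Lib.Helper41.TMWire.hInvDim F a₀ b₀ han p d r hrp x hxr R hRst hRfx
  unfold cc
  split_ifs with hev
  · exact hi
  · have hodd : Odd (orderOf ((Fintype.card F : ℕ) : ZMod r)) := Nat.not_even_iff_odd.mp hev
    obtain ⟨U, hUE, hUst, hUts, hU2⟩ :=
      Cfsg.Agent.Lib.Helper41.TMWire.hHalfOdd F a₀ b₀ han p d r hr2 hrp hodd x hx hxr R hRst
        hRnd hRfx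
    have hUfx : U ⊓ FxM (x : Matrix (M d) (M d) F) = ⊥ := by
      rw [eq_bot_iff]
      exact (inf_le_inf_right _ hUE).trans hRfx.le
    obtain ⟨k, hk⟩ :=
      Cfsg.Agent.Lib.Helper41.TMWire.hInvDim F a₀ b₀ han p d r hrp x hxr U hUst hUfx
    rw [← hU2, hk]
    exact ⟨k, by ring⟩

end Cfsg.Agent.Lib.Helper2.EMDIMOBSA
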