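import Mathlib
import Cfsg.Prelude.Def_Local
import Cfsg.Prelude.Def_CaseTheorems
import Cfsg.Agent.S0001
import Cfsg.Agent.S2923
import Cfsg.Agent.Lib.Helper76.PSolv
import Cfsg.Agent.Lib.Helper23.Cores
import Cfsg.Agent.Lib.Helper11.PConstr
import Cfsg.Agent.Lib.Helper50.ZStarMin
import Cfsg.Agent.Lib.Helper91.GYEa
import Cfsg.Agent.Lib.Helper91.GYEb

set_option autoImplicit false

universe u

namespace Cfsg.Agent.Lib.Helper2.GYCore

open Cfsg

/-- A nontrivial `p`-element has a power of order `p`. -/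
theorem exists_prime_pow {G : Type*} [Group G] (p : ℕ) (t : G) (k : ℕ) (ht : t ^ p ^ k = 1)
    (ht1 : t ≠ 1) : ∃ j : ℕ, t ^ p ^ j ≠ 1 ∧ (t ^ p ^ j) ^ p = 1 := by
  induction k with
  | zero => exact absurd (by simpa using ht) ht1
  | succ k ih =>
    by_cases h : t ^ p ^ k = 1
    · exact ih h
    · refine ⟨k, h, ?_⟩
      rw [← pow_mul, ← pow_succ]; exact ht

/-- A `p`-solvable group with trivial `p`-core and trivial `p'`-core is trivial. -/
theorem triv_of_cores_bot {H : Type*} [Group H] [Finite H] (p : ℕ) [Fact p.Prime]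
    (hs : IsPSolvable p H) (h1 : pCore p H = ⊥) (h2 : pPrimeCore p H = ⊥) : ∀ x : H, x = 1 := by
  obtain ⟨n, C, h0, hlast, hmono, hnorm, hstep⟩ := hs
  have key : ∀ i : Fin (n + 1), C i = ⊥ := by
    intro i
    induction i using Fin.induction with
    | zero => exact h0
    | succ j ih =>
      have hr := hstep j
      rw [ih, Subgroup.relIndex_bot_left] at hr
      rcases hr with ⟨m, hm⟩ | hc
      · have hp : IsPGroup p (C j.succ) := IsPGroup.of_card hm
        have := Cfsg.Agent.Lib.Helper23.Cores.le_pCore p _ (hnorm _) hp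
        rw [h1] at this
        exact le_bot_iff.1 this
      · have := Cfsg.Agent.Lib.Helper23.Cores.le_pPrimeCore p _ (hnorm _) hc
        rw [h2] at this
        exact le_bot_iff.1 this
  intro x
  have : x ∈ C (Fin.last n) := by rw [hlast]; exact Subgroup.mem_top x
  rw [key] at this
  exact Subgroup.mem_bot.1 this

/-- `O_p(G / O_p(G)) = 1`. -/
theorem pCore_quot_bot' {H : Type*} [Group H] [Finite H] (p : ℕ) [Fact p.Prime] :
    pCore p (H ⧸ pCore p H) = ⊥ := by
  rw [eq_bot_iff]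
  intro y hy
  obtain ⟨x, rfl⟩ := QuotientGroup.mk'_surjective (pCore p H) y
  have hNn : ((pCore p (H ⧸ pCore p H)).comap (QuotientGroup.mk' (pCore p H))).Normal :=
    Subgroup.Normal.comap inferInstance _
  have hNp : IsPGroup p ((pCore p (H ⧸ pCore p H)).comap (QuotientGroup.mk' (pCore p H))) := by
    rintro ⟨g, hg⟩
    obtain ⟨k, hk⟩ := (Cfsg.Agent.Lib.Helper23.Cores.pCore_isPGroup (G := H ⧸ pCore p H) p) ⟨_, hg⟩
    have hk' : (QuotientGroup.mk' (pCore p H) g) ^ p ^ k = 1 := congrArg Subtype.val hk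
    rw [← map_pow] at hk'
    have hgk : g ^ p ^ k ∈ pCore p H := by
      rw [← QuotientGroup.ker_mk' (pCore p H)]; exact hk'
    obtain ⟨l, hl⟩ := (Cfsg.Agent.Lib.Helper23.Cores.pCore_isPGroup (G := H) p) ⟨_, hgk⟩
    have hl' : (g ^ p ^ k) ^ p ^ l = 1 := congrArg Subtype.val hl
    refine ⟨k + l, ?_⟩
    apply Subtype.ext
    show g ^ p ^ (k + l) = 1
    rw [pow_add, pow_mul]; exact hl'
  have hle := Cfsg.Agent.Lib.Helper23.Cores.le_pCore p _ hNn hNp
  have hx : x ∈ pCore p H := hle hy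
  rw [Subgroup.mem_bot]
  exact (QuotientGroup.eq_one_iff x).2 hx


/-- The core of the Gaschütz–Yen theorem: `O_{p'}(G) = 1` forces `O_p(G)` to contain every
`p`-element. -/
theorem core {G : Type u} [Group G] [Finite G] {p : ℕ} [Fact p.Prime]
    (hQ1 : ∀ (P : Type u) [Group P] [Finite P], IsPGroup p P → ∀ φ : MulAut P,
      (orderOf φ).Coprime p → (∀ x : P, x ^ p = 1 → φ x = x) → φ = 1)
    (hG : IsPSolvable p G) (hO : pPrimeCore p G = ⊥)
    (htrans : ∀ U V : Subgroup G, Nat.card U = p → Nat.card V = p →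
      ∃ a : MulAut G, U.map a.toMonoidHom = V) :
    ∀ (t : G) (k : ℕ), t ^ p ^ k = 1 → t ∈ pCore p G := by
  classical
  have hpp : p.Prime := Fact.out
  set P := pCore p G with hPdef
  have hPn : P.Normal := inferInstance
  have hPp : IsPGroup p P := Cfsg.Agent.Lib.Helper23.Cores.pCore_isPGroup p
  have hCP : Subgroup.centralizer (P : Set G) ≤ P :=
    Cfsg.Agent.Lib.Helper76.PSolv.centralizer_pCore_le p hG hO
  -- P is invariant under automorphisms
  have hPaut : ∀ (a : MulAut G) (x : G), x ∈ P → a x ∈ P := by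
    intro a x hx
    exact Cfsg.Agent.S2923.map_pCore_le a ⟨x, hx, rfl⟩
  by_cases hPbot : P = ⊥
  · intro t k _
    have : t ∈ Subgroup.centralizer (P : Set G) := by
      rw [hPbot]; simp [Subgroup.mem_centralizer_iff]
    exact hCP this
  -- the subgroup V
  let V : Subgroup G :=
    { carrier := {x | x ∈ P ∧ (∀ y ∈ P, x * y = y * x) ∧ x ^ p = 1}
      one_mem' := ⟨P.one_mem, fun y _ => by simp, one_pow p⟩
      mul_mem' := by
        rintro a b ⟨ha, hac, hap⟩ ⟨hb, hbc, hbp⟩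
        refine ⟨P.mul_mem ha hb, fun y hy => ?_, ?_⟩
        · rw [mul_assoc, hbc y hy, ← mul_assoc, hac y hy, mul_assoc]
        · rw [(show Commute a b from hac b hb).mul_pow, hap, hbp, one_mul]
      inv_mem' := by
        rintro a ⟨ha, hac, hap⟩
        refine ⟨P.inv_mem ha, fun y hy => ?_, by rw [inv_pow, hap, inv_one]⟩
        have := hac y hy
        calc a⁻¹ * y = a⁻¹ * (y * a) * a⁻¹ := by group
          _ = a⁻¹ * (a * y) * a⁻¹ := by rw [this]
          _ = y * a⁻¹ := by group }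
  have hVmem : ∀ x : G, x ∈ V ↔ x ∈ P ∧ (∀ y ∈ P, x * y = y * x) ∧ x ^ p = 1 := fun x => Iff.rfl
  have hVaut : ∀ (a : MulAut G) (x : G), x ∈ V → a x ∈ V := by
    intro a x hx
    obtain ⟨hxP, hxc, hxp⟩ := (hVmem x).1 hx
    refine (hVmem _).2 ⟨hPaut a x hxP, fun y hy => ?_, by rw [← map_pow, hxp, map_one]⟩
    have hy' : a⁻¹ y ∈ P := hPaut a⁻¹ y hy
    have h1 := hxc _ hy'
    have h2 : a (a⁻¹ y) = y := by simp
    calc a x * y = a x * a (a⁻¹ y) := by rw [h2]
      _ = a (x * a⁻¹ y) := by rw [map_mul]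
      _ = a (a⁻¹ y * x) := by rw [h1]
      _ = y * a x := by rw [map_mul, h2]
  -- a central element of order p
  obtain ⟨z0, hz0V, hz01⟩ : ∃ z : G, z ∈ V ∧ z ≠ 1 := by
    haveI : Nontrivial P := by
      rw [Subgroup.nontrivial_iff_ne_bot]; exact hPbot
    haveI := hPp.center_nontrivial
    obtain ⟨⟨z, hz⟩, hzne⟩ := exists_ne (1 : Subgroup.center P)
    have hz1 : z ≠ 1 := fun h => hzne (Subtype.ext h)
    obtain ⟨k, hk⟩ := hPp z
    have hk' : (z : G) ^ p ^ k = 1 := by
      have := congrArg Subtype.val hk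
      simpa using this
    have hz1' : (z : G) ≠ 1 := fun h => hz1 (Subtype.ext h)
    obtain ⟨j, hj1, hj2⟩ := exists_prime_pow p (z : G) k hk' hz1'
    refine ⟨(z : G) ^ p ^ j, (hVmem _).2 ⟨P.pow_mem z.2 _, ?_, hj2⟩, hj1⟩
    intro q hq
    have h1 : z * ⟨q, hq⟩ = ⟨q, hq⟩ * z := ((Subgroup.mem_center_iff.1 hz) ⟨q, hq⟩).symm
    have h2 : (z : G) * q = q * (z : G) := congrArg Subtype.val h1
    exact ((Commute.pow_left (show Commute (z : G) q from h2) _).eq)
  have hz0p : z0 ^ p = 1 := ((hVmem z0).1 hz0V).2.2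
  have hcardz : ∀ x : G, x ≠ 1 → x ^ p = 1 → Nat.card (Subgroup.zpowers x) = p := by
    intro x hx1 hxp
    rw [Nat.card_zpowers]
    exact orderOf_eq_prime hxp hx1
  -- every element of order p lies in V
  have hordp : ∀ x : G, x ^ p = 1 → x ∈ V := by
    intro x hxp
    by_cases hx1 : x = 1
    · rw [hx1]; exact V.one_mem
    obtain ⟨a, ha⟩ := htrans (Subgroup.zpowers z0) (Subgroup.zpowers x)
      (hcardz z0 hz01 hz0p) (hcardz x hx1 hxp)
    have hx : x ∈ (Subgroup.zpowers z0).map a.toMonoidHom := by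
      rw [ha]; exact Subgroup.mem_zpowers x
    obtain ⟨y, hy, rfl⟩ := hx
    obtain ⟨j, rfl⟩ := Subgroup.mem_zpowers_iff.1 hy
    exact hVaut a _ (V.zpow_mem hz0V j)
  -- faithful action of p'-elements on V
  have hfaith : ∀ (g : G) (m : ℕ), m.Coprime p → g ^ m = 1 → (∀ v ∈ V, g * v = v * g) → g = 1 := by
    intro g m hm hgm hgV
    let φ : MulAut ↥P := MulAut.conjNormal g
    have hφm : φ ^ m = 1 := by
      show (MulAut.conjNormal g : MulAut ↥P) ^ m = 1
      rw [← map_pow, hgm, map_one]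
    have hφ : (orderOf φ).Coprime p :=
      Nat.Coprime.coprime_dvd_left (orderOf_dvd_of_pow_eq_one hφm) hm
    have hfix : ∀ x : ↥P, x ^ p = 1 → φ x = x := by
      intro x hx
      have hx' : (x : G) ^ p = 1 := by
        have := congrArg Subtype.val hx
        simpa using this
      have hxV := hordp _ hx'
      apply Subtype.ext
      show g * x * g⁻¹ = x
      rw [hgV _ hxV]; group
    have hφ1 := hQ1 ↥P hPp φ hφ hfix
    have hgC : g ∈ Subgroup.centralizer (P : Set G) := by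
      rw [Subgroup.mem_centralizer_iff]
      intro y hy
      have h1 : φ ⟨y, hy⟩ = ⟨y, hy⟩ := by rw [hφ1]; rfl
      have h2 : g * y * g⁻¹ = y := congrArg Subtype.val h1
      calc y * g = (g * y * g⁻¹) * g := by rw [h2]
        _ = g * y := by group
    have hgP := hCP hgC
    obtain ⟨k, hk⟩ := hPp ⟨g, hgP⟩
    have hk' : g ^ p ^ k = 1 := by
      have := congrArg Subtype.val hk
      simpa using this
    have hdvd : orderOf g ∣ Nat.gcd m (p ^ k) :=
      Nat.dvd_gcd (orderOf_dvd_of_pow_eq_one hgm) (orderOf_dvd_of_pow_eq_one hk')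
    have hgcd : Nat.gcd m (p ^ k) = 1 := Nat.Coprime.pow_right k hm
    rw [hgcd] at hdvd
    exact orderOf_eq_one_iff.1 (Nat.dvd_one.1 hdvd)
  -- the subgroup K
  let π := QuotientGroup.mk' P
  have hπ : Function.Surjective π := QuotientGroup.mk'_surjective P
  let K : Subgroup G := (pPrimeCore p (G ⧸ P)).comap π
  have hKdef : K = (pPrimeCore p (G ⧸ P)).comap π := rfl
  have hKn : K.Normal :=
    Subgroup.Normal.comap (Cfsg.Agent.Lib.Helper50.Cores.pPrimeCore_normal p) _
  have hPK : P ≤ K := by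
    intro x hx
    show π x ∈ pPrimeCore p (G ⧸ P)
    have : π x = 1 := (QuotientGroup.eq_one_iff x).2 hx
    rw [this]; exact Subgroup.one_mem _
  have hmapK : K.map π = pPrimeCore p (G ⧸ P) :=
    Subgroup.map_comap_eq_self_of_surjective hπ _
  have hPker : P = (⊥ : Subgroup (G ⧸ P)).comap π := by
    rw [MonoidHom.comap_bot]; exact (QuotientGroup.ker_mk' P).symm
  have hrel : P.relIndex K = Nat.card (pPrimeCore p (G ⧸ P)) := by
    conv_lhs => rw [hPker]
    rw [Subgroup.relIndex_comap, hmapK, Subgroup.relIndex_bot_left]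
  have hcop : (P.relIndex K).Coprime p := by
    rw [hrel]; exact Cfsg.Agent.Lib.Helper50.Cores.pPrimeCore_coprime p
  by_cases hKP : K ≤ P
  · -- then G ⧸ P is trivial
    have h2 : pPrimeCore p (G ⧸ P) = ⊥ := by
      rw [← hmapK, eq_bot_iff]
      rintro _ ⟨x, hx, rfl⟩
      rw [Subgroup.mem_bot]
      exact (QuotientGroup.eq_one_iff x).2 (hKP hx)
    have hs : IsPSolvable p (G ⧸ P) :=
      Cfsg.Agent.Lib.Helper11.PConstr.isPSolvable_of_surjective p π hπ hG
    have htriv := triv_of_cores_bot p hs (pCore_quot_bot' p) h2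
    intro t k _
    exact (QuotientGroup.eq_one_iff t).1 (htriv (π t))
  -- K is invariant under automorphisms
  have hKaut : ∀ (a : MulAut G) (g : G), g ∈ K → a g ∈ K := by
    intro a g hg
    have hmap : P.map a.toMonoidHom = P := by
      apply le_antisymm
      · rintro _ ⟨x, hx, rfl⟩; exact hPaut a x hx
      · intro x hx
        exact ⟨a⁻¹ x, hPaut a⁻¹ x hx, by simp⟩
    let ab : (G ⧸ P) ≃* (G ⧸ P) := QuotientGroup.congr P P a hmap
    have hchar := Cfsg.Agent.Lib.Helper50.ZStarMin.pPrimeCore_characteristic (G := G ⧸ P) p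
    have h1 : (pPrimeCore p (G ⧸ P)).map ab.toMonoidHom = pPrimeCore p (G ⧸ P) :=
      (Subgroup.characteristic_iff_map_eq.1 hchar) ab
    have h2 : ab (π g) ∈ pPrimeCore p (G ⧸ P) := by
      rw [← h1]; exact ⟨π g, hg, rfl⟩
    show π (a g) ∈ pPrimeCore p (G ⧸ P)
    have h3 : ab (π g) = π (a g) := rfl
    rw [← h3]; exact h2
  have hVP : V ≤ P := fun x hx => ((hVmem x).1 hx).1
  have hVc : ∀ v ∈ V, ∀ y ∈ P, v * y = y * v := fun v hv => ((hVmem v).1 hv).2.1
  have htr : ∀ x ∈ V, ∀ y ∈ V, x ≠ 1 → y ≠ 1 →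
      ∃ a : MulAut G, (∀ g ∈ K, a g ∈ K) ∧ y ∈ Subgroup.zpowers (a x) := by
    intro x hx y hy hx1 hy1
    have hxp : x ^ p = 1 := ((hVmem x).1 hx).2.2
    have hyp : y ^ p = 1 := ((hVmem y).1 hy).2.2
    obtain ⟨a, ha⟩ := htrans (Subgroup.zpowers x) (Subgroup.zpowers y)
      (hcardz x hx1 hxp) (hcardz y hy1 hyp)
    refine ⟨a, hKaut a, ?_⟩
    have hy' : y ∈ (Subgroup.zpowers x).map a.toMonoidHom := by
      rw [ha]; exact Subgroup.mem_zpowers y
    obtain ⟨w, hw, rfl⟩ := hy'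
    obtain ⟨j, rfl⟩ := Subgroup.mem_zpowers_iff.1 hw
    rw [Subgroup.mem_zpowers_iff]
    exact ⟨j, by simp⟩
  obtain ⟨B, hBK, hPB, hBcard, hCV⟩ :=
    Cfsg.Agent.Lib.Helper91.GYEa.exists_compl P V K hPn hPp hKn hPK hcop hKP hVP hVc hfaith htr
  exact Cfsg.Agent.Lib.Helper91.GYEb.all_p_in P V K B hPn hPp hKn hPK hcop hVP hordp hBK hPB
    hBcard hCV

end Cfsg.Agent.Lib.Helper2.GYCore
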