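import Cfsg.Agent.Lib.Helper60.HJStmt

set_option autoImplicit false

namespace Cfsg.Agent.Lib.Helper2.HJF1

universe u

open Cfsg.Agent.Lib.Helper60.HJStmt

theorem orderOf_conj' {G : Type u} [Group G] (g x : G) : orderOf (g * x * g⁻¹) = orderOf x := by
  have := MulEquiv.orderOf_eq (MulAut.conj g) x
  simpa [MulAut.conj_apply] using this

theorem orderOf_of_isConj {G : Type u} [Group G] {x y : G} (h : IsConj x y) :
    orderOf x = orderOf y := by
  obtain ⟨c, rfl⟩ := isConj_iff.mp h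
  exact (orderOf_conj' c x).symm

theorem isConj_conj {G : Type u} [Group G] (g x : G) : IsConj (g * x * g⁻¹) x :=
  (isConj_iff.mpr ⟨g, rfl⟩ : IsConj x (g * x * g⁻¹)).symm

theorem conj_comm {G : Type u} [Group G] (g : G) {x y : G} (h : x * y = y * x) :
    g * x * g⁻¹ * (g * y * g⁻¹) = g * y * g⁻¹ * (g * x * g⁻¹) := by
  calc g * x * g⁻¹ * (g * y * g⁻¹) = g * (x * y) * g⁻¹ := by group
    _ = g * (y * x) * g⁻¹ := by rw [h]
    _ = g * y * g⁻¹ * (g * x * g⁻¹) := by group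

theorem main : F1.{u} := by
  intro G _ _ z t Q K V B h hyp y hyz hy hyQ
  have hyt : IsConj y t := h.hCz y hyz hy hyQ
  obtain ⟨g, hg⟩ := isConj_iff.mp hyt
  have hz'z : IsConj (g * z * g⁻¹) z := isConj_conj g z
  have hz't : g * z * g⁻¹ * t = t * (g * z * g⁻¹) := by
    have h2 := conj_comm g hyz.symm
    rw [hg] at h2
    exact h2
  refine (Nat.card_congr ?_).trans (hyp (g * z * g⁻¹) hz'z hz't)
  refine ⟨fun x => ⟨g * x.1 * g⁻¹, ?_, ?_, ?_, ?_⟩,
    fun x' => ⟨g⁻¹ * x'.1 * g, ?_, ?_, ?_, ?_⟩, ?_, ?_⟩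
  · -- IsConj (g x g⁻¹) z
    exact (isConj_conj g x.1).trans (h.hQz x.1 x.2.1 x.2.2.1)
  · -- commutes with t
    have h2 := conj_comm g x.2.2.2.2
    rw [hg] at h2
    exact h2
  · -- commutes with z'
    exact conj_comm g (h.Q_le x.1 x.2.1)
  · -- ≠ z'
    intro hEq
    apply x.2.2.2.1
    have : g⁻¹ * (g * x.1 * g⁻¹) * g = g⁻¹ * (g * z * g⁻¹) * g := by rw [hEq]
    calc x.1 = g⁻¹ * (g * x.1 * g⁻¹) * g := by group
      _ = g⁻¹ * (g * z * g⁻¹) * g := this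
      _ = z := by group
  · -- x := g⁻¹ x' g ∈ Q
    obtain ⟨hx1, hx2, hx3, hx4⟩ := x'.2
    have hconj : IsConj (g⁻¹ * x'.1 * g) z := by
      have h1 : IsConj (g⁻¹ * x'.1 * g⁻¹⁻¹) x'.1 := isConj_conj g⁻¹ x'.1
      rw [inv_inv] at h1
      exact h1.trans hx1
    have hord : orderOf (g⁻¹ * x'.1 * g) = 2 := by rw [orderOf_of_isConj hconj, h.hz]
    have hcz : g⁻¹ * x'.1 * g * z = z * (g⁻¹ * x'.1 * g) := by
      have h2 := conj_comm g⁻¹ hx3
      rw [inv_inv] at h2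
      have e : g⁻¹ * (g * z * g⁻¹) * g = z := by group
      rw [e] at h2
      exact h2
    by_contra hQ
    have := h.hCz _ hcz hord hQ
    exact h.hzt (hconj.symm.trans this)
  · -- orderOf = 2
    obtain ⟨hx1, hx2, hx3, hx4⟩ := x'.2
    have hconj : IsConj (g⁻¹ * x'.1 * g) z := by
      have h1 : IsConj (g⁻¹ * x'.1 * g⁻¹⁻¹) x'.1 := isConj_conj g⁻¹ x'.1
      rw [inv_inv] at h1
      exact h1.trans hx1
    rw [orderOf_of_isConj hconj, h.hz]
  · -- ≠ z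
    obtain ⟨hx1, hx2, hx3, hx4⟩ := x'.2
    intro hEq
    apply hx4
    calc x'.1 = g * (g⁻¹ * x'.1 * g) * g⁻¹ := by group
      _ = g * z * g⁻¹ := by rw [hEq]
  · -- commutes with y
    obtain ⟨hx1, hx2, hx3, hx4⟩ := x'.2
    have h2 := conj_comm g⁻¹ hx2
    rw [inv_inv] at h2
    have e : g⁻¹ * t * g = y := by rw [← hg]; group
    rw [e] at h2
    exact h2
  · intro x
    apply Subtype.ext
    show g⁻¹ * (g * x.1 * g⁻¹) * g = x.1
    group
  · intro x'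
    apply Subtype.ext
    show g * (g⁻¹ * x'.1 * g) * g⁻¹ = x'.1
    group

end Cfsg.Agent.Lib.Helper2.HJF1
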