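import Cfsg.Agent.Lib.Helper60.HJStmt

set_option autoImplicit false

namespace Cfsg.Agent.Lib.Helper2.HJXT

universe u

open Cfsg.Agent.Lib.Helper60.HJStmt

theorem orderOf_of_isConj {G : Type u} [Group G] {x y : G} (h : IsConj x y) :
    orderOf x = orderOf y := by
  obtain ⟨c, rfl⟩ := isConj_iff.mp h
  have := MulEquiv.orderOf_eq (MulAut.conj c) x
  simpa [MulAut.conj_apply] using this.symm

theorem key {G : Type u} [Group G] {z t : G} {Q K V B : Subgroup G} (h : HJ z t Q K V B)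
    (x : G) : (IsConj x z ∧ x * t = t * x) ↔ (x ∈ B ∧ orderOf x = 2) := by
  constructor
  · rintro ⟨hxz, hxt⟩
    have hord : orderOf x = 2 := by rw [orderOf_of_isConj hxz, h.hz]
    refine ⟨?_, hord⟩
    by_contra hxB
    exact h.hzt (hxz.symm.trans (h.hCt x hxt hord hxB))
  · rintro ⟨hxB, hord⟩
    exact ⟨h.hBz x hxB hord, h.B_le x hxB⟩

theorem main : XT.{u} := by
  intro hA G _ _ z t Q K V B h
  obtain ⟨h15, h2, _⟩ := hA
  obtain ⟨e⟩ := h.hB
  constructor
  · refine (Nat.card_congr ?_).trans h15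
    refine ⟨fun x => ⟨e ⟨x.1, ((key h x.1).mp x.2).1⟩, ?_⟩,
      fun y => ⟨((e.symm y.1 : ↥B) : G), ?_⟩, ?_, ?_⟩
    · rw [MulEquiv.orderOf_eq, Subgroup.orderOf_mk]
      exact ((key h x.1).mp x.2).2
    · apply (key h _).mpr
      refine ⟨(e.symm y.1).2, ?_⟩
      rw [Subgroup.orderOf_coe, MulEquiv.orderOf_eq]
      exact y.2
    · intro x
      apply Subtype.ext
      simp
    · intro y
      apply Subtype.ext
      simp
  · intro z' hz'z hz't
    have hz'B := (key h z').mp ⟨hz'z, hz't⟩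
    have hao : orderOf (e ⟨z', hz'B.1⟩) = 2 := by
      rw [MulEquiv.orderOf_eq, Subgroup.orderOf_mk]
      exact hz'B.2
    refine (Nat.card_congr ?_).trans (h2 (e ⟨z', hz'B.1⟩) hao)
    refine ⟨fun x => ⟨e ⟨x.1, ((key h x.1).mp ⟨x.2.1, x.2.2.1⟩).1⟩, ?_, ?_, ?_⟩,
      fun y => ⟨((e.symm y.1 : ↥B) : G), ?_, ?_, ?_, ?_⟩, ?_, ?_⟩
    · rw [MulEquiv.orderOf_eq, Subgroup.orderOf_mk]
      exact ((key h x.1).mp ⟨x.2.1, x.2.2.1⟩).2
    · rw [← map_mul, ← map_mul]
      congr 1
      apply Subtype.ext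
      exact x.2.2.2.1
    · intro hEq
      apply x.2.2.2.2
      have := e.injective hEq
      exact congrArg Subtype.val this
    · -- IsConj
      have hk : (((e.symm y.1 : ↥B) : G) ∈ B ∧ orderOf ((e.symm y.1 : ↥B) : G) = 2) := by
        refine ⟨(e.symm y.1).2, ?_⟩
        rw [Subgroup.orderOf_coe, MulEquiv.orderOf_eq]
        exact y.2.1
      exact ((key h _).mpr hk).1
    · have hk : (((e.symm y.1 : ↥B) : G) ∈ B ∧ orderOf ((e.symm y.1 : ↥B) : G) = 2) := by
        refine ⟨(e.symm y.1).2, ?_⟩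
        rw [Subgroup.orderOf_coe, MulEquiv.orderOf_eq]
        exact y.2.1
      exact ((key h _).mpr hk).2
    · -- commutes with z'
      have hc := y.2.2.1
      have hc' := congrArg e.symm hc
      rw [map_mul, map_mul, MulEquiv.symm_apply_apply] at hc'
      have := congrArg Subtype.val hc'
      simpa using this
    · intro hEq
      apply y.2.2.2
      have : e.symm y.1 = ⟨z', hz'B.1⟩ := Subtype.ext hEq
      exact (MulEquiv.symm_apply_eq e).mp this
    · intro x
      apply Subtype.ext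
      simp
    · intro y
      apply Subtype.ext
      simp

end Cfsg.Agent.Lib.Helper2.HJXT
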