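import Mathlib
import Cfsg.Agent.Lib.Helper89.NCStmt

/-!
Piece CENTP of S3921: the centralizers of the nontrivial elements of `PSL(2,q)`, `q` odd, from
the centralizers of the non-central elements of `SL(2,q)`.
-/

set_option autoImplicit false

namespace Cfsg.Agent.Lib.Helper2.NCCENTP

open Cfsg.Agent.Lib.Helper89.NCStmt Matrix

/-- equality of elements of the special linear group from equality of matrices -/
theorem sl_ext {F : Type} [Field F] {A B : Matrix.SpecialLinearGroup (Fin 2) F}
    (h : (A : Matrix (Fin 2) (Fin 2) F) = (B : Matrix (Fin 2) (Fin 2) F)) : A = B :=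
  Subtype.ext h

/-- the centre of `SL(2,F)` consists of `1` and `-1` -/
theorem mem_center_sl2 {F : Type} [Field F] [Fintype F]
    (z : Matrix.SpecialLinearGroup (Fin 2) F) :
    z ∈ Subgroup.center (Matrix.SpecialLinearGroup (Fin 2) F) ↔
      (z : Matrix (Fin 2) (Fin 2) F) = 1 ∨ (z : Matrix (Fin 2) (Fin 2) F) = -1 := by
  rw [Matrix.SpecialLinearGroup.mem_center_iff]
  constructor
  · rintro ⟨r, hr, hz⟩
    rw [Fintype.card_fin, pow_two] at hr
    rcases mul_self_eq_one_iff.1 hr with rfl | rfl
    · left; rw [← hz, map_one]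
    · right; rw [← hz, map_neg, map_one]
  · rintro (h | h)
    · exact ⟨1, by simp, by rw [h, map_one]⟩
    · exact ⟨-1, by simp, by rw [h, map_neg, map_one]⟩

/-- a matrix of determinant one and trace zero squares to `-1` -/
theorem sq_eq_neg_one_of_trace {F : Type} [Field F] (M : Matrix (Fin 2) (Fin 2) F)
    (hdet : M.det = 1) (htr : M.trace = 0) : M * M = -1 := by
  rw [Matrix.det_fin_two] at hdet
  rw [Matrix.trace_fin_two] at htr
  ext i j
  fin_cases i <;> fin_cases j <;>
    simp only [Matrix.mul_apply, Fin.sum_univ_two, Matrix.neg_apply, Matrix.one_apply_eq,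
      Fin.zero_eta, Fin.mk_one, Matrix.one_apply_ne, ne_eq, zero_ne_one, one_ne_zero,
      not_false_eq_true, neg_zero]
  · linear_combination (M 0 0) * htr - hdet
  · linear_combination (M 0 1) * htr
  · linear_combination (M 1 0) * htr
  · linear_combination (M 1 1) * htr - hdet

theorem main : Cfsg.Agent.Lib.Helper89.NCStmt.CentP := by
  intro F _ _ hodd hSL
  classical
  intro x hx
  obtain ⟨c, rfl⟩ := QuotientGroup.mk_surjective x
  have hchar : ringChar F ≠ 2 := by
    intro h
    have := FiniteField.even_card_iff_char_two.1 h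
    obtain ⟨r, hr⟩ := hodd
    omega
  have h2F : (2 : F) ≠ 0 := Ring.two_ne_zero hchar
  have hcZ : c ∉ Subgroup.center (Matrix.SpecialLinearGroup (Fin 2) F) := by
    intro h; apply hx; exact (QuotientGroup.eq_one_iff c).2 h
  have hc1 : (c : Matrix (Fin 2) (Fin 2) F) ≠ 1 := fun h => hcZ ((mem_center_sl2 c).2 (Or.inl h))
  have hc2 : (c : Matrix (Fin 2) (Fin 2) F) ≠ -1 :=
    fun h => hcZ ((mem_center_sl2 c).2 (Or.inr h))
  have hmemC : ∀ g : Matrix.SpecialLinearGroup (Fin 2) F,
      g ∈ Subgroup.centralizer ({c} : Set (Matrix.SpecialLinearGroup (Fin 2) F)) ↔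
        c * g = g * c := by
    intro g
    rw [Subgroup.mem_centralizer_iff]
    constructor
    · intro h; exact h c (Set.mem_singleton _)
    · intro h y hy
      rw [Set.mem_singleton_iff] at hy
      rw [hy]; exact h
  have hmemCb : ∀ g : Matrix.SpecialLinearGroup (Fin 2) F,
      (QuotientGroup.mk g : Matrix.ProjectiveSpecialLinearGroup (Fin 2) F) ∈
        Subgroup.centralizer ({(QuotientGroup.mk c :
          Matrix.ProjectiveSpecialLinearGroup (Fin 2) F)} : Set _) ↔
      (QuotientGroup.mk (c * g) : Matrix.ProjectiveSpecialLinearGroup (Fin 2) F)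
        = QuotientGroup.mk (g * c) := by
    intro g
    rw [Subgroup.mem_centralizer_iff]
    constructor
    · intro h; exact h _ (Set.mem_singleton _)
    · intro h y hy
      rw [Set.mem_singleton_iff] at hy
      rw [hy]; exact h
  -- lifting a centralizing element
  have key : ∀ g : Matrix.SpecialLinearGroup (Fin 2) F,
      (QuotientGroup.mk g : Matrix.ProjectiveSpecialLinearGroup (Fin 2) F) ∈
        Subgroup.centralizer ({(QuotientGroup.mk c :
          Matrix.ProjectiveSpecialLinearGroup (Fin 2) F)} : Set _) →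
      g ∈ Subgroup.centralizer ({c} : Set (Matrix.SpecialLinearGroup (Fin 2) F)) ∨
        (g : Matrix (Fin 2) (Fin 2) F) * (c : Matrix (Fin 2) (Fin 2) F)
          = -((c : Matrix (Fin 2) (Fin 2) F) * (g : Matrix (Fin 2) (Fin 2) F)) := by
    intro g hg
    have h2 := (hmemCb g).1 hg
    have h3 : (c * g)⁻¹ * (g * c) ∈ Subgroup.center (Matrix.SpecialLinearGroup (Fin 2) F) :=
      (QuotientGroup.eq (s := Subgroup.center (Matrix.SpecialLinearGroup (Fin 2) F))).1 h2
    have h4 : g * c = (c * g) * ((c * g)⁻¹ * (g * c)) := by group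
    generalize (c * g)⁻¹ * (g * c) = z at h3 h4
    rcases (mem_center_sl2 _).1 h3 with h5 | h5
    · left
      rw [hmemC]
      have h6 : z = 1 := sl_ext h5
      rw [h6, mul_one] at h4
      exact h4.symm
    · right
      have h6 : ((g * c : Matrix.SpecialLinearGroup (Fin 2) F) : Matrix (Fin 2) (Fin 2) F)
          = ((c * g * z : Matrix.SpecialLinearGroup (Fin 2) F) : Matrix (Fin 2) (Fin 2) F) := by
        rw [← h4]
      rw [Matrix.SpecialLinearGroup.coe_mul, Matrix.SpecialLinearGroup.coe_mul (c * g) z, h5,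
        Matrix.SpecialLinearGroup.coe_mul] at h6
      rw [h6, Matrix.mul_neg, mul_one]
  have hprod : ∀ g h : Matrix.SpecialLinearGroup (Fin 2) F,
      (g : Matrix (Fin 2) (Fin 2) F) * (c : Matrix (Fin 2) (Fin 2) F)
          = -((c : Matrix (Fin 2) (Fin 2) F) * (g : Matrix (Fin 2) (Fin 2) F)) →
      (h : Matrix (Fin 2) (Fin 2) F) * (c : Matrix (Fin 2) (Fin 2) F)
          = -((c : Matrix (Fin 2) (Fin 2) F) * (h : Matrix (Fin 2) (Fin 2) F)) →
      g * h ∈ Subgroup.centralizer ({c} : Set (Matrix.SpecialLinearGroup (Fin 2) F)) := by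
    intro g h hg hh
    rw [hmemC]
    apply sl_ext
    rw [Matrix.SpecialLinearGroup.coe_mul, Matrix.SpecialLinearGroup.coe_mul,
      Matrix.SpecialLinearGroup.coe_mul, Matrix.SpecialLinearGroup.coe_mul]
    calc (c : Matrix (Fin 2) (Fin 2) F) * ((g : Matrix (Fin 2) (Fin 2) F) *
          (h : Matrix (Fin 2) (Fin 2) F))
        = -(-((c : Matrix (Fin 2) (Fin 2) F) * (g : Matrix (Fin 2) (Fin 2) F))) *
          (h : Matrix (Fin 2) (Fin 2) F) := by rw [neg_neg, mul_assoc]
      _ = -((g : Matrix (Fin 2) (Fin 2) F) * (c : Matrix (Fin 2) (Fin 2) F)) *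
          (h : Matrix (Fin 2) (Fin 2) F) := by rw [hg]
      _ = (g : Matrix (Fin 2) (Fin 2) F) * (-((c : Matrix (Fin 2) (Fin 2) F) *
          (h : Matrix (Fin 2) (Fin 2) F))) := by rw [Matrix.neg_mul, Matrix.mul_neg, mul_assoc]
      _ = (g : Matrix (Fin 2) (Fin 2) F) * ((h : Matrix (Fin 2) (Fin 2) F) *
          (c : Matrix (Fin 2) (Fin 2) F)) := by rw [hh]
      _ = (g : Matrix (Fin 2) (Fin 2) F) * (h : Matrix (Fin 2) (Fin 2) F) *
          (c : Matrix (Fin 2) (Fin 2) F) := by rw [mul_assoc]
  have hAle : (Subgroup.centralizer ({c} : Set (Matrix.SpecialLinearGroup (Fin 2) F))).map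
      (QuotientGroup.mk' (Subgroup.center (Matrix.SpecialLinearGroup (Fin 2) F))) ≤
      Subgroup.centralizer ({(QuotientGroup.mk c :
          Matrix.ProjectiveSpecialLinearGroup (Fin 2) F)} : Set _) := by
    rintro _ ⟨g, hg, rfl⟩
    show (QuotientGroup.mk g : Matrix.ProjectiveSpecialLinearGroup (Fin 2) F) ∈ _
    rw [hmemCb, (hmemC g).1 hg]
  refine ⟨(Subgroup.centralizer ({c} : Set (Matrix.SpecialLinearGroup (Fin 2) F))).map
    (QuotientGroup.mk' (Subgroup.center (Matrix.SpecialLinearGroup (Fin 2) F))), ?_, hAle,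
    ?_, ?_, ?_⟩
  · exact ⟨c, (hmemC c).2 rfl, rfl⟩
  · intro g hg hgA h hh hhA
    obtain ⟨g, rfl⟩ := QuotientGroup.mk_surjective g
    obtain ⟨h, rfl⟩ := QuotientGroup.mk_surjective h
    rcases key g hg with hg1 | hg1
    · exact absurd ⟨g, hg1, rfl⟩ hgA
    rcases key h hh with hh1 | hh1
    · exact absurd ⟨h, hh1, rfl⟩ hhA
    exact ⟨g * h, hprod g h hg1 hh1, rfl⟩
  · intro hord
    apply le_antisymm hAle
    intro g hg
    obtain ⟨g, rfl⟩ := QuotientGroup.mk_surjective g
    rcases key g hg with hg1 | hg1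
    · exact ⟨g, hg1, rfl⟩
    · exfalso
      apply hord
      -- trace of `c` is zero
      have hinv : (g : Matrix (Fin 2) (Fin 2) F) *
          ((g⁻¹ : Matrix.SpecialLinearGroup (Fin 2) F) : Matrix (Fin 2) (Fin 2) F) = 1 := by
        rw [← Matrix.SpecialLinearGroup.coe_mul, mul_inv_cancel]; rfl
      have hinv' : ((g⁻¹ : Matrix.SpecialLinearGroup (Fin 2) F) : Matrix (Fin 2) (Fin 2) F)
          * (g : Matrix (Fin 2) (Fin 2) F) = 1 := by
        rw [← Matrix.SpecialLinearGroup.coe_mul, inv_mul_cancel]; rfl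
      have hconj : (c : Matrix (Fin 2) (Fin 2) F)
          = -(((g⁻¹ : Matrix.SpecialLinearGroup (Fin 2) F) : Matrix (Fin 2) (Fin 2) F)
            * ((c : Matrix (Fin 2) (Fin 2) F) * (g : Matrix (Fin 2) (Fin 2) F))) := by
        rw [← Matrix.mul_neg, ← hg1, ← mul_assoc, hinv', one_mul]
      have htr : (c : Matrix (Fin 2) (Fin 2) F).trace = 0 := by
        have h1 := congrArg Matrix.trace hconj
        rw [Matrix.trace_neg, Matrix.trace_mul_comm, mul_assoc, hinv, mul_one] at h1
        have h2 : (2 : F) * (c : Matrix (Fin 2) (Fin 2) F).trace = 0 := by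
          linear_combination h1
        rcases mul_eq_zero.1 h2 with h | h
        · exact absurd h h2F
        · exact h
      have hsq := sq_eq_neg_one_of_trace (c : Matrix (Fin 2) (Fin 2) F) c.2 htr
      have hccZ : c * c ∈ Subgroup.center (Matrix.SpecialLinearGroup (Fin 2) F) := by
        rw [mem_center_sl2]
        right
        rw [Matrix.SpecialLinearGroup.coe_mul]; exact hsq
      apply orderOf_eq_prime
      · rw [pow_two]
        exact (QuotientGroup.eq_one_iff (c * c)).2 hccZ
      · exact hx
  · -- the cardinality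
    have hZ2 : Nat.card ↥(Subgroup.center (Matrix.SpecialLinearGroup (Fin 2) F)) = 2 := by
      rw [Nat.card_eq_two_iff]
      refine ⟨1, ⟨-1, (mem_center_sl2 _).2 (Or.inr ?_)⟩, ?_, ?_⟩
      · rw [Matrix.SpecialLinearGroup.coe_neg, Matrix.SpecialLinearGroup.coe_one]
      · intro h
        have h1 : ((1 : Matrix.SpecialLinearGroup (Fin 2) F) : Matrix (Fin 2) (Fin 2) F)
            = ((-1 : Matrix.SpecialLinearGroup (Fin 2) F) : Matrix (Fin 2) (Fin 2) F) :=
          congrArg (fun z : ↥(Subgroup.center (Matrix.SpecialLinearGroup (Fin 2) F)) =>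
            ((z : Matrix.SpecialLinearGroup (Fin 2) F) : Matrix (Fin 2) (Fin 2) F)) h
        rw [Matrix.SpecialLinearGroup.coe_neg, Matrix.SpecialLinearGroup.coe_one] at h1
        have h3 := congrFun (congrFun h1 0) 0
        simp only [Matrix.one_apply_eq, Matrix.neg_apply] at h3
        apply h2F
        linear_combination h3
      · ext z
        simp only [Set.mem_insert_iff, Set.mem_singleton_iff, Set.mem_univ, iff_true]
        rcases (mem_center_sl2 z.1).1 z.2 with h | h
        · left
          apply Subtype.ext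
          apply sl_ext
          rw [h]; rfl
        · right
          apply Subtype.ext
          apply sl_ext
          rw [h]
          show _ = ((-1 : Matrix.SpecialLinearGroup (Fin 2) F) : Matrix (Fin 2) (Fin 2) F)
          rw [Matrix.SpecialLinearGroup.coe_neg, Matrix.SpecialLinearGroup.coe_one]
    have hidx : ((Subgroup.centralizer ({c} : Set (Matrix.SpecialLinearGroup (Fin 2) F))).map
        (QuotientGroup.mk' (Subgroup.center (Matrix.SpecialLinearGroup (Fin 2) F)))).index
        = (Subgroup.centralizer ({c} : Set (Matrix.SpecialLinearGroup (Fin 2) F))).index :=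
      Subgroup.index_map_eq _ (QuotientGroup.mk'_surjective _)
        (by rw [QuotientGroup.ker_mk']; exact Subgroup.center_le_centralizer _)
    have h1 := Subgroup.card_mul_index
      (Subgroup.centralizer ({c} : Set (Matrix.SpecialLinearGroup (Fin 2) F)))
    have h2 := Subgroup.card_mul_index
      ((Subgroup.centralizer ({c} : Set (Matrix.SpecialLinearGroup (Fin 2) F))).map
        (QuotientGroup.mk' (Subgroup.center (Matrix.SpecialLinearGroup (Fin 2) F))))
    have h3 := Subgroup.card_eq_card_quotient_mul_card_subgroup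
      (Subgroup.center (Matrix.SpecialLinearGroup (Fin 2) F))
    have hi : (Subgroup.centralizer ({c} : Set (Matrix.SpecialLinearGroup (Fin 2) F))).index ≠ 0 :=
      Subgroup.index_ne_zero_of_finite
    have hcard : Nat.card ↥(Subgroup.centralizer ({c} : Set (Matrix.SpecialLinearGroup (Fin 2) F)))
        = 2 * Nat.card ↥((Subgroup.centralizer
          ({c} : Set (Matrix.SpecialLinearGroup (Fin 2) F))).map
        (QuotientGroup.mk' (Subgroup.center (Matrix.SpecialLinearGroup (Fin 2) F)))) := by
      rw [hidx] at h2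
      rw [hZ2, ← h2] at h3
      rw [h3] at h1
      have : Nat.card ↥(Subgroup.centralizer ({c} : Set (Matrix.SpecialLinearGroup (Fin 2) F)))
          * (Subgroup.centralizer ({c} : Set (Matrix.SpecialLinearGroup (Fin 2) F))).index
          = (2 * Nat.card ↥((Subgroup.centralizer
            ({c} : Set (Matrix.SpecialLinearGroup (Fin 2) F))).map
            (QuotientGroup.mk' (Subgroup.center (Matrix.SpecialLinearGroup (Fin 2) F)))))
          * (Subgroup.centralizer ({c} : Set (Matrix.SpecialLinearGroup (Fin 2) F))).index := by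
        rw [h1]; ring
      exact Nat.eq_of_mul_eq_mul_right (Nat.pos_of_ne_zero hi) this
    rcases hSL c hc1 hc2 with ⟨hcyc, h | h⟩ | h
    · left
      refine ⟨?_, Or.inl (by rw [← hcard]; exact h)⟩
      haveI := hcyc
      exact isCyclic_of_surjective _ (MonoidHom.subgroupMap_surjective (QuotientGroup.mk' _) _)
    · left
      refine ⟨?_, Or.inr (by rw [← hcard]; exact h)⟩
      haveI := hcyc
      exact isCyclic_of_surjective _ (MonoidHom.subgroupMap_surjective (QuotientGroup.mk' _) _)
    · right
      rw [h] at hcard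
      exact (Nat.eq_of_mul_eq_mul_left two_pos hcard).symm

end Cfsg.Agent.Lib.Helper2.NCCENTP
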