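import Mathlib
import Cfsg.Agent.Lib.Helper89.NCStmt

/-!
Piece NCODD of S3921: from the description of the centralizers of the nontrivial elements of
`PSL(2,q)`, for `q = 9` or `q` an odd prime of the form `2^k ± 1`, every non-cyclic subgroup
contains its centralizer.
-/

set_option autoImplicit false

namespace Cfsg.Agent.Lib.Helper2.NCNCODD

open Cfsg.Agent.Lib.Helper89.NCStmt

/-- a subgroup of a cyclic subgroup is cyclic -/
theorem isCyclic_of_le_cyc {G : Type*} [Group G] {H A : Subgroup G} (h : H ≤ A)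
    (hA : IsCyclic ↥A) : IsCyclic ↥H := by
  haveI := hA
  have h1 : IsCyclic ↥(H.subgroupOf A) := Subgroup.isCyclic _
  exact (Subgroup.subgroupOfEquivOfLe h).isCyclic.1 h1

/-- two elements of order two of a cyclic subgroup are equal -/
theorem eq_of_order_two_cyc {G : Type*} [Group G] [Finite G] {A : Subgroup G} (hA : IsCyclic ↥A)
    {c y : G} (hc : c ∈ A) (hy : y ∈ A) (hoc : orderOf c = 2) (hoy : orderOf y = 2) : y = c := by
  classical
  haveI := hA
  haveI : Fintype ↥A := Fintype.ofFinite _
  by_contra hne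
  have hle := IsCyclic.card_pow_eq_one_le (α := ↥A) (n := 2) (by norm_num)
  have hc2 : c ^ 2 = 1 := by rw [← hoc]; exact pow_orderOf_eq_one c
  have hy2 : y ^ 2 = 1 := by rw [← hoy]; exact pow_orderOf_eq_one y
  have hc1 : c ≠ 1 := by
    intro h; rw [h, orderOf_one] at hoc; omega
  have hy1 : y ≠ 1 := by
    intro h; rw [h, orderOf_one] at hoy; omega
  have hsub : ({(1 : ↥A), ⟨c, hc⟩, ⟨y, hy⟩} : Finset ↥A) ⊆
      Finset.univ.filter (fun a : ↥A => a ^ 2 = 1) := by
    intro a ha
    simp only [Finset.mem_insert, Finset.mem_singleton] at ha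
    simp only [Finset.mem_filter, Finset.mem_univ, true_and]
    rcases ha with rfl | rfl | rfl
    · simp
    · exact Subtype.ext (by simpa using hc2)
    · exact Subtype.ext (by simpa using hy2)
  have hcard : ({(1 : ↥A), ⟨c, hc⟩, ⟨y, hy⟩} : Finset ↥A).card = 3 := by
    rw [Finset.card_insert_of_notMem, Finset.card_insert_of_notMem, Finset.card_singleton]
    · simp only [Finset.mem_singleton]
      intro h
      exact hne (congrArg Subtype.val h).symm
    · simp only [Finset.mem_insert, Finset.mem_singleton]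
      rintro (h | h)
      · exact hc1 (congrArg Subtype.val h).symm
      · exact hy1 (congrArg Subtype.val h).symm
  have := Finset.card_le_card hsub
  omega

/-- the arithmetic: an even `n` with `2 n = q ± 1` is a power of two -/
theorem pow_two_of_even (q n : ℕ) (hq : Odd q)
    (hq9 : q = 9 ∨ (q.Prime ∧ ∃ k : ℕ, q = 2 ^ k + 1 ∨ q = 2 ^ k - 1))
    (hn : 2 * n = q - 1 ∨ 2 * n = q + 1) (h2 : 2 ∣ n) : ∃ m : ℕ, n = 2 ^ m := by
  rcases hq9 with h9 | ⟨hp, k, hk⟩
  · subst h9
    rcases hn with hn | hn
    · exact ⟨2, by omega⟩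
    · exfalso; omega
  · have hk1 : 1 ≤ k := by
      rcases Nat.eq_zero_or_pos k with h0 | h0
      · exfalso
        subst h0
        rcases hk with hk | hk
        · rw [hk] at hq; revert hq; decide
        · rw [hk] at hp; revert hp; decide
      · exact h0
    obtain ⟨j, rfl⟩ : ∃ j, k = j + 1 := ⟨k - 1, by omega⟩
    have hpow : 2 ^ (j + 1) = 2 * 2 ^ j := by rw [pow_succ]; ring
    have hjpos : 0 < 2 ^ j := Nat.pos_of_ne_zero (by positivity)
    rcases hk with hk | hk
    · rcases hn with hn | hn
      · exact ⟨j, by omega⟩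
      · -- n = 2^j + 1 even, so 2^j odd, j = 0
        rcases Nat.eq_zero_or_pos j with h0 | h0
        · subst h0
          exact ⟨1, by norm_num at hpow hk ⊢; omega⟩
        · exfalso
          obtain ⟨i, rfl⟩ : ∃ i, j = i + 1 := ⟨j - 1, by omega⟩
          have : 2 ^ (i + 1) = 2 * 2 ^ i := by rw [pow_succ]; ring
          omega
    · rcases hn with hn | hn
      · rcases Nat.eq_zero_or_pos j with h0 | h0
        · exfalso
          subst h0
          norm_num at hk
          rw [hk] at hp
          exact Nat.not_prime_one hp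
        · exfalso
          obtain ⟨i, rfl⟩ : ∃ i, j = i + 1 := ⟨j - 1, by omega⟩
          have : 2 ^ (i + 1) = 2 * 2 ^ i := by rw [pow_succ]; ring
          omega
      · exact ⟨j, by omega⟩

/-- the abstract core -/
theorem nc_core {P : Type*} [Group P] [Finite P] (q : ℕ) (hq : Odd q)
    (hq9 : q = 9 ∨ (q.Prime ∧ ∃ k : ℕ, q = 2 ^ k + 1 ∨ q = 2 ^ k - 1))
    (hcent : ∀ x : P, x ≠ 1 → ∃ A : Subgroup P, x ∈ A ∧
      A ≤ Subgroup.centralizer ({x} : Set P) ∧
      (∀ g ∈ Subgroup.centralizer ({x} : Set P), g ∉ A →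
        ∀ h ∈ Subgroup.centralizer ({x} : Set P), h ∉ A → g * h ∈ A) ∧
      (orderOf x ≠ 2 → A = Subgroup.centralizer ({x} : Set P)) ∧
      ((IsCyclic ↥A ∧ (2 * Nat.card ↥A = q - 1 ∨ 2 * Nat.card ↥A = q + 1)) ∨ Nat.card ↥A = q))
    (H : Subgroup P) (hH : ¬ IsCyclic ↥H) : Subgroup.centralizer (H : Set P) ≤ H := by
  classical
  intro c hc
  by_cases hc1 : c = 1
  · rw [hc1]; exact H.one_mem
  obtain ⟨A, hcA, hAC, hidx, hne2, hstr⟩ := hcent c hc1
  have hHC : H ≤ Subgroup.centralizer ({c} : Set P) := by
    intro h hh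
    rw [Subgroup.mem_centralizer_iff]
    intro y hy
    rw [Set.mem_singleton_iff] at hy; subst hy
    exact (Subgroup.mem_centralizer_iff.1 hc h hh).symm
  have hordA : orderOf c ∣ Nat.card ↥A := Subgroup.orderOf_dvd_natCard A hcA
  rcases hstr with ⟨hcyc, hcard⟩ | hcard
  · by_cases hord : orderOf c = 2
    · -- `A` is a cyclic 2-group
      have h2A : 2 ∣ Nat.card ↥A := by rw [← hord]; exact hordA
      obtain ⟨m, hm⟩ := pow_two_of_even q (Nat.card ↥A) hq hq9 hcard h2A
      -- `H ⊓ A` is not trivial
      have hHA : ∃ z, z ∈ H ∧ z ∈ A ∧ z ≠ 1 := by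
        by_contra hno
        push Not at hno
        apply hH
        have hprod : ∀ g ∈ H, g ≠ 1 → ∀ h ∈ H, h ≠ 1 → g * h = 1 := by
          intro g hg hg1 h hh hh1
          have hgA : g ∉ A := fun hgA => hg1 (hno g hg hgA)
          have hhA : h ∉ A := fun hhA => hh1 (hno h hh hhA)
          have := hidx g (hHC hg) hgA h (hHC hh) hhA
          exact hno (g * h) (H.mul_mem hg hh) this
        by_cases hbot : ∀ g ∈ H, g = 1
        · haveI : Subsingleton ↥H := ⟨fun a b => Subtype.ext ((hbot a a.2).trans (hbot b b.2).symm)⟩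
          exact isCyclic_of_subsingleton
        · push Not at hbot
          obtain ⟨g, hg, hg1⟩ := hbot
          refine ⟨⟨⟨g, hg⟩, ?_⟩⟩
          intro h
          by_cases hh1 : (h : P) = 1
          · refine ⟨0, ?_⟩
            apply Subtype.ext
            simp [hh1]
          · refine ⟨-1, ?_⟩
            apply Subtype.ext
            have := hprod g hg hg1 h h.2 hh1
            simp only [zpow_neg, zpow_one, Subgroup.coe_inv]
            exact inv_eq_of_mul_eq_one_right this
      obtain ⟨z, hzH, hzA, hz1⟩ := hHA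
      have hzord : orderOf z ∣ 2 ^ m := by rw [← hm]; exact Subgroup.orderOf_dvd_natCard A hzA
      obtain ⟨j, hjm, hj⟩ := (Nat.dvd_prime_pow Nat.prime_two).1 hzord
      have hj1 : 1 ≤ j := by
        rcases Nat.eq_zero_or_pos j with h0 | h0
        · exfalso; apply hz1
          rw [h0, pow_zero] at hj
          exact orderOf_eq_one_iff.1 hj
        · exact h0
      obtain ⟨i, rfl⟩ : ∃ i, j = i + 1 := ⟨j - 1, by omega⟩
      set y := z ^ (2 ^ i) with hy
      have hyord : orderOf y = 2 := by
        apply orderOf_eq_prime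
        · rw [hy, ← pow_mul, ← pow_succ, ← hj]; exact pow_orderOf_eq_one z
        · intro h1
          have hdvd : orderOf z ∣ 2 ^ i := orderOf_dvd_of_pow_eq_one h1
          rw [hj] at hdvd
          have := Nat.le_of_dvd (by positivity) hdvd
          have h2 : 2 ^ (i + 1) = 2 * 2 ^ i := by rw [pow_succ]; ring
          have h3 : 0 < 2 ^ i := by positivity
          omega
      have hyH : y ∈ H := H.pow_mem hzH _
      have hyA : y ∈ A := A.pow_mem hzA _
      have := eq_of_order_two_cyc hcyc hcA hyA hord hyord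
      rw [← this]; exact hyH
    · exfalso
      apply hH
      have hA := hne2 hord
      exact isCyclic_of_le_cyc (hHC.trans hA.ge) hcyc
  · have hord : orderOf c ≠ 2 := by
      intro h2
      rw [h2, hcard] at hordA
      obtain ⟨r, hr⟩ := hq
      omega
    have hA := hne2 hord
    have hHA : H ≤ A := hHC.trans hA.ge
    rcases hq9 with h9 | ⟨hp, _⟩
    · have hdvd : Nat.card ↥H ∣ 9 := by
        rw [← h9, ← hcard]; exact Subgroup.card_dvd_of_le hHA
      have hle : Nat.card ↥H ≤ 9 := Nat.le_of_dvd (by norm_num) hdvd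
      have hcases : Nat.card ↥H = 1 ∨ Nat.card ↥H = 3 ∨ Nat.card ↥H = 9 := by
        interval_cases h : Nat.card ↥H <;> simp_all <;> omega
      rcases hcases with h1 | h3 | h9'
      · exfalso; apply hH
        haveI : Subsingleton ↥H := (Nat.card_eq_one_iff_unique.1 h1).1
        exact isCyclic_of_subsingleton
      · exfalso; apply hH
        haveI : Fact (Nat.Prime 3) := ⟨by norm_num⟩
        exact isCyclic_of_prime_card h3
      · have : H = A := Subgroup.eq_of_le_of_card_ge hHA (by rw [hcard, h9, h9'])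
        rw [this]; exact hcA
    · exfalso; apply hH
      haveI : Fact (Nat.Prime q) := ⟨hp⟩
      have hcycA : IsCyclic ↥A := isCyclic_of_prime_card hcard
      exact isCyclic_of_le_cyc hHA hcycA

theorem main : Cfsg.Agent.Lib.Helper89.NCStmt.NCOdd := by
  intro F _ _ hodd hq hcent
  classical
  exact nc_core (Fintype.card F) hodd hq hcent

end Cfsg.Agent.Lib.Helper2.NCNCODD
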