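import Mathlib
import Cfsg.Agent.Lib.Helper11.QuadStable
import Cfsg.Agent.Lib.Helper2.InvLift

set_option autoImplicit false

namespace Cfsg.Agent.Lib.Helper2.QuadEven

open Cfsg.Agent.Lib.Helper11.Dickson Cfsg.Agent.Lib.Helper11.QuadPair
open Cfsg.Agent.Lib.Helper11.QuadBridge Cfsg.Agent.Lib.Helper11.QuadDich
open Cfsg.Agent.Lib.Helper11.QuadStable
open Cfsg.Agent.Lib.Helper2.InvLift
open scoped commutatorElement

/-- An element of `SL₂(F)` (char `≠ 2`) with square one is central. -/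
theorem sl2_involution_comm {F : Type*} [Field F] (h2 : (2 : F) ≠ 0)
    (ζ : Matrix.SpecialLinearGroup (Fin 2) F) (hζ : ζ * ζ = 1)
    (M : Matrix.SpecialLinearGroup (Fin 2) F) : ζ * M = M * ζ := by
  have hinv : ζ⁻¹ = ζ := inv_eq_of_mul_eq_one_left hζ
  have hadj : (ζ : Matrix (Fin 2) (Fin 2) F) = Matrix.adjugate (ζ : Matrix (Fin 2) (Fin 2) F) := by
    conv_lhs => rw [← hinv]
    exact Matrix.SpecialLinearGroup.coe_inv ζ
  rw [Matrix.adjugate_fin_two] at hadj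
  have e00 : (ζ : Matrix (Fin 2) (Fin 2) F) 0 0 = (ζ : Matrix (Fin 2) (Fin 2) F) 1 1 := by
    have := congrFun (congrFun hadj 0) 0
    simpa using this
  have e01 : (ζ : Matrix (Fin 2) (Fin 2) F) 0 1 = 0 := by
    have h := congrFun (congrFun hadj 0) 1
    have h' : (ζ : Matrix (Fin 2) (Fin 2) F) 0 1 = -(ζ : Matrix (Fin 2) (Fin 2) F) 0 1 := by
      simpa using h
    have h3 : (2 : F) * (ζ : Matrix (Fin 2) (Fin 2) F) 0 1 = 0 := by linear_combination h'
    rcases mul_eq_zero.mp h3 with h4 | h4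
    · exact absurd h4 h2
    · exact h4
  have e10 : (ζ : Matrix (Fin 2) (Fin 2) F) 1 0 = 0 := by
    have h := congrFun (congrFun hadj 1) 0
    have h' : (ζ : Matrix (Fin 2) (Fin 2) F) 1 0 = -(ζ : Matrix (Fin 2) (Fin 2) F) 1 0 := by
      simpa using h
    have h3 : (2 : F) * (ζ : Matrix (Fin 2) (Fin 2) F) 1 0 = 0 := by linear_combination h'
    rcases mul_eq_zero.mp h3 with h4 | h4
    · exact absurd h4 h2
    · exact h4
  apply Subtype.ext
  rw [Matrix.SpecialLinearGroup.coe_mul, Matrix.SpecialLinearGroup.coe_mul]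
  ext i j
  rw [Matrix.mul_apply, Matrix.mul_apply, Fin.sum_univ_two, Fin.sum_univ_two]
  fin_cases i <;> fin_cases j <;> simp [e00, e01, e10] <;> ring

/-- Powers of a quadratic automorphism. -/
theorem quad_pow {P : Type*} [Group P] (α : MulAut P) (h : ∀ u : P, α (α u / u) = α u / u)
    (n : ℕ) (u : P) : (α ^ n) u = (α u / u) ^ n * u := by
  induction n with
  | zero => simp
  | succ n ih =>
    have h1 : (α ^ (n + 1)) u = α ((α ^ n) u) := by rw [pow_succ']; rfl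
    rw [h1, ih, map_mul, map_pow, h, pow_succ, mul_assoc, div_mul_cancel]

theorem quad_pow_card {P : Type*} [Group P] [Finite P] (α : MulAut P)
    (h : ∀ u : P, α (α u / u) = α u / u) : α ^ Nat.card P = 1 := by
  ext u
  rw [quad_pow α h, pow_card_eq_one', one_mul]
  rfl

/-- A Frattini argument in element form. -/
theorem frattini_elt {Γ : Type*} [Group Γ] [Finite Γ] (q : ℕ) [Fact q.Prime] (K : Subgroup Γ)
    (x : Γ) (hx : x ∈ K) (j : ℕ) (hxq : x ^ q ^ j = 1) (z : Γ)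
    (hz : z ∈ Subgroup.normalizer (K : Set Γ)) :
    ∃ (T : Subgroup Γ) (k : Γ), IsPGroup q T ∧ T ≤ K ∧ x ∈ T ∧ k ∈ K ∧
      k⁻¹ * z ∈ Subgroup.normalizer (T : Set Γ) := by
  classical
  let Nn : Subgroup Γ := Subgroup.normalizer (K : Set Γ)
  let N : Subgroup Nn := K.subgroupOf Nn
  haveI hNn : N.Normal := Subgroup.normal_in_normalizer
  let xt : Nn := ⟨x, Subgroup.le_normalizer hx⟩
  have hxtN : xt ∈ N := Subgroup.mem_subgroupOf.mpr hx
  let xh : N := ⟨xt, hxtN⟩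
  have hxh : xh ^ q ^ j = 1 := by
    apply Subtype.ext; apply Subtype.ext
    show x ^ q ^ j = 1
    exact hxq
  obtain ⟨S, hS⟩ := (isPGroup_zpowers hxh).exists_le_sylow
  have hfrat := Sylow.normalizer_sup_eq_top S
  let zt : Nn := ⟨z, hz⟩
  have hzt : zt ∈ Subgroup.normalizer (((S : Subgroup N).map N.subtype : Subgroup Nn) : Set Nn) ⊔ N := by
    rw [hfrat]; exact Subgroup.mem_top _
  rw [sup_comm] at hzt
  have hzt' : zt ∈ ((N ⊔ Subgroup.normalizer (((S : Subgroup N).map N.subtype : Subgroup Nn) : Set Nn)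
      : Subgroup Nn) : Set Nn) := hzt
  rw [Subgroup.normal_mul] at hzt'
  obtain ⟨k, hk, n, hn, hkn⟩ := hzt'
  refine ⟨((S : Subgroup N).map N.subtype).map Nn.subtype, (k : Γ), (S.isPGroup'.map _).map _, ?_, ?_,
    Subgroup.mem_subgroupOf.mp hk, ?_⟩
  · rintro _ ⟨a, ⟨b, -, rfl⟩, rfl⟩
    exact Subgroup.mem_subgroupOf.mp b.2
  · exact ⟨xt, ⟨xh, hS (Subgroup.mem_zpowers xh), rfl⟩, rfl⟩
  · have h1 : (k : Γ)⁻¹ * z = (n : Γ) := by
      have h2 : (k : Γ) * (n : Γ) = z := congrArg Subtype.val hkn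
      rw [← h2]; group
    rw [h1]
    apply mem_normalizer_of_conj_mem
    rintro _ ⟨a, ha, rfl⟩
    exact ⟨n * a * n⁻¹, (Subgroup.mem_normalizer_iff.mp hn a).mp ha, rfl⟩

/-- **(D')**: a quadratic element outside `O_q` has a conjugate lying in a `q`-subgroup whose
normalizer has even order. -/
theorem dprime {X : Type*} [Group X] [Finite X] {P : Type*} [Group P] [Finite P] {q : ℕ}
    [hq : Fact q.Prime] (hq2 : q ≠ 2) (hP : IsPGroup q P) (θ : X →* MulAut P)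
    (hθ : Function.Injective θ) (c : X) (hc : ∀ u : P, θ c (θ c u / u) = θ c u / u)
    (hnc : c ∉ Cfsg.pCore q X) :
    ∃ (g : X) (T : Subgroup X), IsPGroup q T ∧ g * c * g⁻¹ ∈ T ∧
      2 ∣ Nat.card (Subgroup.normalizer (T : Set X)) := by
  classical
  obtain ⟨g₁, g₂, hnp⟩ := exists_pair_of_not_mem_pCore' (p := q) c hnc
  set x₁ := g₁ * c * g₁⁻¹ with hx₁
  set x₂ := g₂ * c * g₂⁻¹ with hx₂
  have hcomm : ∀ x y : P ⧸ frattini P, x * y = y * x := by
    intro x y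
    induction x using QuotientGroup.induction_on with | H x => ?_
    induction y using QuotientGroup.induction_on with | H y => ?_
    rw [← QuotientGroup.mk_mul, ← QuotientGroup.mk_mul, QuotientGroup.eq]
    have h2 : ⁅y⁻¹, x⁻¹⁆ ∈ frattini P :=
      Cfsg.Agent.Lib.Helper70.FrattiniQuot.commutator_le_frattini hP
        (Subgroup.commutator_mem_commutator (Subgroup.mem_top _) (Subgroup.mem_top _))
    have h3 : (x * y)⁻¹ * (y * x) = ⁅y⁻¹, x⁻¹⁆ := by
      rw [commutatorElement_def]; group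
    rw [h3]
    exact h2
  have hexp : ∀ w : P ⧸ frattini P, w ^ q = 1 := by
    intro w
    induction w using QuotientGroup.induction_on with | H x => ?_
    rw [← QuotientGroup.mk_pow]
    exact (QuotientGroup.eq_one_iff _).mpr
      (Cfsg.Agent.Lib.Helper70.FrattiniQuot.pow_mem_frattini hP x)
  let i1 : CommGroup (P ⧸ frattini P) :=
    { (inferInstance : Group (P ⧸ frattini P)) with mul_comm := hcomm }
  let i2 : Module (ZMod q) (Additive (P ⧸ frattini P)) :=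
    AddCommGroup.zmodModule (n := q) (fun x => by
      show Additive.ofMul ((Additive.toMul x) ^ q) = 0
      rw [hexp]
      rfl)
  let θ' : X →* MulAut (P ⧸ frattini P) := (autQuot P).comp θ
  have hq' : ∀ u : X, (∀ v : P, θ u (θ u v / v) = θ u v / v) →
      ∀ w : P ⧸ frattini P, θ' u (θ' u w / w) = θ' u w / w := by
    intro u hu w
    induction w using QuotientGroup.induction_on with | H x => ?_
    show autQuot P (θ u) (autQuot P (θ u) (QuotientGroup.mk x) / QuotientGroup.mk x)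
      = autQuot P (θ u) (QuotientGroup.mk x) / QuotientGroup.mk x
    rw [autQuot_mk, ← QuotientGroup.mk_div, autQuot_mk, hu]
  have hquadconj : ∀ u : X, ∀ v : P,
      θ (u * c * u⁻¹) (θ (u * c * u⁻¹) v / v) = θ (u * c * u⁻¹) v / v := by
    intro u v
    have : θ (u * c * u⁻¹) = θ u * θ c * (θ u)⁻¹ := by rw [map_mul, map_mul, map_inv]
    rw [this]
    exact quad_conj_aut (θ u) (θ c) hc v
  let N : Subgroup (MulAut (P ⧸ frattini P)) := Subgroup.closure {θ' x₁, θ' x₂}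
  have hy₁ : θ' x₁ ∈ N := Subgroup.subset_closure (Set.mem_insert _ _)
  have hy₂ : θ' x₂ ∈ N :=
    Subgroup.subset_closure (Set.mem_insert_of_mem _ (Set.mem_singleton _))
  let H₀ : Subgroup X := Subgroup.closure {x₁, x₂}
  have hMN : ∀ m : ↥H₀, (θ'.comp H₀.subtype) m ∈ N := by
    intro m
    have h1 : H₀ ≤ N.comap θ' := by
      rw [Subgroup.closure_le]
      rintro x (rfl | rfl)
      · exact hy₁
      · exact hy₂
    exact h1 m.2
  have hnpN : ¬ IsPGroup q ↥N := by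
    intro hpg
    apply hnp
    rintro ⟨h, hh⟩
    obtain ⟨k, hk⟩ := hpg ⟨_, hMN ⟨h, hh⟩⟩
    have hk' : θ' h ^ q ^ k = 1 := congrArg Subtype.val hk
    have hmem : θ h ^ q ^ k ∈ Cfsg.Agent.S4189.frattiniKer P := by
      apply ker_autQuot_le
      rw [MonoidHom.mem_ker, map_pow]
      exact hk'
    have hfk : IsPGroup q (Cfsg.Agent.S4189.frattiniKer P) :=
      Cfsg.Agent.Lib.Helper70.HallHigman.isPGroup_frattiniKer hP
    obtain ⟨l, hl⟩ := hfk ⟨_, hmem⟩
    have hl' : (θ h ^ q ^ k) ^ q ^ l = 1 := congrArg Subtype.val hl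
    refine ⟨k + l, Subtype.ext ?_⟩
    show h ^ q ^ (k + l) = 1
    apply hθ
    rw [map_pow, map_one, pow_add, pow_mul, hl']
  have hgen : Subgroup.closure {(⟨_, hy₁⟩ : ↥N), ⟨_, hy₂⟩} = (⊤ : Subgroup ↥N) := by
    apply Subgroup.map_injective N.subtype_injective
    rw [MonoidHom.map_closure, Set.image_pair, ← MonoidHom.range_eq_map, Subgroup.range_subtype]
    rfl
  obtain ⟨F, iF, fF, cF, lam, φ, hlam, hφa, hφb⟩ :=
    @exists_hom_aux q _ ↥N _ (P ⧸ frattini P) i1 _ i2 N.subtype N.subtype_injective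
      ⟨_, hy₁⟩ ⟨_, hy₂⟩ hgen (hq' x₁ (hquadconj g₁)) (hq' x₂ (hquadconj g₂)) hnpN
  let Φ : ↥H₀ →* Matrix.SpecialLinearGroup (Fin 2) F :=
    φ.comp (MonoidHom.codRestrict (θ'.comp H₀.subtype) N hMN)
  have hx₁H : x₁ ∈ H₀ := Subgroup.subset_closure (Set.mem_insert _ _)
  have hx₂H : x₂ ∈ H₀ :=
    Subgroup.subset_closure (Set.mem_insert_of_mem _ (Set.mem_singleton _))
  have hΦx₁ : Φ ⟨x₁, hx₁H⟩ = tmat 1 := hφa
  have hΦx₂ : Φ ⟨x₂, hx₂H⟩ = smat lam := hφb
  obtain ⟨ψ, hψ, hψr⟩ := exists_embedding (K := F) (p := q) hq2 lam hlam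
  have hle : L lam ≤ Φ.range := by
    unfold L
    rw [Subgroup.closure_le]
    rintro x (rfl | rfl)
    · exact ⟨⟨x₁, hx₁H⟩, hΦx₁⟩
    · exact ⟨⟨x₂, hx₂H⟩, hΦx₂⟩
  -- the involution
  have h2F : (2 : F) ≠ 0 := by
    intro h
    have h1 : ((2 : ℕ) : F) = 0 := by exact_mod_cast h
    have h3 := (CharP.cast_eq_zero_iff F q 2).mp h1
    exact hq2 ((Nat.prime_dvd_prime_iff_eq hq.out Nat.prime_two).mp h3)
  let ζ₀ : Matrix.SpecialLinearGroup (Fin 2) (ZMod q) :=
    ⟨!![-1, 0; 0, -1], by simp [Matrix.det_fin_two]⟩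
  have hζ₀2 : ζ₀ * ζ₀ = 1 := by
    apply Subtype.ext
    rw [Matrix.SpecialLinearGroup.coe_mul]
    show !![(-1 : ZMod q), 0; 0, -1] * !![(-1 : ZMod q), 0; 0, -1] = 1
    rw [Matrix.mul_fin_two]
    ext i j; fin_cases i <;> fin_cases j <;> simp
  have hζ₀1 : ζ₀ ≠ 1 := by
    intro h
    have h1 : (ζ₀ : Matrix (Fin 2) (Fin 2) (ZMod q)) 0 0 = (1 : Matrix (Fin 2) (Fin 2) (ZMod q)) 0 0 := by
      rw [h]; rfl
    have h2 : (-1 : ZMod q) = 1 := by simpa [ζ₀] using h1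
    have h3 : ((2 : ℕ) : ZMod q) = 0 := by
      have : (2 : ZMod q) = 0 := by linear_combination -h2
      exact_mod_cast this
    have h4 := (ZMod.natCast_eq_zero_iff 2 q).mp h3
    exact hq2 ((Nat.prime_dvd_prime_iff_eq hq.out Nat.prime_two).mp h4)
  set ζ := ψ ζ₀ with hζ
  have hζ2 : ζ * ζ = 1 := by rw [hζ, ← map_mul, hζ₀2, map_one]
  have hζ1 : ζ ≠ 1 := by
    intro h
    apply hζ₀1
    apply hψ
    rw [← hζ, h, map_one]
  obtain ⟨z₀, hz₀⟩ := hle (hψr ⟨ζ₀, rfl⟩)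
  have hcentral : ∀ M, ζ * M = M * ζ := sl2_involution_comm h2F ζ hζ2
  let K₁ : Subgroup ↥H₀ := (Subgroup.zpowers (tmat (1 : F))).comap Φ
  have hx₁K : (⟨x₁, hx₁H⟩ : ↥H₀) ∈ K₁ := by
    show Φ ⟨x₁, hx₁H⟩ ∈ Subgroup.zpowers (tmat (1 : F))
    rw [hΦx₁]
    exact Subgroup.mem_zpowers _
  have hz₀N : z₀ ∈ Subgroup.normalizer (K₁ : Set ↥H₀) := by
    apply mem_normalizer_of_conj_mem
    intro a ha
    show Φ (z₀ * a * z₀⁻¹) ∈ Subgroup.zpowers (tmat (1 : F))
    rw [map_mul, map_mul, map_inv, hz₀, hcentral, mul_assoc, mul_inv_cancel, mul_one]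
    exact ha
  obtain ⟨n, hn⟩ := IsPGroup.iff_card.mp hP
  have hx₁q : (⟨x₁, hx₁H⟩ : ↥H₀) ^ q ^ n = 1 := by
    apply Subtype.ext
    show x₁ ^ q ^ n = 1
    apply hθ
    rw [map_pow, map_one, ← hn]
    exact quad_pow_card (θ x₁) (hquadconj g₁)
  obtain ⟨T, k, hTq, hTK, hxT, hkK, hnorm⟩ := frattini_elt q K₁ ⟨x₁, hx₁H⟩ hx₁K n hx₁q z₀ hz₀N
  refine ⟨g₁, T.map H₀.subtype, hTq.map _, ⟨_, hxT, rfl⟩, ?_⟩
  have hz₁N : ((k⁻¹ * z₀ : ↥H₀) : X) ∈
      Subgroup.normalizer ((T.map H₀.subtype : Subgroup X) : Set X) := by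
    apply mem_normalizer_of_conj_mem
    rintro _ ⟨a, ha, rfl⟩
    exact ⟨(k⁻¹ * z₀) * a * (k⁻¹ * z₀)⁻¹, (Subgroup.mem_normalizer_iff.mp hnorm a).mp ha, rfl⟩
  have hdvd : orderOf ((k⁻¹ * z₀ : ↥H₀) : X) ∣
      Nat.card (Subgroup.normalizer ((T.map H₀.subtype : Subgroup X) : Set X)) :=
    Subgroup.orderOf_dvd_natCard _ hz₁N
  refine Dvd.dvd.trans ?_ hdvd
  by_contra hodd
  have hodd' : Odd (orderOf ((k⁻¹ * z₀ : ↥H₀) : X)) :=
    Nat.not_even_iff_odd.mp (fun he => hodd (even_iff_two_dvd.mp he))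
  obtain ⟨i, hi⟩ := Subgroup.mem_zpowers_iff.mp (show Φ k ∈ Subgroup.zpowers (tmat (1 : F)) from hkK)
  have h1 : Φ (k⁻¹ * z₀) = (Φ k)⁻¹ * ζ := by rw [map_mul, map_inv, hz₀]
  set m := orderOf ((k⁻¹ * z₀ : ↥H₀) : X) with hm
  have h2 : Φ (k⁻¹ * z₀) ^ m = 1 := by
    rw [← map_pow]
    have : (k⁻¹ * z₀) ^ m = 1 := by
      apply Subtype.ext
      rw [Subgroup.coe_pow]
      exact pow_orderOf_eq_one _
    rw [this, map_one]
  have hcomm2 : Commute ((Φ k)⁻¹) ζ := (hcentral _).symm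
  have h3 : ((Φ k)⁻¹ * ζ) ^ m = ((Φ k)⁻¹) ^ m * ζ ^ m := hcomm2.mul_pow m
  have h4 : ζ ^ m = ζ := by
    obtain ⟨i', hi'⟩ := hodd'
    rw [hi', pow_succ, pow_mul, pow_two, hζ2, one_pow, one_mul]
  have h5 : ζ = (Φ k) ^ m := by
    rw [h1, h3, h4, inv_pow] at h2
    exact (inv_mul_eq_one.mp h2).symm
  have htq : (tmat (1 : F)) ^ q = 1 := by
    rw [tmat_pow]
    have : ((q : ℕ) : F) = 0 := CharP.cast_eq_zero F q
    rw [this, zero_mul, tmat_zero]
  have hzq : ∀ M ∈ Subgroup.zpowers (tmat (1 : F)), M ^ q = 1 := by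
    intro M hM
    obtain ⟨i, rfl⟩ := Subgroup.mem_zpowers_iff.mp hM
    rw [← zpow_natCast, ← zpow_mul, mul_comm, zpow_mul, zpow_natCast, htq, one_zpow]
  have h6 : ζ ^ q = 1 := by
    apply hzq
    rw [h5]
    exact Subgroup.pow_mem _ (show Φ k ∈ Subgroup.zpowers (tmat (1 : F)) from hkK) m
  have h7 : orderOf ζ ∣ 2 := orderOf_dvd_of_pow_eq_one (by rw [pow_two]; exact hζ2)
  have h8 : orderOf ζ ∣ q := orderOf_dvd_of_pow_eq_one h6
  have h9 : Nat.Coprime 2 q := by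
    rw [Nat.coprime_primes Nat.prime_two hq.out]
    exact fun h => hq2 h.symm
  have h10 : orderOf ζ = 1 := Nat.eq_one_of_dvd_coprimes h9 h7 h8
  exact hζ1 (orderOf_eq_one_iff.mp h10)

/-- **(LIN)**: if some quadratic element lies outside `O_q(X)` (faithful action on a `q`-group,
`q` odd), then `X` has a proper subgroup of even order and of index prime to `q`. -/
theorem lin {X : Type*} [Group X] [Finite X] {P : Type*} [Group P] [Finite P] {q : ℕ}
    [hq : Fact q.Prime] (hq2 : q ≠ 2) (hP : IsPGroup q P) (θ : X →* MulAut P)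
    (hθ : Function.Injective θ) (c : X) (hc : ∀ u : P, θ c (θ c u / u) = θ c u / u)
    (hnc : c ∉ Cfsg.pCore q X) :
    ∃ X₁ : Subgroup X, X₁ ≠ ⊤ ∧ 2 ∣ Nat.card X₁ ∧ ¬ q ∣ X₁.index := by
  classical
  let C : Set X := {c | ∀ u : P, θ c (θ c u / u) = θ c u / u}
  have hCconj : ∀ g x : X, x ∈ C → g * x * g⁻¹ ∈ C := by
    intro g x hx v
    have : θ (g * x * g⁻¹) = θ g * θ x * (θ g)⁻¹ := by rw [map_mul, map_mul, map_inv]
    rw [this]
    exact quad_conj_aut (θ g) (θ x) hx v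
  let gen : Subgroup X → Subgroup X := fun M => Subgroup.closure (C ∩ (M : Set X))
  have gen_le : ∀ M, gen M ≤ M := fun M => (Subgroup.closure_le M).mpr Set.inter_subset_right
  have gen_mono : ∀ M M' : Subgroup X, M ≤ M' → gen M ≤ gen M' := fun M M' h =>
    Subgroup.closure_mono (Set.inter_subset_inter_right _ h)
  have gen_gen : ∀ M, gen (gen M) = gen M := by
    intro M
    apply le_antisymm (gen_le _)
    apply Subgroup.closure_mono
    intro x hx
    exact ⟨hx.1, Subgroup.subset_closure hx⟩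
  have gen_norm : ∀ M : Subgroup X, ∀ n ∈ Subgroup.normalizer (M : Set X),
      n ∈ Subgroup.normalizer ((gen M : Subgroup X) : Set X) := by
    intro M n hn
    apply mem_normalizer_of_conj_mem
    intro a ha
    have h1 : gen M ≤ (gen M).comap (MulAut.conj n).toMonoidHom := by
      show Subgroup.closure (C ∩ (M : Set X)) ≤ _
      rw [Subgroup.closure_le]
      intro x hx
      show n * x * n⁻¹ ∈ gen M
      exact Subgroup.subset_closure
        ⟨hCconj n x hx.1, (Subgroup.mem_normalizer_iff.mp hn x).mp hx.2⟩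
    exact h1 ha
  let YY : Set (Subgroup X) := {Y | IsPGroup q Y ∧ gen Y = Y ∧ ¬ Y ≤ Cfsg.pCore q X ∧
    2 ∣ Nat.card (Subgroup.normalizer (Y : Set X))}
  have hYYne : YY.Nonempty := by
    obtain ⟨g, T, hTq, hgT, h2⟩ := dprime hq2 hP θ hθ c hc hnc
    refine ⟨gen T, hTq.to_le (gen_le T), gen_gen T, ?_, ?_⟩
    · intro hle
      have h1 : g * c * g⁻¹ ∈ gen T := Subgroup.subset_closure ⟨hCconj g c hc, hgT⟩
      have h3 := (pCore_normal q X).conj_mem _ (hle h1) g⁻¹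
      apply hnc
      have h4 : g⁻¹ * (g * c * g⁻¹) * g⁻¹⁻¹ = c := by group
      rw [h4] at h3
      exact h3
    · exact h2.trans (Subgroup.card_dvd_of_le (fun n hn => gen_norm T n hn))
  obtain ⟨Y₁, hY₁, hmax⟩ := Set.exists_max_image YY (fun Y => Nat.card Y) (Set.toFinite _) hYYne
  obtain ⟨hY₁q, hY₁gen, hY₁core, hY₁even⟩ := hY₁
  set X₁ := Subgroup.normalizer (Y₁ : Set X) with hX₁
  have hsub : Y₁.subgroupOf X₁ ≤ Cfsg.pCore q ↥X₁ :=
    le_pCore Subgroup.normal_in_normalizer hY₁q.comap_subtype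
  refine ⟨X₁, ?_, hY₁even, ?_⟩
  · intro htop
    apply hY₁core
    exact le_pCore (Subgroup.normalizer_eq_top_iff.mp htop) hY₁q
  · intro hdvd
    -- (a) quadratic elements of `X₁` lie in `O_q(X₁)`
    have hA : ∀ c₁ : X, c₁ ∈ C → ∀ hc₁ : c₁ ∈ X₁, (⟨c₁, hc₁⟩ : ↥X₁) ∈ Cfsg.pCore q ↥X₁ := by
      intro c₁ hc₁C hc₁X
      by_contra hnot
      obtain ⟨g, T, hTq, hgT, h2⟩ := dprime hq2 hP (θ.comp X₁.subtype)
        (hθ.comp X₁.subtype_injective) ⟨c₁, hc₁X⟩ hc₁C hnot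
      set T' := T.map X₁.subtype with hT'
      have hT'X : T' ≤ X₁ := by
        rintro _ ⟨a, -, rfl⟩
        exact a.2
      have hMq : IsPGroup q (T' ⊔ Y₁ : Subgroup X) :=
        IsPGroup.to_sup_of_normal_right' (hTq.map _) hY₁q hT'X
      have hY₁Y₂ : Y₁ ≤ gen (T' ⊔ Y₁) := by
        calc Y₁ = gen Y₁ := hY₁gen.symm
          _ ≤ gen (T' ⊔ Y₁) := gen_mono _ _ le_sup_right
      have hx₁ : ((g * ⟨c₁, hc₁X⟩ * g⁻¹ : ↥X₁) : X) ∈ gen (T' ⊔ Y₁) := by
        apply Subgroup.subset_closure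
        refine ⟨?_, (le_sup_left : T' ≤ _) ⟨_, hgT, rfl⟩⟩
        exact hCconj (g : X) c₁ hc₁C
      have hx₁not : ((g * ⟨c₁, hc₁X⟩ * g⁻¹ : ↥X₁) : X) ∉ Y₁ := by
        intro hmem
        apply hnot
        have h3 : g * ⟨c₁, hc₁X⟩ * g⁻¹ ∈ Cfsg.pCore q ↥X₁ :=
          hsub (Subgroup.mem_subgroupOf.mpr hmem)
        have h4 := (pCore_normal q ↥X₁).conj_mem _ h3 g⁻¹
        have h5 : g⁻¹ * (g * ⟨c₁, hc₁X⟩ * g⁻¹) * g⁻¹⁻¹ = (⟨c₁, hc₁X⟩ : ↥X₁) := by group
        rw [h5] at h4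
        exact h4
      have hlt : Nat.card Y₁ < Nat.card (gen (T' ⊔ Y₁)) := by
        by_contra hge
        push Not at hge
        have := Subgroup.eq_of_le_of_card_ge hY₁Y₂ hge
        exact hx₁not (this ▸ hx₁)
      have hY₂mem : gen (T' ⊔ Y₁) ∈ YY := by
        refine ⟨hMq.to_le (gen_le _), gen_gen _, fun h => hY₁core (hY₁Y₂.trans h), ?_⟩
        have hsubN : (Subgroup.normalizer (T : Set ↥X₁)).map X₁.subtype ≤
            Subgroup.normalizer ((gen (T' ⊔ Y₁) : Subgroup X) : Set X) := by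
          rintro _ ⟨n, hn, rfl⟩
          apply gen_norm
          apply mem_normalizer_of_conj_mem
          intro a ha
          have h1 : T' ⊔ Y₁ ≤ (T' ⊔ Y₁).comap (MulAut.conj (n : X)).toMonoidHom := by
            rw [sup_le_iff]
            constructor
            · rintro _ ⟨t, ht, rfl⟩
              show (n : X) * (X₁.subtype t) * (n : X)⁻¹ ∈ T' ⊔ Y₁
              exact (le_sup_left : T' ≤ T' ⊔ Y₁)
                ⟨n * t * n⁻¹, (Subgroup.mem_normalizer_iff.mp hn t).mp ht, rfl⟩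
            · intro y hy
              show (n : X) * y * (n : X)⁻¹ ∈ T' ⊔ Y₁
              exact (le_sup_right : Y₁ ≤ T' ⊔ Y₁) ((Subgroup.mem_normalizer_iff.mp n.2 y).mp hy)
          exact h1 ha
        have hcard : Nat.card ((Subgroup.normalizer (T : Set ↥X₁)).map X₁.subtype)
            = Nat.card (Subgroup.normalizer (T : Set ↥X₁)) :=
          Subgroup.card_map_of_injective X₁.subtype_injective
        rw [← hcard] at h2
        exact h2.trans (Subgroup.card_dvd_of_le hsubN)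
      exact absurd (hmax _ hY₂mem) (not_le.mpr hlt)
    -- (b), (c)
    obtain ⟨T₁⟩ : Nonempty (Sylow q ↥X₁) := inferInstance
    set T₁' := (T₁ : Subgroup ↥X₁).map X₁.subtype with hT₁'
    set O₁ := (Cfsg.pCore q ↥X₁).map X₁.subtype with hO₁
    haveI := pCore_normal q ↥X₁
    have hO₁T : O₁ ≤ T₁' :=
      Subgroup.map_mono (IsPGroup.le_sylow_of_normal (pCore_isPGroup q ↥X₁) T₁)
    have hgenT : gen T₁' = gen O₁ := by
      apply le_antisymm
      · apply Subgroup.closure_mono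
        rintro x ⟨hxC, ⟨t, ht, rfl⟩⟩
        exact ⟨hxC, ⟨t, hA _ hxC t.2, rfl⟩⟩
      · exact gen_mono _ _ hO₁T
    have hY₁O : Y₁ ≤ O₁ := by
      intro y hy
      have hyX : y ∈ X₁ := Subgroup.le_normalizer hy
      exact ⟨⟨y, hyX⟩, hsub (Subgroup.mem_subgroupOf.mpr hy), rfl⟩
    have hY₁le : Y₁ ≤ gen O₁ := by
      calc Y₁ = gen Y₁ := hY₁gen.symm
        _ ≤ gen O₁ := gen_mono _ _ hY₁O
    have hY₃ : gen O₁ ∈ YY := by
      refine ⟨?_, gen_gen _, fun h => hY₁core (hY₁le.trans h), ?_⟩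
      · exact ((pCore_isPGroup q ↥X₁).map _).to_le (gen_le _)
      · have h1 : X₁ ≤ Subgroup.normalizer ((gen O₁ : Subgroup X) : Set X) := by
          intro n hn
          apply gen_norm
          apply mem_normalizer_of_conj_mem
          rintro _ ⟨a, ha, rfl⟩
          exact ⟨⟨n, hn⟩ * a * ⟨n, hn⟩⁻¹, (pCore_normal q ↥X₁).conj_mem _ ha _, rfl⟩
        exact hY₁even.trans (Subgroup.card_dvd_of_le h1)
    have hY₃eq : Y₁ = gen O₁ := Subgroup.eq_of_le_of_card_ge hY₁le (hmax _ hY₃)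
    have hNT : Subgroup.normalizer (T₁' : Set X) ≤ X₁ := by
      intro n hn
      have h1 := gen_norm T₁' n hn
      rw [hgenT, ← hY₃eq] at h1
      exact h1
    have hcardT : Nat.card T₁' = q ^ (Nat.card X₁).factorization q := by
      rw [hT₁', Subgroup.card_map_of_injective X₁.subtype_injective]
      exact T₁.card_eq_multiplicity
    have hdvdX : q ^ ((Nat.card X₁).factorization q + 1) ∣ Nat.card X := by
      rw [← Subgroup.card_mul_index X₁, pow_succ]
      exact Nat.mul_dvd_mul (Nat.ordProj_dvd _ _) hdvd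
    have h1 := Sylow.prime_pow_dvd_card_normalizer hdvdX hcardT
    have h2 : q ^ ((Nat.card X₁).factorization q + 1) ∣ Nat.card X₁ :=
      h1.trans (Subgroup.card_dvd_of_le hNT)
    exact Nat.pow_succ_factorization_not_dvd (Nat.card_pos.ne') hq.out h2

end Cfsg.Agent.Lib.Helper2.QuadEven
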