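import Mathlib
import Cfsg.Agent.Lib.Helper45.S9Stmt

set_option autoImplicit false

namespace Cfsg.Agent.Lib.Helper2.S9ALG

open Cfsg.Agent.Lib.Helper45.S9Stmt

universe u

theorem main : ALG.{u} := by
  intro F _ ι _ _ g m
  have h1 := LinearMap.finrank_genEigenspace_le (Matrix.toLin' g) (1 : F) m
  rw [Matrix.charpoly_toLin'] at h1
  rw [Module.End.genEigenspace_nat] at h1
  have h2 : (Matrix.toLin' g - (1:F) • (1 : Module.End F (ι → F))) ^ m
      = Matrix.toLin' ((g - 1) ^ m) := by
    rw [one_smul, Matrix.toLin'_pow, map_sub, Matrix.toLin'_one]; rfl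
  rw [h2] at h1
  have h3 := LinearMap.finrank_range_add_finrank_ker (Matrix.toLin' ((g - 1) ^ m))
  rw [Module.finrank_fintype_fun_eq_card] at h3
  have h4 : ((g - 1) ^ m).rank
      = Module.finrank F (LinearMap.range (Matrix.toLin' ((g - 1) ^ m))) := by
    rw [Matrix.rank, Matrix.toLin'_apply']
  omega

end Cfsg.Agent.Lib.Helper2.S9ALG
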