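import Mathlib
import Cfsg.Agent.Lib.Helper45.S9Stmt

set_option autoImplicit false

namespace Cfsg.Agent.Lib.Helper2.S9CHAIN

open Cfsg.Agent.Lib.Helper45.S9Stmt

universe u

theorem main : CHAIN.{u} := by
  intro F _ ι _ _ T m v hm h0 h1
  have hrn : ∀ k : ℕ, (T ^ k).rank +
      Module.finrank F (LinearMap.ker (Matrix.toLin' (T ^ k))) = Fintype.card ι := by
    intro k
    have h3 := LinearMap.finrank_range_add_finrank_ker (Matrix.toLin' (T ^ k))
    rw [Module.finrank_fintype_fun_eq_card, Matrix.toLin'_apply'] at h3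
    rw [Matrix.rank, Matrix.toLin'_apply']
    exact h3
  have hmem : ∀ (k : ℕ) (x : ι → F),
      x ∈ LinearMap.ker (Matrix.toLin' (T ^ k)) ↔ (T ^ k).mulVec x = 0 := by
    intro k x; rw [LinearMap.mem_ker, Matrix.toLin'_apply]
  have hstep : ∀ k : ℕ, k + 2 ≤ m →
      Module.finrank F (LinearMap.ker (Matrix.toLin' (T ^ (k + 1)))) + 1
        ≤ Module.finrank F (LinearMap.ker (Matrix.toLin' (T ^ (k + 2)))) := by
    intro k hk
    apply Submodule.finrank_lt_finrank_of_lt
    rw [SetLike.lt_iff_le_and_exists]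
    refine ⟨?_, (T ^ (m - k - 2)).mulVec v, ?_, ?_⟩
    · intro x hx
      rw [hmem] at hx ⊢
      rw [pow_succ', ← Matrix.mulVec_mulVec, hx, Matrix.mulVec_zero]
    · rw [hmem, Matrix.mulVec_mulVec, ← pow_add, show k + 2 + (m - k - 2) = m by omega, h0]
    · rw [hmem, Matrix.mulVec_mulVec, ← pow_add, show k + 1 + (m - k - 2) = m - 1 by omega]
      exact h1
  have hind : ∀ k : ℕ, k + 1 ≤ m →
      Module.finrank F (LinearMap.ker (Matrix.toLin' (T ^ 1))) + k
        ≤ Module.finrank F (LinearMap.ker (Matrix.toLin' (T ^ (k + 1)))) := by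
    intro k
    induction k with
    | zero => intro _; simp
    | succ k ih =>
      intro hk
      have i1 := ih (by omega)
      have i2 := hstep k (by omega)
      rw [show k + 1 + 1 = k + 2 by omega]
      omega
  have hfin := hind (m - 1) (by omega)
  rw [show m - 1 + 1 = m by omega] at hfin
  have hpos : 0 < Module.finrank F (LinearMap.ker (Matrix.toLin' (T ^ 1))) := by
    rw [Module.finrank_pos_iff_exists_ne_zero]
    refine ⟨⟨(T ^ (m - 1)).mulVec v, ?_⟩, ?_⟩
    · rw [hmem, Matrix.mulVec_mulVec, ← pow_add, show 1 + (m - 1) = m by omega, h0]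
    · intro h; exact h1 (congrArg Subtype.val h)
  have r1 := hrn 1
  have rm := hrn m
  rw [pow_one] at r1 hfin hpos
  constructor <;> omega

end Cfsg.Agent.Lib.Helper2.S9CHAIN
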