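import Mathlib
import Cfsg.Agent.Lib.Helper45.S9Stmt

set_option autoImplicit false

namespace Cfsg.Agent.Lib.Helper2.S9NORM

open Cfsg.Agent.Lib.Helper45.S9Stmt

universe u

theorem poly_id (F : Type u) [Field F] [CharP F 2] (t n' : ℕ) :
    (∑ j ∈ Finset.range (2 ^ t * n'), (Polynomial.X : Polynomial F) ^ j)
      = (Polynomial.X - 1) ^ (2 ^ t - 1) *
        (∑ j ∈ Finset.range n', (Polynomial.X : Polynomial F) ^ j) ^ (2 ^ t) := by
  haveI : Fact (Nat.Prime 2) := ⟨Nat.prime_two⟩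
  haveI : CharP (Polynomial F) 2 := inferInstance
  have hX : (Polynomial.X - 1 : Polynomial F) ≠ 0 := by
    have := Polynomial.X_sub_C_ne_zero (1 : F)
    simpa using this
  apply mul_left_cancel₀ hX
  rw [mul_geom_sum, ← mul_assoc, ← pow_succ', Nat.sub_add_cancel Nat.one_le_two_pow, ← mul_pow,
    mul_geom_sum, sub_pow_char_pow, one_pow, ← pow_mul, mul_comm]

theorem main : NORM.{u} := by
  intro F _ _ ι _ _ g t n' w hg hw
  have hid := congrArg (Polynomial.aeval g) (poly_id F t n')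
  simp only [map_sum, map_pow, map_mul, map_sub, map_one, Polynomial.aeval_X] at hid
  refine ⟨((∑ j ∈ Finset.range n', g ^ j) ^ (2 ^ t)).mulVec w, ?_, ?_⟩
  · rw [Matrix.mulVec_mulVec]
    have e1 : (g - 1) ^ (2 ^ t) * (∑ j ∈ Finset.range n', g ^ j) ^ (2 ^ t)
        = (g - 1) * ∑ j ∈ Finset.range (2 ^ t * n'), g ^ j := by
      rw [hid, ← mul_assoc, ← pow_succ', Nat.sub_add_cancel Nat.one_le_two_pow]
    rw [e1, mul_geom_sum, hg, sub_self, Matrix.zero_mulVec]
  · rw [Matrix.mulVec_mulVec, ← hid]; exact hw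

end Cfsg.Agent.Lib.Helper2.S9NORM
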