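import Mathlib
import Cfsg.Agent.Lib.Helper44.SPStmt
import Cfsg.Agent.Lib.Helper44.ODet
import Cfsg.Agent.Lib.Helper44.Omega2
import Cfsg.Agent.Lib.Helper45.OmegaAutKer

/-!
Piece CLIST of S2720: the commutator of an isometry of determinant `-1` with a similarity with
non-square multiplier is a product of an even number of reflections with non-square product of
values.
-/

set_option autoImplicit false

namespace Cfsg.Agent.Lib.Helper2.SPCLIST

open Matrix Polynomial Module QuadraticMap
open Cfsg.Agent.Lib.Helper44.QSpace Cfsg.Agent.Lib.Helper44.OGroup Cfsg.Agent.Lib.Helper44.OMat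
open Cfsg.Agent.Lib.Helper44.Spinor Cfsg.Agent.Lib.Helper44.Omega2
open Cfsg.Agent.Lib.Helper45.OmegaAut Cfsg.Agent.Lib.Helper45.OmegaAutPsi
open Cfsg.Agent.Lib.Helper45.OmegaAutMain Cfsg.Agent.Lib.Helper45.OmegaInndiag

universe u

variable {F : Type u} [Field F] {ι : Type} [Fintype ι] [DecidableEq ι]

/-- a similarity carries a product of reflections to the product of the reflections in the
images -/
theorem prod_map_sim (Q : QuadraticForm F (ι → F)) {M : Matrix ι ι F} {c : F} (hc0 : c ≠ 0)
    (hc : ∀ v, Q (M *ᵥ v) = c * Q v) (ws : List (ι → F)) (y : ι → F) :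
    ((ws.map (fun v => M *ᵥ v)).map (reflE Q)).prod (M *ᵥ y)
      = M *ᵥ ((ws.map (reflE Q)).prod y) := by
  induction ws generalizing y with
  | nil => rfl
  | cons w ws ih =>
    rw [List.map_cons, List.map_cons, List.prod_cons, List.map_cons, List.prod_cons,
      LinearEquiv.mul_apply, LinearEquiv.mul_apply, ih,
      Cfsg.Agent.Lib.Helper45.OmegaAutKer.sim_reflE Q hc0 hc]

/-- the values on the images -/
theorem prod_q_map (Q : QuadraticForm F (ι → F)) {M : Matrix ι ι F} {c : F}
    (hc : ∀ v, Q (M *ᵥ v) = c * Q v) (ws : List (ι → F)) :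
    ((ws.map (fun v => M *ᵥ v)).map (fun v => Q v)).prod
      = c ^ ws.length * (ws.map (fun v => Q v)).prod := by
  induction ws with
  | nil => simp
  | cons w ws ih =>
    rw [List.map_cons, List.map_cons, List.prod_cons, List.map_cons, List.prod_cons, ih, hc,
      List.length_cons]
    ring

/-- the product of the reflections in reverse order is the inverse -/
theorem prod_reverse_inv (Q : QuadraticForm F (ι → F)) (us : List (ι → F)) :
    (us.reverse.map (reflE Q)).prod = ((us.map (reflE Q)).prod)⁻¹ := by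
  induction us with
  | nil => simp
  | cons w ws ih =>
    rw [List.reverse_cons, List.map_append, List.prod_append, ih, List.map_cons, List.prod_cons,
      List.map_cons, List.map_nil, List.prod_cons, List.prod_nil, mul_one, _root_.mul_inv_rev,
      reflE_inv]

theorem main : Cfsg.Agent.Lib.Helper44.SPStmt.CommList.{u} := by
  intro F _ _ ι _ _ Q h2 hS g δ hdet hns
  classical
  obtain ⟨us, hus, hprod⟩ := cdp_of_two_ne_zero h2 hS
    ((isoEquiv Q g : ↥(O Q)) : (ι → F) ≃ₗ[F] (ι → F)) (isoEquiv Q g).2
  have hg' : isoEquiv Q g = (us.map (refl Q)).prod :=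
    Subtype.ext (by rw [coe_prod_refl]; exact hprod)
  have hdet2 := Cfsg.Agent.Lib.Helper44.ODet.det_of_prod Q g us hus hg'
  have hlen : Odd us.length := by
    by_contra hev
    rw [Nat.not_odd_iff_even] at hev
    rw [hev.neg_one_pow] at hdet2
    have h1 : ((g : GL ι F) : Matrix ι ι F).det = 1 := by
      have := congrArg (fun z : Fˣ => (z : F)) hdet2
      simpa [Matrix.GeneralLinearGroup.val_det_apply] using this
    rw [h1] at hdet
    apply h2
    linear_combination hdet
  obtain ⟨m, hm⟩ := hlen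
  have hc : ∀ v, Q (((δ : GL ι F) : Matrix ι ι F) *ᵥ v) = ((mu Q δ : Fˣ) : F) * Q v :=
    mu_spec Q δ
  have hν0 : ((mu Q δ : Fˣ) : F) ≠ 0 := (mu Q δ).ne_zero
  have hS0 : (us.map (fun v => Q v)).prod ≠ 0 := by
    apply List.prod_ne_zero
    intro h0
    rw [List.mem_map] at h0
    obtain ⟨v, hv, hv0⟩ := h0
    exact hus v hv hv0
  refine ⟨us ++ (us.reverse.map (fun v => ((δ : GL ι F) : Matrix ι ι F) *ᵥ v)), ?_, ?_, ?_, ?_⟩
  · intro v hv
    rw [List.mem_append] at hv
    rcases hv with hv | hv
    · exact hus v hv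
    · rw [List.mem_map] at hv
      obtain ⟨w, hw, rfl⟩ := hv
      rw [hc]; exact mul_ne_zero hν0 (hus w (List.mem_reverse.1 hw))
  · rw [List.length_append, List.length_map, List.length_reverse]; exact ⟨us.length, rfl⟩
  · rw [List.map_append, List.prod_append, prod_q_map Q hc, List.length_reverse, List.map_reverse,
      List.prod_reverse, hm]
    rintro ⟨t, ht⟩
    apply hns
    have ht0 : t ≠ 0 := by
      intro h0
      rw [h0, mul_zero] at ht
      have := mul_ne_zero hS0 (mul_ne_zero (pow_ne_zero (2 * m + 1) hν0) hS0)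
      exact this ht
    have hden : ((mu Q δ : Fˣ) : F) ^ m * (us.map (fun v => Q v)).prod ≠ 0 :=
      mul_ne_zero (pow_ne_zero m hν0) hS0
    refine ⟨Units.mk0 (t / (((mu Q δ : Fˣ) : F) ^ m * (us.map (fun v => Q v)).prod))
      (div_ne_zero ht0 hden), ?_⟩
    apply Units.ext
    rw [Units.val_mul, Units.val_mk0]
    field_simp
    linear_combination ht
  · intro x
    rw [List.map_append, List.prod_append, LinearEquiv.mul_apply]
    have hx : x = ((δ : GL ι F) : Matrix ι ι F) *ᵥ
        ((((δ⁻¹ : ↥(Cfsg.Geo.quadSimilarityGroup (F := F) ⇑Q)) : GL ι F) : Matrix ι ι F) *ᵥ x) := by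
      rw [Matrix.mulVec_mulVec, ← Units.val_mul, ← Subgroup.coe_mul, mul_inv_cancel]
      simp
    conv_lhs => rw [hx]
    rw [prod_map_sim Q hν0 hc, prod_reverse_inv, ← hprod, ← Subgroup.coe_inv, ← map_inv,
      isoEquiv_apply, isoEquiv_apply]

end Cfsg.Agent.Lib.Helper2.SPCLIST
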