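import Mathlib
import Cfsg.Agent.Lib.Helper43.SPStmt

/-!
Piece FIXPAR of S2720 (SPIN sub-call): the fixed space of an isometry of odd order of an
even-dimensional nondegenerate quadratic space has even dimension.
-/

set_option autoImplicit false

namespace Cfsg.Agent.Lib.Helper2.SPFIXPAR

open Module QuadraticMap
open Cfsg.Agent.Lib.Helper44.QSpace Cfsg.Agent.Lib.Helper44.OGroup
open Cfsg.Agent.Lib.Helper44.Parity Cfsg.Agent.Lib.Helper44.Spinor
open Cfsg.Agent.Lib.Helper44.OConj Cfsg.Agent.Lib.Helper44.Omega2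

universe u

theorem main : Cfsg.Agent.Lib.Helper43.SPStmt.FixPar.{u} := by
  intro F _ V _ _ _ Q h2 hS s r hs hr hsr hev
  obtain ⟨vs, hvs, hprod⟩ := cdp_of_two_ne_zero h2 hS s hs
  have hpar := finrank_fix_prod hS vs hvs
  rw [← hprod] at hpar
  have hdet := detHom_prod Q vs hvs
  have hcoe := coe_prod_refl Q vs
  have hdet' : LinearEquiv.det s = (-1 : Fˣ) ^ vs.length := by
    rw [hprod, ← hcoe]; exact hdet
  have hpow : (LinearEquiv.det s) ^ r = 1 := by rw [← map_pow, hsr, map_one]
  have hlen : Even vs.length := by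
    by_contra hodd
    rw [Nat.not_even_iff_odd] at hodd
    rw [hdet', hodd.neg_one_pow, hr.neg_one_pow] at hpow
    apply h2
    have h3 : ((-1 : Fˣ) : F) = ((1 : Fˣ) : F) := by rw [hpow]
    rw [Units.val_neg, Units.val_one] at h3
    linear_combination (-1 : F) * h3
  rw [Nat.even_iff] at hev hlen ⊢
  omega

end Cfsg.Agent.Lib.Helper2.SPFIXPAR
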