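import Mathlib
import Cfsg.Agent.Lib.Helper44.SPStmt
import Cfsg.Agent.Lib.Helper44.OCls1

/-!
Piece INV of S2720: an isometry of odd order prime to the characteristic is inverted by an
isometry (it has the same characteristic polynomial as its inverse).
-/

set_option autoImplicit false

namespace Cfsg.Agent.Lib.Helper2.SPINV

open Matrix Polynomial
open Cfsg.Agent.Lib.Helper44.QSpace Cfsg.Agent.Lib.Helper44.OGroup Cfsg.Agent.Lib.Helper44.OMat
open Cfsg.Agent.Lib.Helper40.RecipPoly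

universe u

theorem main : Cfsg.Agent.Lib.Helper44.SPStmt.InvEx.{u} := by
  intro F _ _ ι _ _ Q hS s r hodd hr0 hsr
  have hsinv : s⁻¹ ^ r = 1 := by rw [inv_pow, hsr, inv_one]
  have hmul : ((s : GL ι F) : Matrix ι ι F) *
      (((s⁻¹ : ↥(Cfsg.isometryGroup F ⇑Q)) : GL ι F) : Matrix ι ι F) = 1 := by
    rw [← Units.val_mul, ← Subgroup.coe_mul, mul_inv_cancel]; rfl
  have hiso : ∀ u, Q (((s : GL ι F) : Matrix ι ι F) *ᵥ u) = Q u := fun u => s.2 u u
  have h1 := Cfsg.Agent.Lib.Helper44.OCls1.rstar_charpoly_inv _ _ hmul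
  have h2 := Cfsg.Agent.Lib.Helper44.OCls1.rstar_charpoly_iso hS _ _ hmul hiso
  have hcp : ((s : GL ι F) : Matrix ι ι F).charpoly =
      (((s⁻¹ : ↥(Cfsg.isometryGroup F ⇑Q)) : GL ι F) : Matrix ι ι F).charpoly := by
    rw [← h1, h2]
  have hconj := Cfsg.Agent.Lib.Helper44.OCls1.conj_of_charpoly Q hS s s⁻¹ r hodd hr0 hsr hsinv hcp
  obtain ⟨g, hg⟩ := isConj_iff.1 hconj
  refine ⟨g, ?_⟩
  rw [← hg]; group

end Cfsg.Agent.Lib.Helper2.SPINV
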