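import Mathlib
import Cfsg.Agent.Lib.Helper38.Sp4Stmt
import Cfsg.Agent.Lib.Helper53.PGroupBasics

set_option autoImplicit false

/-!
# S5320 pieces CINV and SCL1, relative to the normal form SNF and S2G
-/

namespace Cfsg.Agent.Lib.Helper2.Sp4CINVa

open Cfsg.Agent.Lib.Helper38.Sp4Stmt

universe u v

theorem cinv_of (hSNF : SNF.{u, v}) : CINV.{u, v} := by
  intro G L _ _ ψ τ ε Q hD hQ u hu hcen
  have hψS : ∀ a ∈ Q, ∀ b ∈ Q, ψ (a, b) ∈ S0 ψ τ Q := fun a ha b hb =>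
    Subgroup.subset_closure (Or.inr ⟨a, ha, b, hb, rfl⟩)
  obtain ⟨a, ha, b, hb, h | h⟩ := (hSNF G L ψ τ ε Q hD u).1 hu
  · subst h
    have hza : ∀ c ∈ Q, a * c = c * a := by
      intro c hc
      have h1 := hcen _ (hψS c hc 1 Q.one_mem)
      rw [← map_mul, ← map_mul] at h1
      have h2 : ψ ((a * c) * (c * a)⁻¹, 1) = 1 := by
        have : ψ ((a * c) * (c * a)⁻¹, 1) = ψ ((a, b) * (c, 1)) * (ψ ((c, 1) * (a, b)))⁻¹ := by
          rw [← map_inv, ← map_mul]; congr 1; simp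
        rw [this, h1, mul_inv_cancel]
      rcases hD.ker _ _ h2 with ⟨h3, _⟩ | ⟨_, h3⟩
      · exact mul_inv_eq_one.mp h3
      · exact absurd h3.symm hD.eps_ne
    have hzb : ∀ c ∈ Q, b * c = c * b := by
      intro c hc
      have h1 := hcen _ (hψS 1 Q.one_mem c hc)
      rw [← map_mul, ← map_mul] at h1
      have h2 : ψ (1, (b * c) * (c * b)⁻¹) = 1 := by
        have : ψ (1, (b * c) * (c * b)⁻¹) = ψ ((a, b) * (1, c)) * (ψ ((1, c) * (a, b)))⁻¹ := by
          rw [← map_inv, ← map_mul]; congr 1; simp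
        rw [this, h1, mul_inv_cancel]
      rcases hD.ker _ _ h2 with ⟨_, h3⟩ | ⟨h3, _⟩
      · exact mul_inv_eq_one.mp h3
      · exact absurd h3.symm hD.eps_ne
    rcases hQ.cen a ha hza with ha1 | ha1 <;> rcases hQ.cen b hb hzb with hb1 | hb1
    · left; rw [ha1, hb1]; exact map_one ψ
    · right
      rw [ha1, hb1]
      have : ψ (1, ε) = ψ (ε, 1) * ψ (ε, ε) := by
        rw [← map_mul]
        congr 1
        rw [Prod.mk_mul_mk, hD.eps_sq, one_mul]
      rw [this, hD.ker_eps, mul_one]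
    · right; rw [ha1, hb1]
    · left; rw [ha1, hb1]; exact hD.ker_eps
  · exfalso
    subst h
    obtain ⟨c, hc, hc1, hcε⟩ := hQ.big
    have h1 := hcen _ (hψS c hc 1 Q.one_mem)
    have e1 : τ * ψ (c, 1) = ψ (1, c) * τ := by
      have := hD.tau_conj c 1
      rw [← this]; group
    have h2 : ψ (a, b) * ψ (1, c) = ψ (c, 1) * ψ (a, b) := by
      have e2 : ψ (a, b) * τ * ψ (c, 1) = ψ (a, b) * ψ (1, c) * τ := by
        rw [mul_assoc, e1, ← mul_assoc]
      rw [e2] at h1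
      have h1' : ψ (a, b) * ψ (1, c) * τ = ψ (c, 1) * ψ (a, b) * τ := by rw [h1, mul_assoc]
      exact mul_right_cancel h1'
    rw [← map_mul, ← map_mul] at h2
    have h3 : ψ (a * (c * a)⁻¹, (b * c) * b⁻¹) = 1 := by
      have : ψ (a * (c * a)⁻¹, (b * c) * b⁻¹) = ψ ((a, b) * (1, c)) * (ψ ((c, 1) * (a, b)))⁻¹ := by
        rw [← map_inv, ← map_mul]; congr 1; simp
      rw [this, h2, mul_inv_cancel]
    rcases hD.ker _ _ h3 with ⟨h4, _⟩ | ⟨h4, _⟩
    · apply hc1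
      have h5 : a = c * a := mul_inv_eq_one.mp h4
      have h6 : c * a = 1 * a := by rw [one_mul]; exact h5.symm
      exact mul_right_cancel h6
    · apply hcε
      have h5 : c⁻¹ = ε := by rw [← h4]; group
      have h6 : ε⁻¹ = ε := inv_eq_of_mul_eq_one_right hD.eps_sq
      rw [← inv_inv c, h5, h6]

theorem scl1_of (hS2G : S2G.{u, v}) (hCINV : CINV.{u, v}) : SCL1.{u, v} := by
  intro G L _ _ _ ψ τ ε Q hD hQ T hT hTne hnorm
  have hp : IsPGroup 2 (S0 ψ τ Q) := by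
    intro x
    obtain ⟨k, hk⟩ := hS2G G L ψ τ ε Q hD hQ x.1 x.2
    exact ⟨k, Subtype.ext (by simpa using hk)⟩
  have : Fact (Nat.Prime 2) := ⟨Nat.prime_two⟩
  have : (T.subgroupOf (S0 ψ τ Q)).Normal := by
    constructor
    intro x hx s
    rw [Subgroup.mem_subgroupOf] at hx ⊢
    exact hnorm _ hx _ s.2
  have hne : T.subgroupOf (S0 ψ τ Q) ≠ ⊥ := by
    intro h
    apply hTne
    rw [Subgroup.subgroupOf_eq_bot, disjoint_iff, inf_eq_left.mpr hT] at h
    exact h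
  obtain ⟨z, hzT, hz1, hzc⟩ :=
    Cfsg.Agent.Lib.Helper53.PGroupBasics.exists_center_mem_normal hp _ hne
  have h := hCINV G L ψ τ ε Q hD hQ z.1 z.2 (by
    intro x hx
    have := (Subgroup.mem_center_iff.mp hzc) ⟨x, hx⟩
    exact (congrArg Subtype.val this).symm)
  rcases h with h | h
  · exact absurd (Subtype.ext h) hz1
  · rw [← h]; exact hzT

end Cfsg.Agent.Lib.Helper2.Sp4CINVa
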