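import Mathlib
import Cfsg.Agent.Lib.Helper38.Sp4Stmt
import Cfsg.Agent.Lib.Helper29.Sp4SNF
import Cfsg.Agent.Lib.Helper2.Sp4CINVa

set_option autoImplicit false

/-!
# S5320 piece CINV: the centre of `S0` is `{1, z}`
-/

namespace Cfsg.Agent.Lib.Helper2.Sp4CINV

open Cfsg.Agent.Lib.Helper38.Sp4Stmt

universe u v

theorem main : CINV.{u, v} :=
  Cfsg.Agent.Lib.Helper2.Sp4CINVa.cinv_of Cfsg.Agent.Lib.Helper29.Sp4SNF.main

end Cfsg.Agent.Lib.Helper2.Sp4CINV
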