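import Mathlib
import Cfsg.Agent.Lib.Helper38.Sp4Stmt
import Cfsg.Agent.Lib.Helper29.Sp4S2G
import Cfsg.Agent.Lib.Helper2.Sp4CINV

set_option autoImplicit false

/-!
# S5320 piece SCL1: a nontrivial normal subgroup of `S0` contains `z`
-/

namespace Cfsg.Agent.Lib.Helper2.Sp4SCL1

open Cfsg.Agent.Lib.Helper38.Sp4Stmt

universe u v

theorem main : SCL1.{u, v} :=
  Cfsg.Agent.Lib.Helper2.Sp4CINVa.scl1_of Cfsg.Agent.Lib.Helper29.Sp4S2G.main
    Cfsg.Agent.Lib.Helper2.Sp4CINV.main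

end Cfsg.Agent.Lib.Helper2.Sp4SCL1
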