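import Mathlib
import Cfsg.Agent.Lib.Helper38.Sp4Stmt

set_option autoImplicit false

/-!
# S5320 piece SCL2: a subgroup of `S0` containing `z`, closed under `G`-fusion in `S0`, is `S0`
-/

namespace Cfsg.Agent.Lib.Helper2.Sp4SCL2

open Cfsg.Agent.Lib.Helper38.Sp4Stmt

universe u v

theorem main : SCL2.{u, v} := by
  intro G L _ _ ψ τ ε Q hD hQ T hT hz hcl
  have hτS : τ ∈ S0 ψ τ Q := Subgroup.subset_closure (Or.inl rfl)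
  have hψS : ∀ a ∈ Q, ∀ b ∈ Q, ψ (a, b) ∈ S0 ψ τ Q := fun a ha b hb =>
    Subgroup.subset_closure (Or.inr ⟨a, ha, b, hb, rfl⟩)
  have hτT : τ ∈ T := by
    obtain ⟨g, hg⟩ := hD.fus
    have := hcl _ hz g (by rw [← hg]; exact hτS)
    rwa [← hg] at this
  have h1 : ∀ a ∈ Q, ψ (a, a⁻¹) ∈ T := by
    intro a ha
    have hc : ψ (a, 1) * τ * (ψ (a, 1))⁻¹ ∈ T := by
      apply hcl _ hτT
      exact (S0 ψ τ Q).mul_mem ((S0 ψ τ Q).mul_mem (hψS a ha 1 Q.one_mem) hτS)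
        ((S0 ψ τ Q).inv_mem (hψS a ha 1 Q.one_mem))
    have h2 : ψ (a, 1) * τ * (ψ (a, 1))⁻¹ * τ⁻¹ ∈ T := T.mul_mem hc (T.inv_mem hτT)
    have h3 : ψ (a, 1) * τ * (ψ (a, 1))⁻¹ * τ⁻¹ = ψ (a, a⁻¹) := by
      have e1 : τ * (ψ (a, 1))⁻¹ * τ⁻¹ = ψ (1, a⁻¹) := by
        rw [← map_inv]
        have : ((a, 1) : L × L)⁻¹ = (a⁻¹, 1) := by simp
        rw [this, hD.tau_conj]
      calc ψ (a, 1) * τ * (ψ (a, 1))⁻¹ * τ⁻¹ = ψ (a, 1) * (τ * (ψ (a, 1))⁻¹ * τ⁻¹) := by group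
        _ = ψ (a, 1) * ψ (1, a⁻¹) := by rw [e1]
        _ = ψ (a, a⁻¹) := by rw [← map_mul]; simp
    rwa [h3] at h2
  have h2 : ∀ a ∈ Q, ∀ g : L, g * a * g⁻¹ ∈ Q → ψ (1, a⁻¹ * (g * a * g⁻¹)) ∈ T := by
    intro a ha g hg
    have hA : ψ (a⁻¹, a) ∈ T := by
      have := h1 a⁻¹ (Q.inv_mem ha)
      rwa [inv_inv] at this
    have e : ψ (1, g) * ψ (a⁻¹, a) * (ψ (1, g))⁻¹ = ψ (a⁻¹, g * a * g⁻¹) := by
      rw [← map_inv, ← map_mul, ← map_mul]; simp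
    have hc : ψ (1, g) * ψ (a⁻¹, a) * (ψ (1, g))⁻¹ ∈ T := by
      apply hcl _ hA
      rw [e]
      exact hψS _ (Q.inv_mem ha) _ hg
    rw [e] at hc
    have := T.mul_mem (h1 a ha) hc
    rw [← map_mul] at this
    simpa using this
  have h3 : ∀ c ∈ Q, ψ (1, c) ∈ T := by
    intro c hc
    have hle : Subgroup.closure
        {y : L | ∃ a ∈ Q, ∃ g : L, g * a * g⁻¹ ∈ Q ∧ y = a⁻¹ * (g * a * g⁻¹)}
        ≤ T.comap (ψ.comp (MonoidHom.inr L L)) := by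
      rw [Subgroup.closure_le]
      rintro y ⟨a, ha, g, hg, rfl⟩
      show ψ (1, a⁻¹ * (g * a * g⁻¹)) ∈ T
      exact h2 a ha g hg
    exact hle (hQ.foc c hc)
  have h4 : ∀ c ∈ Q, ψ (c, 1) ∈ T := by
    intro c hc
    have := hcl _ (h3 c hc) τ (by rw [hD.tau_conj]; exact hψS c hc 1 Q.one_mem)
    rwa [hD.tau_conj] at this
  rw [S0, Subgroup.closure_le]
  rintro x (rfl | ⟨a, ha, b, hb, rfl⟩)
  · exact hτT
  · have : ψ (a, b) = ψ (a, 1) * ψ (1, b) := by rw [← map_mul]; simp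
    rw [this]; exact T.mul_mem (h4 a ha) (h3 b hb)

end Cfsg.Agent.Lib.Helper2.Sp4SCL2
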