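import Mathlib
import Cfsg.Agent.Lib.Helper38.Sp4Stmt
import Cfsg.Agent.Lib.Helper53.PGroupBasics

set_option autoImplicit false

/-!
# S5320 piece SYLN: a `p`-subgroup containing all `p`-elements of its normalizer is Sylow
-/

namespace Cfsg.Agent.Lib.Helper2.Sp4SYLN

open Cfsg.Agent.Lib.Helper38.Sp4Stmt

universe u

theorem main : SYLN.{u} := by
  intro G _ _ p _ P hP hN
  have hPp : IsPGroup p P := by
    intro x
    obtain ⟨k, hk⟩ := hP x.1 x.2
    exact ⟨k, Subtype.ext (by simpa using hk)⟩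
  obtain ⟨S, hS⟩ := hPp.exists_le_sylow
  refine ⟨S, ?_⟩
  by_contra hne
  have hlt : P.subgroupOf (S : Subgroup G) < ⊤ := by
    rw [lt_top_iff_ne_top]
    intro h
    rw [Subgroup.subgroupOf_eq_top] at h
    exact hne (le_antisymm h hS)
  have hSp : IsPGroup p (S : Subgroup G) := S.isPGroup'
  have h2 := Cfsg.Agent.Lib.Helper53.PGroupBasics.lt_normalizer_of_lt_top hSp _ hlt
  obtain ⟨n, hn, hnP⟩ := SetLike.exists_of_lt h2
  have hnN : (n : G) ∈ Subgroup.normalizer (P : Set G) := by
    rw [Subgroup.mem_normalizer_iff]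
    intro x
    rw [Subgroup.mem_normalizer_iff] at hn
    constructor
    · intro hx
      have := (hn ⟨x, hS hx⟩).1 (by simpa [Subgroup.mem_subgroupOf] using hx)
      simpa [Subgroup.mem_subgroupOf] using this
    · intro hx
      have hxS : x ∈ (S : Subgroup G) := by
        have h1 : (n : G) * x * (n : G)⁻¹ ∈ (S : Subgroup G) := hS hx
        have : x = (n : G)⁻¹ * ((n : G) * x * (n : G)⁻¹) * (n : G) := by group
        rw [this]
        exact (S : Subgroup G).mul_mem
          ((S : Subgroup G).mul_mem ((S : Subgroup G).inv_mem n.2) h1) n.2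
      have := (hn ⟨x, hxS⟩).2 (by simpa [Subgroup.mem_subgroupOf] using hx)
      simpa [Subgroup.mem_subgroupOf] using this
  have hnp : ∃ k : ℕ, (n : G) ^ (p ^ k) = 1 := by
    obtain ⟨k, hk⟩ := hSp n
    exact ⟨k, by simpa using congrArg Subtype.val hk⟩
  exact hnP (by simpa [Subgroup.mem_subgroupOf] using hN _ hnN hnp)

end Cfsg.Agent.Lib.Helper2.Sp4SYLN
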