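import Cfsg.Agent.Lib.Helper61.T2Stmt

set_option autoImplicit false

namespace Cfsg.Agent.Lib.Helper2.T2N1625

universe u v

theorem main : Cfsg.Agent.Lib.Helper61.T2Stmt.N1625.{u, v} := by
  intro cyc jordan G _ _ Ω _ _ act x hx
  obtain ⟨c, hc1, hc⟩ := cyc G Ω act.faith x hx
  constructor
  · intro h16
    have hc' : c = 1 := by omega
    subst hc'
    have h := jordan G Ω act.faith act.two x hx (by omega) (by omega)
    rw [h16, act.card] at h
    norm_num at h
  · intro h25
    have hc' : c = 1 := by omega
    subst hc'
    have h := jordan G Ω act.faith act.two x hx (by omega) (by omega)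
    rw [h25, act.card] at h
    norm_num at h

end Cfsg.Agent.Lib.Helper2.T2N1625
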