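import Cfsg.Agent.Lib.Helper61.T2Stmt

set_option autoImplicit false

namespace Cfsg.Agent.Lib.Helper2.T2P27

universe u v

open MulAction

/-- if `u` normalises `⟨x⟩` (in the form `u⁻¹ x u ∈ ⟨x⟩`) and `x` fixes `α`, then `x` fixes `u • α`. -/
theorem fix_smul {G : Type u} [Group G] {Ω : Type v} [MulAction G Ω] {x y : G} {α : Ω}
    (hα : x • α = α) (hy : y⁻¹ * x * y ∈ Subgroup.zpowers x) : x • (y • α) = y • α := by
  have hx : x ∈ stabilizer G α := hα
  have hz : Subgroup.zpowers x ≤ stabilizer G α := by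
    rw [Subgroup.zpowers_le]; exact hx
  have h1 : (y⁻¹ * x * y) • α = α := hz hy
  rw [mul_smul, mul_smul] at h1
  have h2 := congrArg (fun ω => y • ω) h1
  simpa using h2

theorem main : Cfsg.Agent.Lib.Helper61.T2Stmt.P27.{u, v} := by
  intro tools cyc sylfix G _ _ Ω _ _ act x y hx hy hn1 hn2 h27
  obtain ⟨-, t2, t3, -⟩ := tools G Ω act.two (by omega)
  obtain ⟨c, hc1, hc⟩ := cyc G Ω act.faith x hx
  have h13 : ¬ 13 ^ 2 ∣ Nat.card G := by
    rw [act.card]; norm_num
  obtain ⟨-, s2⟩ := sylfix G Ω t2 x hx h13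
  have hc2 : c = 1 ∨ c = 2 := by omega
  rcases hc2 with rfl | rfl
  · -- f = 14
    have hf : Nat.card {ω : Ω // x • ω = ω} = 14 := by omega
    have hne : Nonempty {ω : Ω // x • ω = ω} := by
      by_contra hemp
      rw [not_nonempty_iff] at hemp
      rw [Nat.card_of_isEmpty] at hf
      omega
    obtain ⟨⟨α, hα⟩⟩ := hne
    have hd := s2 ⟨α, hα⟩
    rw [hf, act.card] at hd
    norm_num at hd
  · -- f = 1
    have hf : Nat.card {ω : Ω // x • ω = ω} = 1 := by omega
    obtain ⟨hsub, ⟨⟨α, hα⟩⟩⟩ := Nat.card_eq_one_iff_unique.mp hf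
    have hyα : y • α = α := by
      have h1 : x • (y • α) = y • α := fix_smul hα hn2
      have := hsub.elim ⟨y • α, h1⟩ ⟨α, hα⟩
      exact congrArg Subtype.val this
    have hymem : y ∈ stabilizer G α := hyα
    have hdvd : orderOf y ∣ Nat.card (stabilizer G α) := Subgroup.orderOf_dvd_natCard _ hymem
    rw [hy] at hdvd
    have hcard := t3 α
    rw [act.card, h27] at hcard
    obtain ⟨k, hk⟩ := hdvd
    rw [hk] at hcard
    omega

end Cfsg.Agent.Lib.Helper2.T2P27
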