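import Cfsg.Agent.Lib.Helper61.T2Stmt

set_option autoImplicit false

namespace Cfsg.Agent.Lib.Helper2.T2P40A

universe u v

open MulAction

theorem main : Cfsg.Agent.Lib.Helper61.T2Stmt.P40A.{u, v} := by
  intro tools cyc sylfix jordan G _ _ Ω _ _ act h40 x hx
  obtain ⟨-, t2, -, -⟩ := tools G Ω act.two (by omega)
  obtain ⟨c, hc1, hc⟩ := cyc G Ω act.faith x hx
  have h13 : ¬ 13 ^ 2 ∣ Nat.card G := by
    rw [act.card]; norm_num
  obtain ⟨-, s2⟩ := sylfix G Ω t2 x hx h13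
  have hc3 : c = 1 ∨ c = 2 ∨ c = 3 := by omega
  rcases hc3 with rfl | rfl | rfl
  · -- f = 27: Jordan
    exfalso
    have h := jordan G Ω act.faith act.two x hx (by omega) (by omega)
    rw [h40, act.card] at h
    norm_num at h
  · -- f = 14
    exfalso
    have hf : Nat.card {ω : Ω // x • ω = ω} = 14 := by omega
    have hne : Nonempty {ω : Ω // x • ω = ω} := by
      by_contra hemp
      rw [not_nonempty_iff] at hemp
      rw [Nat.card_of_isEmpty] at hf
      omega
    obtain ⟨⟨α, hα⟩⟩ := hne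
    have hd := s2 ⟨α, hα⟩
    rw [hf, act.card] at hd
    norm_num at hd
  · -- f = 1
    have hf : Nat.card {ω : Ω // x • ω = ω} = 1 := by omega
    obtain ⟨hsub, ⟨⟨α, hα⟩⟩⟩ := Nat.card_eq_one_iff_unique.mp hf
    refine ⟨α, hα, fun γ hγ => ?_⟩
    have := hsub.elim ⟨γ, hγ⟩ ⟨α, hα⟩
    exact congrArg Subtype.val this

end Cfsg.Agent.Lib.Helper2.T2P40A
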