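import Cfsg.Agent.Lib.Helper61.T2Stmt

set_option autoImplicit false

namespace Cfsg.Agent.Lib.Helper2.T2TOOLS

universe u v

open MulAction

theorem main : Cfsg.Agent.Lib.Helper61.T2Stmt.Tools.{u, v} := by
  intro G _ _ Ω _ _ h2 hn
  have htr : IsPretransitive G Ω := isPretransitive_of_is_two_pretransitive
  have key1 : ∀ α β γ δ : Ω, α ≠ β → γ ≠ δ → ∃ g : G, g • α = γ ∧ g • β = δ :=
    fun α β γ δ hab hcd => (is_two_pretransitive_iff.mp h2) hab hcd
  refine ⟨key1, fun α γ => exists_smul_eq G α γ, ?_, ?_⟩
  · intro α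
    have h1 := index_stabilizer_of_transitive G α
    have h3 := Subgroup.index_mul_card (stabilizer G α)
    rw [h1, Nat.card_eq_fintype_card] at h3
    exact h3.symm
  · intro α β hαβ
    classical
    -- the action of H = G_α on Ω
    have h1 : (stabilizer (stabilizer G α) β).index = (orbit (stabilizer G α) β).ncard :=
      index_stabilizer (stabilizer G α) β
    have h3 := Subgroup.index_mul_card (stabilizer (stabilizer G α) β)
    have horb : orbit (stabilizer G α) β = ({α}ᶜ : Set Ω) := by
      ext γ
      simp only [Set.mem_compl_iff, Set.mem_singleton_iff]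
      constructor
      · rintro ⟨h, rfl⟩
        intro hEq
        apply hαβ
        have h' : (h : G) • α = α := h.2
        have : (h : G) • β = (h : G) • α := by
          rw [h']
          exact hEq
        exact (smul_left_cancel _ this).symm
      · intro hγ
        obtain ⟨g, hg1, hg2⟩ := key1 α β α γ hαβ (Ne.symm hγ)
        exact ⟨⟨g, hg1⟩, hg2⟩
    have hcardorb : (orbit (stabilizer G α) β).ncard = Fintype.card Ω - 1 := by
      rw [horb, Set.ncard_compl, Set.ncard_singleton, Nat.card_eq_fintype_card]
    have hst : Nat.card (stabilizer (stabilizer G α) β) =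
        Nat.card ↥(stabilizer G α ⊓ stabilizer G β) := by
      apply Nat.card_congr
      refine ⟨fun h => ⟨(h.1 : G), ⟨h.1.2, h.2⟩⟩, fun k => ⟨⟨k.1, k.2.1⟩, k.2.2⟩, ?_, ?_⟩
      · intro h; rfl
      · intro k; rfl
    rw [h1, hcardorb, hst] at h3
    exact h3.symm

end Cfsg.Agent.Lib.Helper2.T2TOOLS
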