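import Mathlib
import Cfsg.Agent.Lib.Helper26.T64Stmt

/-!
# S3157, piece GEN: generators and relations
-/

set_option autoImplicit false

namespace Cfsg.Agent.Lib.Helper2.T64GEN

open Cfsg.Agent.Lib.Helper26.T64Stmt

universe u

variable {T : Type u} [Group T]

/-- `x² = y² = 1`, `(xy)² = z`, `z² = 1`: `y x = x y z` -/
theorem rel {x y z : T} (hx : x * x = 1) (hy : y * y = 1) (hz : x * y * x * y = z)
    (hzz : z * z = 1) : y * x = x * y * z := by
  have h1 : (x * y) * (y * x) = 1 := by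
    rw [mul_assoc, ← mul_assoc y y x, hy, one_mul, hx]
  have h2 : (x * y) * (x * y * z) = 1 := by
    rw [← mul_assoc, ← mul_assoc, hz, hzz]
  exact mul_left_cancel (h1.trans h2.symm)

/-- swapping the roles when `z` has order two -/
theorem rel' {x y z : T} (h : y * x = x * y * z) (hzz : z * z = 1) : x * y = y * x * z := by
  rw [h, mul_assoc, hzz, mul_one]

/-- a subgroup generated by a set mapped into it by `ρ` is `ρ`-invariant -/
theorem closure_invariant (ρ : MulAut T) (S : Set T)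
    (h : ∀ s ∈ S, ρ s ∈ Subgroup.closure S) : ∀ n ∈ Subgroup.closure S, ρ n ∈ Subgroup.closure S := by
  intro n hn
  induction hn using Subgroup.closure_induction with
  | mem x hx => exact h x hx
  | one => rw [map_one]; exact one_mem _
  | mul x y _ _ hx hy => rw [map_mul]; exact mul_mem hx hy
  | inv x _ hx => rw [map_inv]; exact inv_mem hx

/-- the possible orders of an invariant subgroup -/
theorem card_cases [Finite T] (ρ : MulAut T) (hmod : Mod3Fact T ρ) (hcard : Nat.card T = 64)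
    (N : Subgroup T) (hN : ∀ n ∈ N, ρ n ∈ N) :
    Nat.card N = 1 ∨ Nat.card N = 4 ∨ Nat.card N = 16 ∨ Nat.card N = 64 := by
  have h1 := hmod N hN
  have h2 : Nat.card N ∣ 2 ^ 6 := by
    have := Subgroup.card_subgroup_dvd_card N
    rw [hcard] at this
    exact this
  obtain ⟨m, hm, hm'⟩ := (Nat.dvd_prime_pow Nat.prime_two).1 h2
  rw [hm'] at h1 ⊢
  interval_cases m <;> simp at h1 ⊢

/-- a strictly larger subgroup has at least twice the order -/
theorem two_mul_card_le [Finite T] (H H' : Subgroup T) (hle : H ≤ H') (x : T) (hx : x ∈ H')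
    (hx' : x ∉ H) : 2 * Nat.card H ≤ Nat.card H' := by
  obtain ⟨k, hk⟩ := Subgroup.card_dvd_of_le hle
  have hpos : 0 < Nat.card H' := Nat.card_pos
  have hk1 : k ≠ 1 := by
    rintro rfl
    rw [mul_one] at hk
    have := Subgroup.eq_of_le_of_card_ge hle (le_of_eq hk)
    exact hx' (this ▸ hx)
  have hk0 : k ≠ 0 := by
    rintro rfl
    rw [mul_zero] at hk
    omega
  have hk2 : 2 ≤ k := by omega
  calc 2 * Nat.card H = Nat.card H * 2 := by ring
    _ ≤ Nat.card H * k := Nat.mul_le_mul_left _ hk2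
    _ = Nat.card H' := hk.symm

theorem main : GEN.{u} := by
  intro T _ _ ρ hcard hord hfpf hff hlang hmod hZ hzexp hsq hcomm hinv
  classical
  obtain ⟨a, b, ha, hb, hab⟩ := hinv
  have hρ3 : ∀ t : T, ρ (ρ (ρ t)) = t := by
    intro t
    have h := pow_orderOf_eq_one ρ
    rw [hord] at h
    have h' := congrArg (fun f : MulAut T => f t) h
    simpa [pow_succ] using h'
  have hainv : a⁻¹ = a := inv_eq_of_mul_eq_one_left ha
  have hbinv : b⁻¹ = b := inv_eq_of_mul_eq_one_left hb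
  have hρa : ρ a * ρ a = 1 := by rw [← map_mul, ha, map_one]
  have hρb : ρ b * ρ b = 1 := by rw [← map_mul, hb, map_one]
  have hρbinv : (ρ b)⁻¹ = ρ b := inv_eq_of_mul_eq_one_left hρb
  have hρainv : (ρ a)⁻¹ = ρ a := inv_eq_of_mul_eq_one_left hρa
  -- the centre is invariant
  have hcenρ : ∀ z ∈ Subgroup.center T, ρ z ∈ Subgroup.center T := by
    intro z hz
    refine Subgroup.mem_center_iff.2 (fun g => ?_)
    have h1 := Subgroup.mem_center_iff.1 hz (ρ.symm g)
    have h2 := congrArg ρ h1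
    simp only [map_mul, MulEquiv.apply_symm_apply] at h2
    exact h2
  obtain ⟨z₁, hz₁⟩ : ∃ z₁ : T, z₁ = a * b * a * b := ⟨_, rfl⟩
  obtain ⟨z₂, hz₂⟩ : ∃ z₂ : T, z₂ = ρ (ρ z₁) := ⟨_, rfl⟩
  have hz1c : z₁ ∈ Subgroup.center T := by
    have := hsq (a * b)
    rw [hz₁, mul_assoc (a * b) a b]
    exact this
  have hz2c : z₂ ∈ Subgroup.center T := by
    rw [hz₂]; exact hcenρ _ (hcenρ _ hz1c)
  have hz1sq : z₁ * z₁ = 1 := hzexp z₁ hz1c
  have hz2sq : z₂ * z₂ = 1 := hzexp z₂ hz2c
  have hz1comm : ∀ t : T, z₁ * t = t * z₁ := fun t => (Subgroup.mem_center_iff.1 hz1c t).symm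
  have hz2comm : ∀ t : T, z₂ * t = t * z₂ := fun t => (Subgroup.mem_center_iff.1 hz2c t).symm
  -- the relations
  have r11 : b * a = a * b * z₁ := rel ha hb hz₁.symm hz1sq
  have r12 : ρ b * a = a * ρ b * z₂ := by
    apply rel ha hρb _ hz2sq
    have h := hcomm a b
    rw [hainv, hbinv, hρbinv, ← hz₁, ← hz₂] at h
    exact h
  have hba : b * a * b * a = z₁ := by
    rw [r11]
    calc a * b * z₁ * b * a = a * b * (z₁ * (b * a)) := by simp only [mul_assoc]
      _ = a * b * (b * a * z₁) := by rw [hz1comm]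
      _ = a * (b * b) * a * z₁ := by simp only [mul_assoc]
      _ = z₁ := by rw [hb, mul_one, ha, one_mul]
  have r13 : b * ρ a = ρ a * b * z₂ := by
    apply rel' _ hz2sq
    apply rel hb hρa _ hz2sq
    have h := hcomm b a
    rw [hainv, hbinv, hρainv, hba, ← hz₂] at h
    exact h
  have hρz1 : ρ z₁ = z₁ * z₂ := by
    have h := (hff z₁).1
    rw [← hz₂] at h
    have h2 : z₁ * (z₁ * z₂) * z₂ = 1 := by
      rw [← mul_assoc, hz1sq, one_mul, hz2sq]
    exact mul_left_cancel (mul_right_cancel (h.trans h2.symm))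
  have hρz2 : ρ z₂ = z₁ := by rw [hz₂, hρ3]
  have r14 : ρ b * ρ a = ρ a * ρ b * (z₁ * z₂) := by
    rw [← map_mul, r11, map_mul, map_mul, hρz1]
  have hρρa : ρ (ρ a) = (a * ρ a)⁻¹ := eq_inv_of_mul_eq_one_right (hff a).1
  have hρρb : ρ (ρ b) = (b * ρ b)⁻¹ := eq_inv_of_mul_eq_one_right (hff b).1
  -- distinctness
  have hz1ne : z₁ ≠ 1 := by
    intro h
    rw [h, mul_one] at r11
    exact hab r11.symm
  refine ⟨a, ρ a, b, ρ b, z₁, z₂, ha, hρa, hb, hρb, hz1sq, hz2sq, hz1comm, hz2comm, (hff a).2,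
    (hff b).2, r11, r12, r13, r14, ?_⟩
  -- generation
  obtain ⟨K, hK⟩ : ∃ K : Subgroup T, K = Subgroup.closure ({a, ρ a, b, ρ b, z₁, z₂} : Set T) :=
    ⟨_, rfl⟩
  obtain ⟨A₀, hA₀⟩ : ∃ A₀ : Subgroup T, A₀ = Subgroup.closure ({a, ρ a, z₁, z₂} : Set T) :=
    ⟨_, rfl⟩
  obtain ⟨Z₀, hZ₀⟩ : ∃ Z₀ : Subgroup T, Z₀ = Subgroup.closure ({z₁, z₂} : Set T) := ⟨_, rfl⟩
  rw [← hK]
  have haK : a ∈ K := hK ▸ Subgroup.subset_closure (by simp)
  have hρaK : ρ a ∈ K := hK ▸ Subgroup.subset_closure (by simp)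
  have hbK : b ∈ K := hK ▸ Subgroup.subset_closure (by simp)
  have hρbK : ρ b ∈ K := hK ▸ Subgroup.subset_closure (by simp)
  have hz1K : z₁ ∈ K := hK ▸ Subgroup.subset_closure (by simp)
  have hz2K : z₂ ∈ K := hK ▸ Subgroup.subset_closure (by simp)
  have haA : a ∈ A₀ := hA₀ ▸ Subgroup.subset_closure (by simp)
  have hρaA : ρ a ∈ A₀ := hA₀ ▸ Subgroup.subset_closure (by simp)
  have hz1A : z₁ ∈ A₀ := hA₀ ▸ Subgroup.subset_closure (by simp)
  have hz2A : z₂ ∈ A₀ := hA₀ ▸ Subgroup.subset_closure (by simp)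
  have hz1Z : z₁ ∈ Z₀ := hZ₀ ▸ Subgroup.subset_closure (by simp)
  have hz2Z : z₂ ∈ Z₀ := hZ₀ ▸ Subgroup.subset_closure (by simp)
  -- invariance
  have hKinv : ∀ n ∈ K, ρ n ∈ K := by
    rw [hK]
    apply closure_invariant
    intro s hs
    rw [← hK]
    simp only [Set.mem_insert_iff, Set.mem_singleton_iff] at hs
    rcases hs with h | h | h | h | h | h
    · rw [h]; exact hρaK
    · rw [h, hρρa]; exact inv_mem (mul_mem haK hρaK)
    · rw [h]; exact hρbK
    · rw [h, hρρb]; exact inv_mem (mul_mem hbK hρbK)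
    · rw [h, hρz1]; exact mul_mem hz1K hz2K
    · rw [h, hρz2]; exact hz1K
  have hAinv : ∀ n ∈ A₀, ρ n ∈ A₀ := by
    rw [hA₀]
    apply closure_invariant
    intro s hs
    rw [← hA₀]
    simp only [Set.mem_insert_iff, Set.mem_singleton_iff] at hs
    rcases hs with h | h | h | h
    · rw [h]; exact hρaA
    · rw [h, hρρa]; exact inv_mem (mul_mem haA hρaA)
    · rw [h, hρz1]; exact mul_mem hz1A hz2A
    · rw [h, hρz2]; exact hz1A
  have hZinv : ∀ n ∈ Z₀, ρ n ∈ Z₀ := by
    rw [hZ₀]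
    apply closure_invariant
    intro s hs
    rw [← hZ₀]
    simp only [Set.mem_insert_iff, Set.mem_singleton_iff] at hs
    rcases hs with h | h
    · rw [h, hρz1]; exact mul_mem hz1Z hz2Z
    · rw [h, hρz2]; exact hz1Z
  -- orders
  have hZ4 : 4 ≤ Nat.card Z₀ := by
    rcases card_cases ρ hmod hcard Z₀ hZinv with h | h | h | h
    · exfalso
      have hbot := Subgroup.eq_bot_of_card_eq Z₀ h
      rw [hbot] at hz1Z
      exact hz1ne (Subgroup.mem_bot.1 hz1Z)
    all_goals omega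
  have hZA : Z₀ ≤ A₀ := by
    rw [hZ₀, hA₀]
    apply Subgroup.closure_mono
    intro s hs
    simp only [Set.mem_insert_iff, Set.mem_singleton_iff] at hs ⊢
    tauto
  have hZcen : Z₀ ≤ Subgroup.center T := by
    rw [hZ₀, Subgroup.closure_le]
    intro s hs
    simp only [Set.mem_insert_iff, Set.mem_singleton_iff] at hs
    rcases hs with h | h
    · rw [h]; exact hz1c
    · rw [h]; exact hz2c
  have haZ : a ∉ Z₀ := by
    intro h
    have := Subgroup.mem_center_iff.1 (hZcen h) b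
    exact hab this.symm
  have hA16 : 16 ≤ Nat.card A₀ := by
    have h8 := two_mul_card_le Z₀ A₀ hZA a haA haZ
    rcases card_cases ρ hmod hcard A₀ hAinv with h | h | h | h <;> omega
  have hAK : A₀ ≤ K := by
    rw [hA₀, hK]
    apply Subgroup.closure_mono
    intro s hs
    simp only [Set.mem_insert_iff, Set.mem_singleton_iff] at hs ⊢
    tauto
  have hAcent : A₀ ≤ Subgroup.centralizer ({a} : Set T) := by
    rw [hA₀, Subgroup.closure_le]
    intro s hs
    simp only [Set.mem_insert_iff, Set.mem_singleton_iff] at hs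
    refine Subgroup.mem_centralizer_iff.2 ?_
    intro y hy
    rw [Set.mem_singleton_iff.1 hy]
    rcases hs with h | h | h | h
    · rw [h]
    · rw [h]; exact (hff a).2
    · rw [h]; exact (hz1comm a).symm
    · rw [h]; exact (hz2comm a).symm
  have hbA : b ∉ A₀ := by
    intro h
    have := Subgroup.mem_centralizer_iff.1 (hAcent h) a (Set.mem_singleton a)
    exact hab this
  have hK32 := two_mul_card_le A₀ K hAK b hbK hbA
  have hK64 : Nat.card K = 64 := by
    rcases card_cases ρ hmod hcard K hKinv with h | h | h | h <;> omega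
  exact Subgroup.eq_top_of_card_eq K (by rw [hcard]; exact hK64)

end Cfsg.Agent.Lib.Helper2.T64GEN
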