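import Mathlib
import Cfsg.Agent.Lib.Helper88.VFStmt

set_option autoImplicit false

namespace Cfsg.Agent.Lib.Helper2.VFEVEN

open Cfsg.Agent.Lib.Helper88.VFStmt

universe u

/-- the exponent sum -/
noncomputable def expSum (Y : Type u) : FreeGroup Y →* Multiplicative ℤ :=
  FreeGroup.lift (fun _ => Multiplicative.ofAdd (1:ℤ))

theorem expSum_of {Y : Type u} (y : Y) : expSum Y (FreeGroup.of y) = Multiplicative.ofAdd (1:ℤ) := by
  simp [expSum]

theorem expSum_mk_parity {Y : Type u} (L : List (Y × Bool)) :
    (Multiplicative.toAdd (expSum Y (FreeGroup.mk L)) - (L.length : ℤ)) % 2 = 0 := by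
  induction L with
  | nil =>
    have : (FreeGroup.mk ([] : List (Y × Bool))) = 1 := rfl
    rw [this, map_one]; simp
  | cons a L ih =>
    have h1 : FreeGroup.mk (a :: L) = FreeGroup.mk [a] * FreeGroup.mk L := by
      rw [FreeGroup.mul_mk]; rfl
    rw [h1, map_mul, toAdd_mul, List.length_cons]
    have h2 : Multiplicative.toAdd (expSum Y (FreeGroup.mk [a])) = 1 ∨
        Multiplicative.toAdd (expSum Y (FreeGroup.mk [a])) = -1 := by
      obtain ⟨y, b⟩ := a
      cases b
      · right
        have e1 : FreeGroup.mk [(y, false)] = (FreeGroup.of y)⁻¹ := rfl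
        rw [e1, map_inv, expSum_of]; rfl
      · left
        have e1 : FreeGroup.mk [(y, true)] = FreeGroup.of y := rfl
        rw [e1, expSum_of]; rfl
    push_cast
    rcases h2 with h2 | h2 <;> rw [h2] <;> omega

theorem main : EvenP.{u} := by
  intro Y K _ _ e φ hφ H _ h hh
  -- the exponent sum is invariant under φ
  have hinv : ∀ g : K, (expSum Y).comp (φ g).toMonoidHom =
      (MulAut.conj ((1 : K →* Multiplicative ℤ) g)).toMonoidHom.comp (expSum Y) := by
    intro g
    apply FreeGroup.ext_hom
    intro y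
    simp only [MonoidHom.comp_apply, MulEquiv.coe_toMonoidHom, MonoidHom.one_apply, map_one]
    rw [hφ g]
    have e1 : FreeGroup.freeGroupCongr (e g) (FreeGroup.of y) = FreeGroup.of (e g y) := by
      simp
    rw [e1, expSum_of, expSum_of]; rfl
  obtain ⟨S, hS⟩ : ∃ S : (FreeGroup Y ⋊[φ] K) →* Multiplicative ℤ,
      ∀ a, S a = expSum Y a.left := by
    refine ⟨SemidirectProduct.lift (expSum Y) 1 hinv, fun a => ?_⟩
    have : a = SemidirectProduct.inl a.left * SemidirectProduct.inr a.right := by
      ext <;> simp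
    conv_lhs => rw [this]
    rw [map_mul, SemidirectProduct.lift_inl, SemidirectProduct.lift_inr]; simp
  -- finite order
  obtain ⟨n, hn, hpow⟩ := isOfFinOrder_iff_pow_eq_one.mp (isOfFinOrder_of_finite (⟨h, hh⟩ : H))
  have hpow' : h ^ n = 1 := by
    have := congrArg Subtype.val hpow
    simpa using this
  have h0 : Multiplicative.toAdd (S h) = 0 := by
    have h1 : (S h) ^ n = 1 := by rw [← map_pow, hpow', map_one]
    have h2 : n • Multiplicative.toAdd (S h) = 0 := by
      have := congrArg Multiplicative.toAdd h1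
      simpa using this
    rcases smul_eq_zero.mp h2 with h3 | h3
    · omega
    · exact h3
  rw [hS] at h0
  have hp := expSum_mk_parity (FreeGroup.toWord h.left)
  rw [FreeGroup.mk_toWord, h0] at hp
  rw [Nat.even_iff]
  omega

end Cfsg.Agent.Lib.Helper2.VFEVEN
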