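import Mathlib
import Cfsg.Agent.Lib.Helper88.VFStmt

set_option autoImplicit false

namespace Cfsg.Agent.Lib.Helper2.VFFREE

open Cfsg.Agent.Lib.Helper88.VFStmt

universe u

theorem main : FreeP.{u} := by
  intro N₀ K _ _ _ _ φ Gp
  obtain ⟨r, hr⟩ : ∃ r : Gp →* K, ∀ g : Gp, r g = (g : N₀ ⋊[φ] K).right :=
    ⟨SemidirectProduct.rightHom.comp Gp.subtype, fun g => rfl⟩
  refine ⟨r.ker, inferInstance, ?_, ?_⟩
  · -- the kernel embeds in N₀
    have hright : ∀ n : r.ker, ((n : Gp) : N₀ ⋊[φ] K).right = 1 := by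
      intro n
      have := n.2
      rw [MonoidHom.mem_ker, hr] at this
      exact this
    obtain ⟨f, hf⟩ : ∃ f : r.ker →* N₀, ∀ n : r.ker, f n = ((n : Gp) : N₀ ⋊[φ] K).left := by
      refine ⟨MonoidHom.mk' (fun n => ((n : Gp) : N₀ ⋊[φ] K).left) ?_, fun n => rfl⟩
      intro a b
      show (((a * b : r.ker) : Gp) : N₀ ⋊[φ] K).left = _
      rw [Subgroup.coe_mul, Subgroup.coe_mul, SemidirectProduct.mul_left, hright a, map_one]
      rfl
    have hinj : Function.Injective f := by
      intro a b hab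
      rw [hf, hf] at hab
      apply Subtype.ext
      apply Subtype.ext
      apply SemidirectProduct.ext
      · exact hab
      · rw [hright a, hright b]
    exact IsFreeGroup.ofMulEquiv (MonoidHom.ofInjective hinj).symm
  · rw [Subgroup.index_ker]
    exact Subgroup.card_subgroup_dvd_card r.range

end Cfsg.Agent.Lib.Helper2.VFFREE
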