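import Mathlib
import Cfsg.Agent.Lib.Helper88.VFStmt

set_option autoImplicit false

namespace Cfsg.Agent.Lib.Helper2.VFISO

open Cfsg.Agent.Lib.Helper88.VFStmt

universe u

theorem main : IsoP.{u} := by
  intro Y Y' _ _ e w
  have h1 : FreeGroup.freeGroupCongr e w
      = FreeGroup.mk ((FreeGroup.toWord w).map (Prod.map e id)) := by
    conv_lhs => rw [← FreeGroup.mk_toWord (x := w)]
    rfl
  rw [h1, FreeGroup.toWord_mk]
  apply FreeGroup.IsReduced.reduce_eq
  have hr := FreeGroup.isReduced_toWord (x := w)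
  unfold FreeGroup.IsReduced at hr ⊢
  rw [List.isChain_map]
  exact hr.imp (fun a b h h' => h (e.injective h'))

end Cfsg.Agent.Lib.Helper2.VFISO
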