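import Mathlib
import Cfsg.Agent.Lib.Helper88.VFStmt

set_option autoImplicit false

namespace Cfsg.Agent.Lib.Helper2.VFLCP

open Cfsg.Agent.Lib.Helper88.VFStmt

universe u

/-- longest common prefix -/
theorem lcp {α : Type u} [DecidableEq α] : ∀ A X : List α, ∃ p s t : List α,
    A = p ++ s ∧ X = p ++ t ∧ ∀ c s' d t', s = c :: s' → t = d :: t' → c ≠ d := by
  intro A
  induction A with
  | nil =>
    intro X
    exact ⟨[], [], X, rfl, rfl, fun c s' d t' h => by simp at h⟩
  | cons c A' ih =>
    intro X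
    cases X with
    | nil => exact ⟨[], c :: A', [], rfl, rfl, fun c s' d t' _ h => by simp at h⟩
    | cons d X' =>
      by_cases hcd : c = d
      · obtain ⟨p, s, t, h1, h2, h3⟩ := ih X'
        exact ⟨c :: p, s, t, by rw [h1]; rfl, by rw [h2, hcd]; rfl, h3⟩
      · refine ⟨[], c :: A', d :: X', rfl, rfl, ?_⟩
        intro c' s' d' t' h1 h2
        simp only [List.cons.injEq] at h1 h2
        rw [← h1.1, ← h2.1]; exact hcd

theorem isReduced_invRev {Y : Type u} [DecidableEq Y] {L : List (Y × Bool)}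
    (h : FreeGroup.IsReduced L) : FreeGroup.IsReduced (FreeGroup.invRev L) := by
  apply FreeGroup.IsReduced.of_reduce_eq
  rw [FreeGroup.reduce_invRev, h.reduce_eq]

theorem main : LcpP.{u} := by
  intro Y _ a x
  obtain ⟨p, s, t, hA, hX, hne⟩ := lcp (FreeGroup.toWord a) (FreeGroup.toWord x)
  refine ⟨p, s, t, hA, hX, ?_⟩
  have ha : a = FreeGroup.mk p * FreeGroup.mk s := by
    rw [FreeGroup.mul_mk, ← hA, FreeGroup.mk_toWord]
  have hx : x = FreeGroup.mk p * FreeGroup.mk t := by
    rw [FreeGroup.mul_mk, ← hX, FreeGroup.mk_toWord]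
  have hprod : a⁻¹ * x = FreeGroup.mk (FreeGroup.invRev s ++ t) := by
    rw [← FreeGroup.mul_mk, ← FreeGroup.inv_mk]
    conv_lhs => rw [ha, hx]
    group
  rw [hprod, FreeGroup.toWord_mk]
  apply FreeGroup.IsReduced.reduce_eq
  have hRA : FreeGroup.IsReduced (FreeGroup.toWord a) := FreeGroup.isReduced_toWord
  have hRX : FreeGroup.IsReduced (FreeGroup.toWord x) := FreeGroup.isReduced_toWord
  have hRs : FreeGroup.IsReduced s := hRA.infix ⟨p, [], by rw [hA]; simp⟩
  have hRt : FreeGroup.IsReduced t := hRX.infix ⟨p, [], by rw [hX]; simp⟩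
  have hRs' := isReduced_invRev hRs
  unfold FreeGroup.IsReduced at hRs' hRt ⊢
  rw [List.isChain_append]
  refine ⟨hRs', hRt, ?_⟩
  intro c' hc' d hd h1
  cases s with
  | nil => simp [FreeGroup.invRev] at hc'
  | cons c s' =>
    cases t with
    | nil => simp at hd
    | cons d' t' =>
      have hcd := hne c s' d' t' rfl rfl
      simp only [List.head?_cons, Option.mem_def, Option.some.injEq] at hd
      subst hd
      have hc'' : c' = (c.1, !c.2) := by
        simp [FreeGroup.invRev] at hc'
        exact hc'.symm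
      subst hc''
      simp only at h1 ⊢
      by_contra h2
      apply hcd
      have h3 : c.2 = d'.2 := by
        cases hc2 : c.2 <;> cases hd2 : d'.2 <;> simp_all
      exact Prod.ext h1 h3

end Cfsg.Agent.Lib.Helper2.VFLCP
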